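import Mathlib
import Cfsg.Agent.Coprime44.InvariantSylow
import Cfsg.Agent.PGroup.UniqueOrderP
import Cfsg.Agent.PGroup.Normal

/-!
Elements of small support in a `p`-group of automorphisms of an abelian `p'`-group commute.
-/

set_option autoImplicit false

open scoped commutatorElement

namespace CfsgLib.PLengthExp

universe w

variable {M : Type w} [CommGroup M]

/-- The fixed points of an automorphism. -/
def fixSub (σ : MulAut M) : Subgroup M where
  carrier := {x | σ x = x}
  one_mem' := map_one σ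
  mul_mem' := fun {a b} ha hb => by
    show σ (a * b) = a * b
    rw [map_mul, show σ a = a from ha, show σ b = b from hb]
  inv_mem' := fun {a} ha => by
    show σ a⁻¹ = a⁻¹
    rw [map_inv, show σ a = a from ha]

theorem mem_fixSub {σ : MulAut M} {x : M} : x ∈ fixSub σ ↔ σ x = x := Iff.rfl

/-- `z` moves little, or is a `p`-th power in `P` moving a bounded amount. -/
def Small (p : ℕ) (P : Subgroup (MulAut M)) (z : MulAut M) : Prop :=
  (fixSub z).index ≤ (p - 1) ^ 2 ∨ ∃ σ ∈ P, σ ^ p = z ∧ (fixSub z).index ≤ (p - 1) ^ (2 * p)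

/-- The automorphisms preserving `N`. -/
def presSub (N : Subgroup M) : Subgroup (MulAut M) where
  carrier := {σ | ∀ x, x ∈ N ↔ σ x ∈ N}
  one_mem' := fun _ => Iff.rfl
  mul_mem' := fun {a b} ha hb x => (hb x).trans (ha (b x))
  inv_mem' := fun {a} ha x => by
    refine ⟨fun h => (ha (a⁻¹ x)).2 ?_, fun h => ?_⟩
    · rwa [MulAut.apply_inv_self]
    · have := (ha (a⁻¹ x)).1 h
      rwa [MulAut.apply_inv_self] at this

theorem mem_presSub_of_commute {ω σ : MulAut M} (h : σ * ω = ω * σ) : σ ∈ presSub (fixSub ω) := by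
  intro x
  have h1 : σ (ω x) = ω (σ x) := DFunLike.congr_fun h x
  rw [mem_fixSub, mem_fixSub, ← h1]
  exact σ.injective.eq_iff.symm

/-- Restriction. -/
def resAut (N : Subgroup M) : presSub N →* MulAut N where
  toFun σ :=
    { toFun := fun x => ⟨(σ : MulAut M) x, (σ.2 x).1 x.2⟩
      invFun := fun x => ⟨(σ : MulAut M).symm x, (σ.2 _).2 (by
        rw [MulEquiv.apply_symm_apply]; exact x.2)⟩
      left_inv := fun x => Subtype.ext ((σ : MulAut M).symm_apply_apply x)
      right_inv := fun x => Subtype.ext ((σ : MulAut M).apply_symm_apply x)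
      map_mul' := fun a b => Subtype.ext (map_mul (σ : MulAut M) a.1 b.1) }
  map_one' := MulEquiv.ext fun _ => rfl
  map_mul' _ _ := MulEquiv.ext fun _ => rfl

theorem index_fixSub_res_le [Finite M] (N : Subgroup M) {σ : MulAut M} (hσ : σ ∈ presSub N) :
    (fixSub (resAut N ⟨σ, hσ⟩)).index ≤ (fixSub σ).index := by
  have h : fixSub (resAut N ⟨σ, hσ⟩) = (fixSub σ).subgroupOf N := by
    ext x
    rw [Subgroup.mem_subgroupOf, mem_fixSub, mem_fixSub]
    exact Subtype.ext_iff
  rw [h]
  exact Nat.le_of_dvd (Nat.pos_of_ne_zero Subgroup.index_ne_zero_of_finite)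
    (Subgroup.relIndex_dvd_index_of_normal _ _)

/-- Roots of unity orbit: the norm is fixed. -/
theorem norm_fixed (σ : MulAut M) {n : ℕ} (hσ : σ ^ n = 1) (x : M) :
    σ (∏ k ∈ Finset.range n, (σ ^ k) x) = ∏ k ∈ Finset.range n, (σ ^ k) x := by
  rw [map_prod]
  have h1 : ∀ k, σ ((σ ^ k) x) = (σ ^ (k + 1)) x := fun k => by rw [pow_succ', MulAut.mul_apply]
  simp only [h1]
  have h3 := Finset.prod_range_succ' (fun k => (σ ^ k) x) n
  rw [Finset.prod_range_succ, hσ, pow_zero] at h3
  exact (mul_right_cancel h3).symm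

variable [Finite M] {p : ℕ} [hp : Fact p.Prime]

theorem pow_p_surjective (hM : ¬ p ∣ Nat.card M) (x : M) : ∃ y : M, y ^ p = x :=
  (powCoprime ((hp.out.coprime_iff_not_dvd.2 hM).symm)).surjective x

theorem eq_one_of_pow_eq_one (hM : ¬ p ∣ Nat.card M) {x : M} (h : x ^ p = 1) : x = 1 :=
  orderOf_eq_one_iff.1 (Nat.eq_one_of_dvd_coprimes (hp.out.coprime_iff_not_dvd.2 hM)
    (orderOf_dvd_of_pow_eq_one h) (orderOf_dvd_natCard x))

/-- Commuting on a pair of subgroups that generate up to `p`-th powers is commuting. -/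
theorem commute_of_generated (hM : ¬ p ∣ Nat.card M) {z ζ : MulAut M} {ι : Type*} (N : ι → Subgroup M)
    (h : ∀ i, ∀ x ∈ N i, z (ζ x) = ζ (z x)) (hgen : ∀ x : M, x ^ p ∈ ⨆ i, N i) : z * ζ = ζ * z := by
  refine MulEquiv.ext fun x => ?_
  obtain ⟨y, rfl⟩ := pow_p_surjective (p := p) hM x
  have hle : (⨆ i, N i) ≤ MonoidHom.eqLocus (z * ζ).toMonoidHom (ζ * z).toMonoidHom :=
    iSup_le fun i x hx => h i x hx
  exact hle (hgen y)

/-- The inductive step on an invariant proper subgroup. -/
theorem commute_on_of_induction {N : Subgroup M} (hM : ¬ p ∣ Nat.card M) {P : Subgroup (MulAut M)}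
    (hP : IsPGroup p P)
    (ih : ∀ (Q : Subgroup (MulAut N)), IsPGroup p Q → ∀ z ∈ Q, ∀ ζ ∈ Q, Small p Q z → Small p Q ζ →
      z * ζ = ζ * z)
    {z ζ : MulAut M} (hz : z ∈ P) (hζ : ζ ∈ P) (hzN : z ∈ presSub N) (hζN : ζ ∈ presSub N)
    (hsz : Small p ((P.subgroupOf (presSub N)).map (resAut N)) (resAut N ⟨z, hzN⟩))
    (hsζ : Small p ((P.subgroupOf (presSub N)).map (resAut N)) (resAut N ⟨ζ, hζN⟩)) :
    ∀ x ∈ N, z (ζ x) = ζ (z x) := by
  intro x hx
  have hQ : IsPGroup p ((P.subgroupOf (presSub N)).map (resAut N)) :=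
    (hP.comap_subtype).map _
  have h := DFunLike.congr_fun (ih _ hQ (resAut N ⟨z, hzN⟩) ⟨⟨z, hzN⟩, hz, rfl⟩ (resAut N ⟨ζ, hζN⟩)
    ⟨⟨ζ, hζN⟩, hζ, rfl⟩ hsz hsζ) ⟨x, hx⟩
  exact congrArg Subtype.val h

theorem commute_of_small (hp2 : p ≠ 2) : ∀ (n : ℕ) (M : Type w) [CommGroup M] [Finite M],
    Nat.card M = n → ¬ p ∣ Nat.card M → ∀ (P : Subgroup (MulAut M)), IsPGroup p P →
      ∀ z ∈ P, ∀ ζ ∈ P, Small p P z → Small p P ζ → z * ζ = ζ * z := by
  intro n
  induction n using Nat.strong_induction_on with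
  | _ n ih =>
  intro M _ _ hn hM P hP z hz ζ hζ hsz hsζ
  classical
  have hlt : ∀ N : Subgroup M, N ≠ ⊤ → Nat.card N < n ∧ ¬ p ∣ Nat.card N := by
    intro N hN
    refine ⟨hn ▸ lt_of_le_of_ne (Subgroup.card_le_card_group N) fun h => hN (Subgroup.eq_top_of_card_eq N h),
      fun h => hM (h.trans (Subgroup.card_subgroup_dvd_card N))⟩
  by_cases hab : ∀ u ∈ P, ∀ v ∈ P, u * v = v * u
  · exact hab z hz ζ hζ
  haveI : Finite P := inferInstance
  by_cases hsplit : ∃ a ∈ P, (∀ u ∈ P, u * a = a * u) ∧ a ^ p = 1 ∧ a ≠ 1 ∧ fixSub a ≠ ⊥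
  · obtain ⟨a, haP, hac, hap, ha1, hfix⟩ := hsplit
    let f : M →* M := MonoidHom.mk' (fun x => a x * x⁻¹) fun x y => by rw [map_mul, mul_inv, mul_mul_mul_comm]
    set N₂ := f.range with hN₂
    have hF : fixSub a ≠ ⊤ := fun h => ha1 (MulEquiv.ext fun x => mem_fixSub.1 (h ▸ Subgroup.mem_top x))
    have hN₂top : N₂ ≠ ⊤ := by
      intro h
      refine hfix ((Subgroup.eq_bot_iff_forall _).2 fun x hx => ?_)
      have hinj : Function.Injective f := (Finite.injective_iff_surjective).2 (MonoidHom.range_eq_top.1 h)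
      refine hinj ?_
      rw [map_one]
      show a x * x⁻¹ = 1
      rw [mem_fixSub.1 hx, mul_inv_cancel]
    have hinvF : ∀ u ∈ P, u ∈ presSub (fixSub a) := fun u hu => mem_presSub_of_commute (hac u hu)
    have hinvN : ∀ u ∈ P, u ∈ presSub N₂ := by
      have hhalf : ∀ u ∈ P, ∀ x ∈ N₂, u x ∈ N₂ := by
        rintro u hu _ ⟨y, rfl⟩
        refine ⟨u y, ?_⟩
        show a (u y) * (u y)⁻¹ = u (a y * y⁻¹)
        rw [map_mul, map_inv, show u (a y) = a (u y) from DFunLike.congr_fun (hac u hu) y]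
      intro u hu x
      refine ⟨hhalf u hu x, fun h => ?_⟩
      have := hhalf u⁻¹ (inv_mem hu) _ h
      rwa [MulAut.inv_apply_self] at this
    have hsmall : ∀ (N : Subgroup M) (hN : ∀ u ∈ P, u ∈ presSub N) (u : MulAut M) (hu : u ∈ P),
        Small p P u → Small p ((P.subgroupOf (presSub N)).map (resAut N)) (resAut N ⟨u, hN u hu⟩) := by
      intro N hN u hu h
      rcases h with h | ⟨σ, hσ, rfl, h⟩
      · exact Or.inl ((index_fixSub_res_le N _).trans h)
      · refine Or.inr ⟨resAut N ⟨σ, hN σ hσ⟩, ⟨⟨σ, hN σ hσ⟩, hσ, rfl⟩, ?_, (index_fixSub_res_le N _).trans h⟩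
        rw [← map_pow]; rfl
    refine commute_of_generated (p := p) hM (fun i : Bool => if i then fixSub a else N₂) ?_ fun x => ?_
    · intro i
      rcases i with _ | _
      · exact commute_on_of_induction (p := p) hM hP (fun Q hQ => ih _ (hlt N₂ hN₂top).1 _ rfl (hlt N₂ hN₂top).2 Q hQ)
          hz hζ (hinvN z hz) (hinvN ζ hζ) (hsmall N₂ hinvN z hz hsz) (hsmall N₂ hinvN ζ hζ hsζ)
      · exact commute_on_of_induction (p := p) hM hP
          (fun Q hQ => ih _ (hlt _ hF).1 _ rfl (hlt _ hF).2 Q hQ)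
          hz hζ (hinvF z hz) (hinvF ζ hζ) (hsmall _ hinvF z hz hsz) (hsmall _ hinvF ζ hζ hsζ)
    · have h2 : ∀ k, (a ^ k) x * x⁻¹ ∈ N₂ := by
        intro k
        induction k with
        | zero => simp
        | succ k ihk =>
          rw [show (a ^ (k + 1)) x * x⁻¹ = f ((a ^ k) x) * ((a ^ k) x * x⁻¹) by
            show _ = a ((a ^ k) x) * ((a ^ k) x)⁻¹ * ((a ^ k) x * x⁻¹)
            rw [pow_succ', MulAut.mul_apply]; group]
          exact mul_mem ⟨_, rfl⟩ ihk
      have h3 : x ^ p = (∏ k ∈ Finset.range p, (a ^ k) x) * (∏ k ∈ Finset.range p, (a ^ k) x * x⁻¹)⁻¹ := by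
        rw [Finset.prod_mul_distrib, Finset.prod_const, Finset.card_range, inv_pow, mul_inv, inv_inv,
          mul_inv_cancel_left]
      rw [h3]
      refine mul_mem ?_ (inv_mem (prod_mem fun k _ => ?_))
      · exact (le_iSup (fun i : Bool => if i then fixSub a else N₂) true) (mem_fixSub.2 (norm_fixed a hap x))
      · exact (le_iSup (fun i : Bool => if i then fixSub a else N₂) false) (h2 k)
  push Not at hsplit
  -- all central elements of order `p` are fixed point free
  have hfpf : ∀ a ∈ P, (∀ u ∈ P, u * a = a * u) → a ^ p = 1 → a ≠ 1 → ∀ x, a x = x → x = 1 :=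
    fun a ha hc hap ha1 x hx => (Subgroup.eq_bot_iff_forall _).1 (hsplit a ha hc hap ha1) x (mem_fixSub.2 hx)
  have hnc : ¬ IsCyclic P := fun h => hab fun u hu v hv => by
    letI := h.commGroup
    exact congrArg Subtype.val (mul_comm (⟨u, hu⟩ : P) ⟨v, hv⟩)
  obtain ⟨E, hEn, hEel, hEc⟩ := CfsgLib.PGroup.exists_normal_elementary_sq hp2 hP hnc
  haveI := hEn
  have hexpE : ∀ e ∈ E, e ^ p = 1 := fun e he => by
    exact hEel.2 e he
  have hEne : E ≠ ⊥ := fun h => by
    rw [h, Subgroup.card_bot] at hEc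
    exact absurd hEc.symm (Nat.ne_of_gt (Nat.one_lt_pow two_ne_zero hp.out.one_lt))
  obtain ⟨⟨a, haP⟩, ⟨haE, haZ⟩, ha1⟩ : ∃ a, a ∈ E ⊓ Subgroup.center P ∧ a ≠ 1 := by
    by_contra h
    push Not at h
    exact CfsgLib.PGroup.inf_center_ne_bot hP E hEne ((Subgroup.eq_bot_iff_forall _).2 h)
  have hac : ∀ u ∈ P, u * a = a * u := fun u hu =>
    congrArg Subtype.val (Subgroup.mem_center_iff.1 haZ ⟨u, hu⟩)
  have hap : a ^ p = 1 := congrArg Subtype.val (hexpE _ haE)
  have ha1' : a ≠ 1 := fun h => ha1 (Subtype.ext h)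
  have hafix := hfpf a haP hac hap ha1'
  have hza : Nat.card (Subgroup.zpowers (⟨a, haP⟩ : P)) = p := by
    rw [Nat.card_zpowers]; exact orderOf_eq_prime (Subtype.ext hap) ha1
  obtain ⟨⟨b, hbP⟩, hbE, hba⟩ : ∃ b ∈ E, b ∉ Subgroup.zpowers (⟨a, haP⟩ : P) := by
    by_contra h
    push Not at h
    have := Nat.le_of_dvd Nat.card_pos (Subgroup.card_dvd_of_le h)
    rw [hEc, hza] at this
    have := hp.out.two_le
    nlinarith
  have hbp : b ^ p = 1 := congrArg Subtype.val (hexpE _ hbE)
  -- conjugates of `b`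
  have hconj : ∀ g ∈ P, ∃ k : ℕ, g * b = b * a ^ k * g := by
    intro g hg
    set Za := Subgroup.zpowers (⟨a, haP⟩ : P) with hZa
    haveI : Za.Normal := ⟨fun n hn u => by
      obtain ⟨i, rfl⟩ := hn
      have hc : Commute u ((⟨a, haP⟩ : P) ^ i) := (show Commute u (⟨a, haP⟩ : P) from Subgroup.mem_center_iff.1 haZ u).zpow_right i
      show u * (⟨a, haP⟩ : P) ^ i * u⁻¹ ∈ Za
      rw [hc.eq, mul_inv_cancel_right]
      exact zpow_mem (Subgroup.mem_zpowers _) i⟩
    have hE' : (E.map (QuotientGroup.mk' Za)).Normal := hEn.map _ (QuotientGroup.mk'_surjective Za)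
    have hcard : Nat.card (E.map (QuotientGroup.mk' Za)) = p := by
      have h1 : Za ≤ E := Subgroup.zpowers_le.2 haE
      have h2 := Subgroup.card_mul_index (Za.subgroupOf E)
      rw [Nat.card_congr (Subgroup.subgroupOfEquivOfLe h1).toEquiv, hza, hEc] at h2
      have h3 : Nat.card (E.map (QuotientGroup.mk' Za)) = (Za.subgroupOf E).index := by
        rw [show E.map (QuotientGroup.mk' Za) = ((QuotientGroup.mk' Za).comp E.subtype).range by
          rw [MonoidHom.range_comp, Subgroup.range_subtype]]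
        rw [← Subgroup.index_ker]
        congr 1
        ext x
        rw [MonoidHom.mem_ker, Subgroup.mem_subgroupOf]
        exact QuotientGroup.eq_one_iff _
      rw [h3]
      exact Nat.eq_of_mul_eq_mul_left hp.out.pos (h2.trans (pow_two p))
    have hcen := @CfsgLib.PGroup.le_center_of_card_eq _ _ _ _ _ (hP.to_quotient Za) _ hE' hcard
    have h4 := Subgroup.mem_center_iff.1 (hcen ⟨_, hbE, rfl⟩) (QuotientGroup.mk' Za ⟨g, hg⟩)
    rw [← map_mul, ← map_mul] at h4
    obtain ⟨i, hi⟩ : ((⟨b, hbP⟩ : P) * ⟨g, hg⟩)⁻¹ * (⟨g, hg⟩ * ⟨b, hbP⟩) ∈ Za := QuotientGroup.eq.1 (by simpa using h4.symm)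
    obtain ⟨k, hk⟩ := mem_powers_iff_mem_zpowers.2 (⟨i, rfl⟩ : (⟨a, haP⟩ : P) ^ i ∈ Za)
    refine ⟨k, ?_⟩
    have h5 : (b * g)⁻¹ * (g * b) = a ^ k := congrArg Subtype.val (hi.symm.trans hk.symm)
    rw [mul_assoc, ← hac g hg |> fun h => (show g * a ^ k = a ^ k * g from (show Commute g a from h).pow_right k),
      ← mul_assoc, ← h5, mul_inv_cancel_left]
  have hbcomm : b * a = a * b := hac b hbP
  set om : ℕ → MulAut M := fun i => b * a ^ i with hom
  have homp : ∀ i, om i ^ p = 1 := fun i => by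
    rw [hom]
    rw [(show Commute b a from hbcomm).pow_right i |>.mul_pow, hbp, one_mul, ← pow_mul, mul_comm, pow_mul, hap,
      one_pow]
  have hamod : ∀ i j, i ≡ j [MOD p] → a ^ i = a ^ j := fun i j h => by
    rw [← pow_mod_orderOf a i, ← pow_mod_orderOf a j, orderOf_eq_prime hap ha1']
    exact congrArg _ h
  let N : ℕ → Subgroup M := fun i => fixSub (om i)
  -- projections
  let e : ℕ → M → M := fun i x => ∏ l ∈ Finset.range p, ((om i) ^ l) x
  have heN : ∀ i x, e i x ∈ N i := fun i x => mem_fixSub.2 (norm_fixed _ (homp i) x)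
  have hemul : ∀ i x y, e i (x * y) = e i x * e i y := fun i x y => by
    simp only [e, map_mul, Finset.prod_mul_distrib]
  have heprod : ∀ i {ι : Type} (s : Finset ι) (g : ι → M), e i (∏ j ∈ s, g j) = ∏ j ∈ s, e i (g j) :=
    fun i ι s g => map_prod (MonoidHom.mk' (e i) (hemul i)) g s
  have heself : ∀ i j, i ≡ j [MOD p] → ∀ x ∈ N j, e i x = x ^ p := fun i j hij x hx => by
    have h : ∀ l : ℕ, ((om i) ^ l) x = x := fun l => by
      induction l with
      | zero => rfl
      | succ l ihl =>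
        rw [pow_succ, MulAut.mul_apply, show om i = om j by simp only [hom, hamod i j hij], mem_fixSub.1 hx]
        rw [show om i = om j by simp only [hom, hamod i j hij]] at ihl
        exact ihl
    simp only [e, h, Finset.prod_const, Finset.card_range]
  have heother : ∀ i j, ¬ i ≡ j [MOD p] → ∀ x ∈ N j, e i x = 1 := fun i j hij x hx => by
    -- on `N j` the element `om i` is a fixed point free power of `a`
    obtain ⟨d, hd, hd0⟩ : ∃ d : ℕ, om i = a ^ d * om j ∧ ¬ p ∣ d := by
      refine ⟨i + j * (p - 1), ?_, fun hdvd => hij ?_⟩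
      · simp only [hom]
        rw [← mul_assoc, ← ((show Commute b a from hbcomm).pow_right _).eq, mul_assoc, ← pow_add]
        congr 1
        refine hamod _ _ (Nat.ModEq.symm ?_)
        rw [add_assoc, ← Nat.mul_succ, Nat.succ_eq_add_one, Nat.sub_add_cancel hp.out.one_le]
        exact (Nat.modEq_iff_dvd' (by omega)).2 ⟨j, by rw [Nat.add_sub_cancel_left, mul_comm]⟩ |>.symm
      · have h1 : i + j * (p - 1) + j ≡ 0 + j [MOD p] := (Nat.modEq_zero_iff_dvd.2 hdvd).add_right j
        rw [zero_add, add_assoc, ← Nat.mul_succ, Nat.succ_eq_add_one, Nat.sub_add_cancel hp.out.one_le] at h1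
        refine Nat.ModEq.trans (Nat.ModEq.symm ?_) h1
        exact ((Nat.modEq_iff_dvd' (by omega)).2 ⟨j, by rw [Nat.add_sub_cancel_left, mul_comm]⟩).symm
    have hpres : ∀ l : ℕ, ((om i) ^ l) x = ((a ^ d) ^ l) x ∧ ((a ^ d) ^ l) x ∈ N j := fun l => by
      induction l with
      | zero => exact ⟨rfl, hx⟩
      | succ l ihl =>
        have e1 : ((om i) ^ (l + 1)) x = ((a ^ d) ^ (l + 1)) x := by
          rw [pow_succ' (om i), pow_succ' (a ^ d)]
          show om i (((om i) ^ l) x) = (a ^ d) (((a ^ d) ^ l) x)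
          rw [ihl.1, hd]
          show (a ^ d) (om j (((a ^ d) ^ l) x)) = _
          rw [mem_fixSub.1 ihl.2]
        refine ⟨e1, ?_⟩
        rw [pow_succ', MulAut.mul_apply]
        exact ((mem_presSub_of_commute
          ((((show Commute a b from hbcomm.symm).mul_right ((Commute.refl a).pow_right j))).pow_left d).eq) _).1 ihl.2
    simp only [e, fun l => (hpres l).1]
    have had : (a ^ d) ^ p = 1 := by rw [← pow_mul, mul_comm, pow_mul, hap, one_pow]
    refine hfpf (a ^ d) (pow_mem haP d) (fun u hu => ((show Commute u a from hac u hu).pow_right d).eq) had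
      (fun h => hd0 ?_) _ (norm_fixed _ had x)
    rw [← orderOf_eq_prime hap ha1']
    exact orderOf_dvd_of_pow_eq_one h
  have hgenN : ∀ x : M, x ^ p ∈ ⨆ i : Fin p, N i := by
    intro x
    have key : x ^ p = ∏ i ∈ Finset.range p, e i x := by
      simp only [e]
      rw [Finset.prod_comm]
      have h4 : ∀ (l i : ℕ), ((om i) ^ l) x = (b ^ l) (((a ^ l) ^ i) x) := fun l i => by
        simp only [hom]
        rw [((show Commute b a from hbcomm).pow_right i).mul_pow, ← pow_mul, mul_comm i l, pow_mul]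
        rfl
      rw [Finset.prod_eq_single 0]
      · simp [h4]
      · intro l hl hl0
        simp only [h4, ← map_prod]
        have hal : (a ^ l) ^ p = 1 := by rw [← pow_mul, mul_comm, pow_mul, hap, one_pow]
        rw [hfpf (a ^ l) (pow_mem haP l) (fun u hu => ((show Commute u a from hac u hu).pow_right l).eq) hal
          (fun h => ?_) _ (norm_fixed _ hal x), map_one]
        have hdvd := orderOf_dvd_of_pow_eq_one h
        rw [orderOf_eq_prime hap ha1'] at hdvd
        exact absurd (Nat.le_of_dvd (Nat.pos_of_ne_zero hl0) hdvd) (not_le.2 (Finset.mem_range.1 hl))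
      · intro h
        exact absurd (Finset.mem_range.2 hp.out.pos) h
    rw [key]
    exact prod_mem fun i hi => (le_iSup (fun i : Fin p => N i) ⟨i, Finset.mem_range.1 hi⟩) (heN i x)
  have hMne : ∃ x : M, x ≠ 1 := by
    by_contra h
    push Not at h
    exact ha1' (MulEquiv.ext fun x => by rw [h x]; exact map_one a)
  obtain ⟨g₀, hg₀, k₀, hk₀, hk₀0⟩ : ∃ g₀ ∈ P, ∃ k₀ : ℕ, g₀ * b = b * a ^ k₀ * g₀ ∧ ¬ p ∣ k₀ := by
    by_contra hcon
    push Not at hcon
    -- then `b` is central
    have hbc : ∀ u ∈ P, u * b = b * u := fun u hu => by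
      obtain ⟨k, hk⟩ := hconj u hu
      obtain ⟨t, rfl⟩ := hcon u hu k hk
      rwa [pow_mul, hap, one_pow, mul_one] at hk
    obtain ⟨x, hx⟩ := hMne
    refine hx (CfsgLib.Coprime44.eq_one_of_fixed_point_free (p := p) a b hbcomm.symm hap hbp
      (fun w h => eq_one_of_pow_eq_one hM h) (hfpf b hbP hbc hbp fun h => hba (by
        rw [show (⟨b, hbP⟩ : P) = 1 from Subtype.ext h]; exact one_mem _)) (fun i w hw => ?_) x)
    refine hfpf (a * b ^ i) (mul_mem haP (pow_mem hbP i))
      (fun u hu => ((show Commute u a from hac u hu).mul_right ((show Commute u b from hbc u hu).pow_right i)).eq)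
      (by rw [((show Commute a b from hbcomm.symm).pow_right i).mul_pow, hap, one_mul, ← pow_mul, mul_comm,
        pow_mul, hbp, one_pow]) (fun h => ?_) w hw
    by_cases hi : p ∣ i
    · obtain ⟨t, rfl⟩ := hi
      rw [pow_mul, hbp, one_pow, mul_one] at h
      exact ha1' h
    · obtain ⟨s, -, hs⟩ := Nat.exists_mul_mod_eq_one_of_coprime
        ((hp.out.coprime_iff_not_dvd.2 hi).symm) hp.out.one_lt
      refine hba ?_
      have hbs : (b ^ i) ^ s = b := by
        rw [← pow_mul, ← Nat.mod_add_div (i * s) p, hs, pow_add, pow_one, pow_mul, hbp, one_pow, mul_one]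
      have h7 : b = (a⁻¹) ^ s := by
        have h6 : b ^ i = a⁻¹ := eq_inv_of_mul_eq_one_right h
        rw [h6] at hbs
        exact hbs.symm
      rw [show (⟨b, hbP⟩ : P) = (⟨a, haP⟩ : P)⁻¹ ^ s from Subtype.ext h7]
      exact pow_mem (inv_mem (Subgroup.mem_zpowers _)) s
  -- elements move the `N i` cyclically
  have hshift : ∀ g k, g * b = b * a ^ k * g → g ∈ P → ∀ (j i : ℕ) x, x ∈ N i → (g ^ j) x ∈ N (i + k * j) := by
    intro g k hgk hg j
    have h1 : ∀ i x, x ∈ N i → g x ∈ N (i + k) := by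
      intro i x hx
      rw [mem_fixSub]
      have h2 : om (i + k) * g = g * om i := by
        simp only [hom]
        rw [← mul_assoc g, hgk, mul_assoc b (a ^ k) g, ← ((show Commute g a from hac g hg).pow_right k).eq,
          mul_assoc b (g * a ^ k), mul_assoc g, ← pow_add, add_comm k i, mul_assoc,
          ((show Commute g a from hac g hg).pow_right _).eq]
      calc om (i + k) (g x) = (om (i + k) * g) x := rfl
        _ = g (om i x) := by rw [h2]; rfl
        _ = g x := by rw [mem_fixSub.1 hx]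
    induction j with
    | zero => intro i x hx; simpa using hx
    | succ j ihj =>
      intro i x hx
      rw [pow_succ', MulAut.mul_apply, Nat.mul_succ, ← add_assoc]
      exact h1 _ _ (ihj i x hx)
  have hNne : ∀ i, ∃ x ∈ N i, x ≠ 1 := by
    intro i
    by_contra hcon
    push Not at hcon
    obtain ⟨x, hx⟩ := hMne
    refine hx (eq_one_of_pow_eq_one hM (Subgroup.mem_bot.1 ((?_ : (⨆ j : Fin p, N j) ≤ ⊥) (hgenN x))))
    refine iSup_le fun j y hy => Subgroup.mem_bot.2 ?_
    obtain ⟨s, -, hs⟩ := Nat.exists_mul_mod_eq_one_of_coprime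
      ((hp.out.coprime_iff_not_dvd.2 hk₀0).symm) hp.out.one_lt
    -- shift `N j` into `N i`
    set t := s * (i + (p - j)) with ht
    have h1 := hshift g₀ k₀ hk₀ hg₀ t j y hy
    have h2 : ((j : ℕ) + k₀ * t) ≡ i [MOD p] := by
      have hks : k₀ * s ≡ 1 [MOD p] := by
        show (k₀ * s) % p = 1 % p
        rw [hs, Nat.mod_eq_of_lt hp.out.one_lt]
      have h3 : k₀ * t ≡ 1 * (i + (p - j)) [MOD p] := by
        rw [ht, ← mul_assoc]; exact hks.mul_right _
      refine (h3.add_left _).trans ?_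
      rw [one_mul, show (j : ℕ) + (i + (p - j)) = i + p by have := j.2; omega]
      exact Nat.add_modEq_right
    have h4 : (g₀ ^ t) y ∈ N i := by
      rw [mem_fixSub] at h1 ⊢
      rwa [show om i = om ((j : ℕ) + k₀ * t) by simp only [hom, hamod _ _ h2]]
    exact (g₀ ^ t).injective ((hcon _ h4).trans (map_one _).symm)
  have hNp : ∀ i, p + 1 ≤ Nat.card (N i) := by
    intro i
    obtain ⟨x, hx, hx1⟩ := hNne i
    have hmem : ∀ l : ℕ, (a ^ l) x ∈ N i := fun l =>
      ((mem_presSub_of_commute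
        ((((show Commute a b from hbcomm.symm).mul_right ((Commute.refl a).pow_right i))).pow_left l).eq) x).1 hx
    let g : Option (Fin p) → N i := fun o => o.elim 1 fun l => ⟨(a ^ (l : ℕ)) x, hmem l⟩
    have hinj : Function.Injective g := by
      have hne : ∀ l : ℕ, (a ^ l) x ≠ 1 := fun l h => hx1 ((a ^ l).injective (h.trans (map_one _).symm))
      have hlt : ∀ l m : Fin p, (l : ℕ) ≤ m → (a ^ (l : ℕ)) x = (a ^ (m : ℕ)) x → l = m := by
        intro l m hlm h
        by_contra hlm'
        have hd : (m : ℕ) - l ≠ 0 := fun h0 => hlm' (Fin.ext (by omega))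
        have h1 : (a ^ ((m : ℕ) - l)) x = x := by
          refine (a ^ (l : ℕ)).injective ?_
          rw [← MulAut.mul_apply, ← pow_add, Nat.add_sub_cancel' hlm, h]
        refine hx1 (hfpf _ (pow_mem haP _)
          (fun u hu => ((show Commute u a from hac u hu).pow_right _).eq)
          (by rw [← pow_mul, mul_comm, pow_mul, hap, one_pow]) (fun h0 => ?_) x h1)
        have h2 := orderOf_dvd_of_pow_eq_one h0
        rw [orderOf_eq_prime hap ha1'] at h2
        exact absurd (Nat.le_of_dvd (Nat.pos_of_ne_zero hd) h2) (by have := m.2; omega)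
      rintro (_ | l) (_ | m) h
      · rfl
      · exact absurd (congrArg Subtype.val h).symm (hne m)
      · exact absurd (congrArg Subtype.val h) (hne l)
      · rcases le_total (l : ℕ) m with hlm | hlm
        · exact congrArg some (hlt l m hlm (congrArg Subtype.val h))
        · exact congrArg some (hlt m l hlm (congrArg Subtype.val h).symm).symm
    have := Nat.card_le_card_of_injective g hinj
    simpa [Finite.card_option] using this
  -- small elements fix `b`
  have hP0 : ∀ u ∈ P, Small p P u → u * b = b * u := by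
    intro u hu hs
    obtain ⟨k, hk⟩ := hconj u hu
    by_contra hub
    have hk0 : ¬ p ∣ k := fun h => hub (by
      obtain ⟨t, rfl⟩ := h
      rwa [pow_mul, hap, one_pow, mul_one] at hk)
    rcases hs with hs | ⟨σ, hσ, rfl, -⟩
    swap
    · obtain ⟨l, hl⟩ := hconj σ hσ
      refine hub ?_
      have h1 : ∀ j : ℕ, σ ^ j * b = b * a ^ (l * j) * σ ^ j := fun j => by
        induction j with
        | zero => simp
        | succ j ihj =>
          rw [pow_succ', mul_assoc, ihj, ← mul_assoc σ, ← mul_assoc σ b, hl, mul_assoc (b * a ^ l) σ,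
            ((show Commute σ a from hac σ hσ).pow_right _).eq, ← mul_assoc, mul_assoc b (a ^ l), ← pow_add,
            add_comm l, ← Nat.mul_succ, mul_assoc, mul_assoc]
      rw [h1 p, mul_comm l p, pow_mul, hap, one_pow, mul_one]
    -- count
    set C := fixSub u
    let ψ : (Fin (p - 1) → N 0) → M ⧸ C := fun d => ((∏ j : Fin (p - 1), (u ^ (j : ℕ)) (d j : M) : M) : M ⧸ C)
    have hinj : Function.Injective ψ := by
      intro d d' h
      let c : ℕ → M := fun j => if hj : j < p - 1 then ((d ⟨j, hj⟩)⁻¹ * d' ⟨j, hj⟩ : N 0) else (1 : N 0)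
      have hc : ∀ j, c j ∈ N 0 := fun j => by
        simp only [c]
        split_ifs
        · exact SetLike.coe_mem _
        · exact SetLike.coe_mem _
      have hsum : (∏ j ∈ Finset.range (p - 1), (u ^ (j + 1)) (c j)) =
          ∏ j ∈ Finset.range (p - 1), (u ^ j) (c j) := by
        have h1 : u ((∏ j : Fin (p - 1), (u ^ (j : ℕ)) (d j : M))⁻¹ * ∏ j : Fin (p - 1), (u ^ (j : ℕ)) (d' j : M)) =
            _ := mem_fixSub.1 (QuotientGroup.eq.1 h)
        have h2 : (∏ j : Fin (p - 1), (u ^ (j : ℕ)) (d j : M))⁻¹ * ∏ j : Fin (p - 1), (u ^ (j : ℕ)) (d' j : M) =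
            ∏ j ∈ Finset.range (p - 1), (u ^ j) (c j) := by
          rw [← Fin.prod_univ_eq_prod_range, ← Finset.prod_inv_distrib, ← Finset.prod_mul_distrib]
          refine Finset.prod_congr rfl fun j _ => ?_
          simp [c, map_mul, map_inv]
        rw [h2, map_prod] at h1
        refine Eq.trans ?_ h1
        exact Finset.prod_congr rfl fun j _ => by rw [pow_succ', MulAut.mul_apply]
      have hmem : ∀ j t : ℕ, (u ^ t) (c j) ∈ N (0 + k * t) := fun j t => hshift u k hk hu t 0 _ (hc j)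
      have hkinj : ∀ s t : ℕ, s < p → t < p → k * s ≡ k * t [MOD p] → s = t := fun s t hs ht h => by
        have h1 := Nat.ModEq.cancel_left_of_coprime (hp.out.coprime_iff_not_dvd.2 hk0) h
        exact Nat.ModEq.eq_of_lt_of_lt h1 hs ht
      have hproj : ∀ t, t < p → ∀ (f : ℕ → ℕ), (∀ j < p - 1, f j < p) → (∀ i j, f i = f j → i = j) →
          e (0 + k * t) (∏ j ∈ Finset.range (p - 1), (u ^ f j) (c j)) =
            ∏ j ∈ Finset.range (p - 1), if f j = t then ((u ^ t) (c j)) ^ p else 1 := by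
        intro t ht f hf _
        rw [heprod]
        refine Finset.prod_congr rfl fun j hj => ?_
        split_ifs with hjt
        · rw [hjt]; exact heself _ _ rfl _ (hmem j t)
        · refine heother _ _ (fun h => hjt ?_) _ (hmem j (f j))
          exact (hkinj t (f j) ht (hf j (Finset.mem_range.1 hj)) (Nat.ModEq.add_left_cancel' 0 h)).symm
      have hz : ∀ j, j < p - 1 → c j = 1 := by
        intro j
        induction j with
        | zero =>
          intro h0
          have h1 := congrArg (e (0 + k * 0)) hsum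
          rw [hproj 0 hp.out.pos (fun j => j + 1) (fun j hj => by omega) (fun i j h => by omega),
            hproj 0 hp.out.pos (fun j => j) (fun j hj => by omega) (fun i j h => h)] at h1
          simp only [Nat.add_one_ne_zero, if_false, Finset.prod_const_one, Finset.prod_ite_eq',
            Finset.mem_range, if_pos h0] at h1
          simp only [pow_zero, MulAut.one_apply] at h1
          exact eq_one_of_pow_eq_one hM h1.symm
        | succ j ihj =>
          intro hj
          have h1 := congrArg (e (0 + k * (j + 1))) hsum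
          rw [hproj (j + 1) (by omega) (fun j => j + 1) (fun j hj => by omega) (fun i j h => by omega),
            hproj (j + 1) (by omega) (fun j => j) (fun j hj => by omega) (fun i j h => h)] at h1
          simp only [add_left_inj, Finset.prod_ite_eq', Finset.mem_range, if_pos hj,
            if_pos (show j < p - 1 by omega)] at h1
          rw [ihj (by omega), map_one, one_pow] at h1
          exact (u ^ (j + 1)).injective ((eq_one_of_pow_eq_one hM h1.symm).trans (map_one _).symm)
      funext j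
      have h1 := hz j j.2
      simp only [c, dif_pos j.2] at h1
      exact inv_mul_eq_one.1 (Subtype.ext h1)
    have h1 := Nat.card_le_card_of_injective ψ hinj
    rw [Nat.card_fun, Nat.card_eq_fintype_card (α := Fin (p - 1)), Fintype.card_fin] at h1
    have h2 : (p + 1) ^ (p - 1) ≤ (p - 1) ^ 2 := (Nat.pow_le_pow_left (hNp 0) _).trans (h1.trans hs)
    have h3 : (p + 1) ^ 2 ≤ (p + 1) ^ (p - 1) := Nat.pow_le_pow_right (by omega) (by
      have := hp.out.two_le; omega)
    have h4 : (p - 1) ^ 2 < (p + 1) ^ 2 := Nat.pow_lt_pow_left (by omega) two_ne_zero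
    omega
  have hzb := hP0 z hz hsz
  have hζb := hP0 ζ hζ hsζ
  refine commute_of_generated (p := p) hM (fun i : Fin p => N i) (fun i => ?_) hgenN
  have hNi : N i ≠ ⊤ := by
    intro h
    have h1 : om i = 1 := MulEquiv.ext fun x => mem_fixSub.1 (h ▸ Subgroup.mem_top x : x ∈ N i)
    refine hba ?_
    have h2 : b = (a ^ (i : ℕ))⁻¹ := eq_inv_of_mul_eq_one_left h1
    rw [show (⟨b, hbP⟩ : P) = ((⟨a, haP⟩ : P) ^ (i : ℕ))⁻¹ from Subtype.ext h2]
    exact inv_mem (pow_mem (Subgroup.mem_zpowers _) _)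
  have hpres : ∀ u ∈ P, u * b = b * u → u ∈ presSub (N i) := fun u hu hub =>
    mem_presSub_of_commute ((show Commute u b from hub).mul_right ((show Commute u a from hac u hu).pow_right _)).eq
  have hsmall : ∀ u (hu : u ∈ P) (hs : Small p P u), Small p ((P.subgroupOf (presSub (N i))).map (resAut (N i)))
      (resAut (N i) ⟨u, hpres u hu (hP0 u hu hs)⟩) := by
    intro u hu hs
    rcases id hs with h | ⟨σ, hσ, hσu, h⟩
    · exact Or.inl ((index_fixSub_res_le _ _).trans h)
    by_cases hσb : σ * b = b * σ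
    · refine Or.inr ⟨resAut (N i) ⟨σ, hpres σ hσ hσb⟩, ⟨⟨σ, _⟩, hσ, rfl⟩, ?_, (index_fixSub_res_le _ _).trans h⟩
      rw [← map_pow]
      exact congrArg _ (Subtype.ext hσu)
    -- `σ` permutes the summands
    refine Or.inl ?_
    obtain ⟨k, hk⟩ := hconj σ hσ
    have hk0 : ¬ p ∣ k := fun hd => hσb (by
      obtain ⟨t, rfl⟩ := hd
      rwa [pow_mul, hap, one_pow, mul_one] at hk)
    set C₀ := fixSub (resAut (N i) ⟨u, hpres u hu (hP0 u hu hs)⟩) with hC₀
    let ψ : (Fin p → N i ⧸ C₀) → M ⧸ fixSub u := fun d =>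
      ((∏ j : Fin p, (σ ^ (j : ℕ)) ((d j).out : M) : M) : M ⧸ fixSub u)
    have hinj : Function.Injective ψ := by
      intro d d' hdd
      funext j
      rw [← (d j).out_eq, ← (d' j).out_eq]
      refine QuotientGroup.eq.2 (mem_fixSub.2 (Subtype.ext ?_))
      set c : Fin p → N i := fun j => (d j).out⁻¹ * (d' j).out with hc
      show u (c j : M) = (c j : M)
      have h1 : u ((∏ j : Fin p, (σ ^ (j : ℕ)) ((d j).out : M))⁻¹ * ∏ j : Fin p, (σ ^ (j : ℕ)) ((d' j).out : M)) =
          _ := mem_fixSub.1 (QuotientGroup.eq.1 hdd)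
      have h2 : (∏ j : Fin p, (σ ^ (j : ℕ)) ((d j).out : M))⁻¹ * ∏ j : Fin p, (σ ^ (j : ℕ)) ((d' j).out : M) =
          ∏ j : Fin p, (σ ^ (j : ℕ)) (c j : M) := by
        rw [← Finset.prod_inv_distrib, ← Finset.prod_mul_distrib]
        refine Finset.prod_congr rfl fun j _ => ?_
        simp [hc, map_mul, map_inv]
      rw [h2, map_prod] at h1
      have hcomm : ∀ (m : ℕ) (y : M), u ((σ ^ m) y) = (σ ^ m) (u y) := fun m y => by
        rw [← hσu, ← MulAut.mul_apply, ← MulAut.mul_apply, ← pow_add, ← pow_add, add_comm]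
      simp only [hcomm] at h1
      have h3 := congrArg (e ((i : ℕ) + k * (j : ℕ))) h1
      have hu' : ∀ y ∈ N i, u y ∈ N i := fun y hy => ((hpres u hu (hP0 u hu hs)) y).1 hy
      have hp1 : ∀ (g : Fin p → M), (∀ l, g l ∈ N i) →
          e ((i : ℕ) + k * (j : ℕ)) (∏ l : Fin p, (σ ^ (l : ℕ)) (g l)) = ((σ ^ (j : ℕ)) (g j)) ^ p := by
        intro g hg
        rw [heprod, Finset.prod_eq_single j]
        · exact heself _ _ rfl _ (hshift σ k hk hσ j i _ (hg j))
        · intro l _ hlj
          refine heother _ _ (fun h => hlj (Fin.ext ?_)) _ (hshift σ k hk hσ l i _ (hg l))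
          exact (Nat.ModEq.eq_of_lt_of_lt (Nat.ModEq.cancel_left_of_coprime
            (hp.out.coprime_iff_not_dvd.2 hk0) (Nat.ModEq.add_left_cancel' _ h)) j.2 l.2).symm
        · simp
      rw [hp1 (fun l => u (c l : M)) fun l => hu' _ (c l).2, hp1 (fun l => (c l : M)) fun l => (c l).2] at h3
      refine (σ ^ (j : ℕ)).injective ?_
      have h4 : ((σ ^ (j : ℕ)) (u (c j : M)) * ((σ ^ (j : ℕ)) (c j : M))⁻¹) ^ p = 1 := by
        rw [mul_pow, inv_pow, h3, mul_inv_cancel]
      exact mul_inv_eq_one.1 (eq_one_of_pow_eq_one hM h4)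
    have h5 := Nat.card_le_card_of_injective ψ hinj
    rw [Nat.card_fun, Nat.card_eq_fintype_card (α := Fin p), Fintype.card_fin, ← Subgroup.index_eq_card,
      ← Subgroup.index_eq_card] at h5
    have h6 := h5.trans h
    rw [pow_mul] at h6
    exact (Nat.pow_le_pow_iff_left hp.out.ne_zero).1 h6
  exact commute_on_of_induction (p := p) hM hP (fun Q hQ => ih _ (hlt _ hNi).1 _ rfl (hlt _ hNi).2 Q hQ)
    hz hζ (hpres z hz hzb) (hpres ζ hζ hζb) (hsmall z hz hsz) (hsmall ζ hζ hsζ)

end CfsgLib.PLengthExp
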