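import Mathlib
import Cfsg.Agent.HallHigmanB.Main
import Cfsg.Agent.Coprime.Stabilizer

/-!
A central element of a `p`-group acting quadratically, lying deep in the derived series of that group,
centralizes the coprime groups it normalizes.
-/

set_option autoImplicit false

open scoped commutatorElement IsMulCommutative

namespace CfsgLib.PLengthExp

universe u v w

section Series

variable {G : Type*} [Group G]

/-- The derived series of a subgroup, inside the ambient group. -/
def dser (P : Subgroup G) : ℕ → Subgroup G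
  | 0 => P
  | i + 1 => ⁅dser P i, dser P i⁆

theorem dser_zero (P : Subgroup G) : dser P 0 = P := rfl

theorem dser_succ (P : Subgroup G) (i : ℕ) : dser P (i + 1) = ⁅dser P i, dser P i⁆ := rfl

theorem dser_mono {S P : Subgroup G} (h : S ≤ P) (i : ℕ) : dser S i ≤ dser P i := by
  induction i with
  | zero => exact h
  | succ i ih => exact Subgroup.commutator_mono ih ih

theorem dser_succ_le (P : Subgroup G) (i : ℕ) : dser P (i + 1) ≤ dser P i :=
  Subgroup.commutator_le.2 fun a ha b hb =>
    mul_mem (mul_mem (mul_mem ha hb) (inv_mem ha)) (inv_mem hb)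

theorem dser_antitone (P : Subgroup G) {i j : ℕ} (h : i ≤ j) : dser P j ≤ dser P i := by
  induction h with
  | refl => exact le_rfl
  | step _ ih => exact (dser_succ_le P _).trans ih

theorem map_dser {H : Type*} [Group H] (f : G →* H) (P : Subgroup G) (i : ℕ) :
    (dser P i).map f = dser (P.map f) i := by
  induction i with
  | zero => rfl
  | succ i ih => rw [dser_succ, dser_succ, Subgroup.map_commutator, ih]

theorem conj_mem_dser {P : Subgroup G} {g x : G} (hg : g ∈ P) {i : ℕ} (hx : x ∈ dser P i) :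
    g * x * g⁻¹ ∈ dser P i := by
  have h : P.map (MulAut.conj g).toMonoidHom ≤ P := by
    rintro _ ⟨y, hy, rfl⟩
    exact mul_mem (mul_mem hg hy) (inv_mem hg)
  have h2 := Subgroup.mem_map_of_mem (MulAut.conj g).toMonoidHom hx
  rw [map_dser] at h2
  exact dser_mono h i h2

theorem dser_eq (P : Subgroup G) (i : ℕ) : dser P i = (derivedSeries ↥P i).map P.subtype := by
  induction i with
  | zero => rw [dser_zero, derivedSeries_zero, ← MonoidHom.range_eq_map, Subgroup.range_subtype]
  | succ i ih => rw [dser_succ, derivedSeries_succ, Subgroup.map_commutator, ih]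

end Series

variable {k : Type w} [Field k] [IsAlgClosed k] {V : Type v} [AddCommGroup V] [Module k V]

/-- An operator with `(T - 1) ^ 2 = 0` fixes pointwise the abelian coprime groups it normalizes. -/
theorem fixed_of_quadratic {p : ℕ} (hp : p.Prime) (hp2 : p ≠ 2) {A : Type*} [CommGroup A] [Finite A]
    (hA : (Nat.card A : k) ≠ 0) (L : A →* Module.End k V) (σ : MulAut A) (hσ : σ ^ p = 1)
    (T : Module.End k V) (hT : T ^ p = 1) (hTL : ∀ a, T * L a = L (σ a) * T) (hq : (T - 1) ^ 2 = 0)
    (a : A) : L (σ a) = L a := by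
  classical
  letI : Fintype A := Fintype.ofFinite A
  rw [← sub_eq_zero]
  refine CfsgLib.FpfAut.eq_zero_of_eigen hA L _ fun χ w hw => ?_
  have hσ' : ∀ b, σ ((σ ^ (p - 1)) b) = b := fun b => by
    rw [← MulAut.mul_apply, ← pow_succ', Nat.sub_add_cancel hp.one_le, hσ, MulAut.one_apply]
  by_cases hfix : ∀ b, χ (σ b) = χ b
  · rw [LinearMap.sub_apply, hw, hw, hfix, sub_self]
  · have heig : ∀ (i : ℕ) (b : A), L ((σ ^ i) b) ((T ^ i) w) = (χ b : k) • (T ^ i) w := by
      intro i b
      rw [← Module.End.mul_apply, ← CfsgLib.HallHigmanB.twist_pow hTL, Module.End.mul_apply, hw, map_smul]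
    let π : Module.End k V := ∑ b : A, ((χ b)⁻¹ : kˣ).val • L b
    have hπ0 : π w = (Nat.card A : k) • w := by
      simp only [π, LinearMap.sum_apply, LinearMap.smul_apply, hw, smul_smul, Units.inv_mul, one_smul,
        Finset.sum_const, Finset.card_univ, Nat.card_eq_fintype_card, Nat.cast_smul_eq_nsmul]
    have hπi : ∀ i : ℕ, (∃ b, χ ((σ ^ i) b) ≠ χ b) → π ((T ^ i) w) = 0 := by
      rintro i ⟨b₀, hb₀⟩
      let g : A →* kˣ := (χ.comp (σ ^ i).toMonoidHom)⁻¹ * χ
      have hg : g ≠ 1 := fun h => hb₀ (by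
        have h1 : (χ ((σ ^ i) b₀))⁻¹ * χ b₀ = 1 := DFunLike.congr_fun h b₀
        exact inv_mul_eq_one.1 h1)
      simp only [π, LinearMap.sum_apply, LinearMap.smul_apply]
      rw [← Equiv.sum_comp (σ ^ i).toEquiv (fun b => ((χ b)⁻¹ : kˣ).val • L b ((T ^ i) w))]
      have h2 : ∀ b, ((χ ((σ ^ i) b))⁻¹ : kˣ).val • L ((σ ^ i) b) ((T ^ i) w) = (g b : k) • (T ^ i) w := by
        intro b
        rw [heig, smul_smul, ← Units.val_mul]
        rfl
      show ∑ b, ((χ ((σ ^ i) b))⁻¹ : kˣ).val • L ((σ ^ i) b) ((T ^ i) w) = 0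
      rw [Finset.sum_congr rfl fun b _ => h2 b, ← Finset.sum_smul, CfsgLib.FpfAut.sum_units_eq_zero hg,
        zero_smul]
    have hiter : ∀ (i m : ℕ), (∀ b, χ ((σ ^ i) b) = χ b) → ∀ b, χ ((σ ^ (i * m)) b) = χ b := by
      intro i m h b
      induction m generalizing b with
      | zero => simp
      | succ m ih => rw [Nat.mul_succ, pow_add, MulAut.mul_apply, ih, h]
    have h1 : π ((T ^ 1) w) = 0 := hπi 1 (by rw [pow_one]; push Not at hfix; exact hfix)
    have h2 : π ((T ^ 2) w) = 0 := hπi 2 (by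
      by_contra hcon
      push Not at hcon
      refine hfix fun b => ?_
      obtain ⟨m, hm⟩ := hp.odd_of_ne_two hp2
      have h := hiter 2 (m + 1) hcon b
      rwa [show 2 * (m + 1) = p + 1 by omega, pow_succ, hσ, one_mul] at h)
    have h3 : π (((T - 1) ^ 2 : Module.End k V) w) = π ((T ^ 2) w) - π ((T ^ 1) w) - (π ((T ^ 1) w) - π w) := by
      rw [sq (T - 1), Module.End.mul_apply]
      simp only [LinearMap.sub_apply, Module.End.one_apply, map_sub, pow_one, sq, Module.End.mul_apply]
    rw [hq, LinearMap.zero_apply, map_zero, h1, h2, hπ0, sub_zero, zero_sub, zero_sub, neg_neg, eq_comm,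
      smul_eq_zero] at h3
    rw [h3.resolve_left hA, map_zero]

section Setting

variable {H : Type u} [Group H]

/-- The restriction of an automorphism to the centre. -/
noncomputable def centerAut {R : Type*} [Group R] (σ : MulAut R) : MulAut (Subgroup.center R) :=
  MulEquiv.mk' ⟨fun z => ⟨σ z, (Subgroup.characteristic_iff_map_eq.1 inferInstance σ).le ⟨z, z.2, rfl⟩⟩,
    fun z => ⟨σ.symm z, (Subgroup.characteristic_iff_map_eq.1 inferInstance σ.symm).le ⟨z, z.2, rfl⟩⟩,
    fun z => Subtype.ext (σ.symm_apply_apply z), fun z => Subtype.ext (σ.apply_symm_apply z)⟩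
    fun a b => Subtype.ext (map_mul σ a.1 b.1)

theorem centerAut_pow {R : Type*} [Group R] (σ : MulAut R) (i : ℕ) (z : Subgroup.center R) :
    (((centerAut σ ^ i) z : Subgroup.center R) : R) = (σ ^ i) z := by
  induction i with
  | zero => rfl
  | succ i ih =>
    rw [pow_succ', pow_succ', MulAut.mul_apply, MulAut.mul_apply, ← ih]
    rfl

/-- An operator with `(T - 1) ^ 2 = 0` fixes the centre. -/
theorem fixed_center_of_quadratic {p : ℕ} (hp : p.Prime) (hp2 : p ≠ 2) {R : Type*} [Group R] [Finite R]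
    (hR : (Nat.card R : k) ≠ 0) (L : R →* Module.End k V) (hinj : Function.Injective L) (σ : MulAut R)
    (hσ : σ ^ p = 1) (T : Module.End k V) (hT : T ^ p = 1) (hTL : ∀ a, T * L a = L (σ a) * T)
    (hq : (T - 1) ^ 2 = 0) (z : R) (hz : z ∈ Subgroup.center R) : σ z = z := by
  refine hinj ?_
  exact fixed_of_quadratic hp hp2
    (CfsgLib.FpfAut.natCast_ne_zero_of_dvd (Subgroup.card_subgroup_dvd_card _) hR)
    (L.comp (Subgroup.center R).subtype) (centerAut σ)
    (MulEquiv.ext fun w => Subtype.ext (by rw [centerAut_pow, hσ]; rfl)) T hT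
    (fun w => hTL w) hq ⟨z, hz⟩

/-- `s` is in the radical of the commutator pairing given by `χ`. -/
def Rad {R : Type*} [Group R] (χ : Subgroup.center R →* kˣ) (s : R) : Prop :=
  ∀ (t : R) (z : Subgroup.center R), (z : R) = ⁅s, t⁆ → χ z = 1

/-- The critical configuration: a non-degenerate weight forces `p = 3` and a pairing of rank two. -/
theorem index_rad_eq_four [FiniteDimensional k V] [Finite H] {p : ℕ} [hp : Fact p.Prime] [CharP k p]
    (hp2 : p ≠ 2) (ρ : H →* Module.End k V) {a : H} (hap : a ^ p = 1) (hquad : (ρ a - 1) ^ 2 = 0)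
    (R : Subgroup H) (hRk : (Nat.card R : k) ≠ 0) (hRp : ¬ p ∣ Nat.card R)
    (haR : a ∈ Subgroup.normalizer (R : Set H))
    (hgen : Subgroup.closure (Set.range fun s : R => R.normalizerMonoidHom ⟨a, haR⟩ s * s⁻¹) = ⊤)
    (hcomm : ∀ s t : R, ⁅s, t⁆ ∈ Subgroup.center R)
    (χ : Subgroup.center R →* kˣ) (u : V) (hu : u ≠ 0)
    (hχu : ∀ z : Subgroup.center R, ρ ((z : R) : H) u = (χ z : k) • u)
    (hafix : ∀ z : Subgroup.center R, a * ((z : R) : H) = ((z : R) : H) * a)
    (hnd : ¬ ∀ s, Rad χ s) :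
    p = 3 ∧ ∃ D : Subgroup R, D.Normal ∧ D.index = 4 ∧ ∀ s, s ∈ D ↔ Rad χ s := by
  classical
  set σR := R.normalizerMonoidHom ⟨a, haR⟩ with hσR
  have hσRv : ∀ s : R, ((σR s : R) : H) = a * s * a⁻¹ := fun s => rfl
  have hσRp : σR ^ p = 1 := by
    rw [hσR, ← map_pow, show (⟨a, haR⟩ : Subgroup.normalizer (R : Set H)) ^ p = 1 from Subtype.ext hap, map_one]
  have hTp : ρ a ^ p = 1 := by rw [← map_pow, hap, map_one]
  -- the weight space
  let W : Submodule k V :=
    { carrier := {x | ∀ z : Subgroup.center R, ρ ((z : R) : H) x = (χ z : k) • x}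
      add_mem' := fun {x y} hx hy z => by rw [map_add, hx z, hy z, smul_add]
      zero_mem' := fun z => by rw [map_zero, smul_zero]
      smul_mem' := fun c x hx z => by rw [map_smul, hx z, smul_comm] }
  have hWa : W.map (ρ a) ≤ W := by
    rintro _ ⟨x, hx, rfl⟩ z
    rw [← Module.End.mul_apply, ← map_mul, ← hafix, map_mul, Module.End.mul_apply, hx z, map_smul]
  have hWR : ∀ s : R, W.map (ρ s) ≤ W := by
    rintro s _ ⟨x, hx, rfl⟩ z
    have h1 : ((z : R) : H) * s = s * (z : R) := congrArg Subtype.val (Subgroup.mem_center_iff.1 z.2 s).symm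
    rw [← Module.End.mul_apply, ← map_mul, h1, map_mul, Module.End.mul_apply, hx z, map_smul]
  obtain ⟨U, ⟨hU0, hUW, hUa, hUR⟩, hUmin⟩ := (wellFounded_lt (α := Submodule k V)).has_min
    {U | U ≠ ⊥ ∧ U ≤ W ∧ U.map (ρ a) ≤ U ∧ ∀ s : R, U.map (ρ s) ≤ U}
    ⟨W, fun h => hu ((Submodule.eq_bot_iff W).1 h u hχu), le_rfl, hWa, hWR⟩
  haveI : Nontrivial U := Submodule.nontrivial_iff_ne_bot.2 hU0
  let T : Module.End k U := (ρ a).restrict fun x hx => hUa ⟨x, hx, rfl⟩
  let L₀ : R →* Module.End k U :=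
    { toFun := fun s => (ρ (s : H)).restrict fun x hx => hUR s ⟨x, hx, rfl⟩
      map_one' := LinearMap.ext fun x => Subtype.ext (by simp)
      map_mul' := fun b c => LinearMap.ext fun x => Subtype.ext (by simp) }
  have hTpow : ∀ (i : ℕ) (x : U), (((T ^ i) x : U) : V) = (ρ a ^ i) x.1 := by
    intro i x
    induction i with
    | zero => rfl
    | succ i ih =>
      rw [pow_succ', pow_succ', Module.End.mul_apply, Module.End.mul_apply, ← ih]
      rfl
  have hT : T ^ p = 1 := LinearMap.ext fun x => Subtype.ext (by rw [hTpow, hTp]; rfl)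
  have hTq : (T - 1) ^ 2 = 0 := LinearMap.ext fun x => Subtype.ext (by
    have h := LinearMap.congr_fun hquad x.1
    rw [sq, Module.End.mul_apply] at h ⊢
    exact h)
  have hTL₀ : ∀ s, T * L₀ s = L₀ (σR s) * T := fun s => LinearMap.ext fun x => Subtype.ext (by
    show (ρ a) ((ρ (s : H)) x.1) = (ρ ((σR s : R) : H)) ((ρ a) x.1)
    rw [hσRv, ← Module.End.mul_apply, ← Module.End.mul_apply, ← map_mul, ← map_mul, inv_mul_cancel_right])
  have hTinv : T * T ^ (p - 1) = 1 := by rw [← pow_succ', Nat.sub_add_cancel hp.out.one_le, hT]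
  set N := L₀.ker with hN
  have hNσ : N.map σR.toMonoidHom = N := by
    refine Subgroup.eq_of_le_of_card_ge ?_
      (Subgroup.card_map_of_injective (f := σR.toMonoidHom) σR.injective).ge
    rintro _ ⟨s, hs, rfl⟩
    rw [SetLike.mem_coe, MonoidHom.mem_ker] at hs
    rw [MonoidHom.mem_ker]
    calc L₀ (σR s) = L₀ (σR s) * T * T ^ (p - 1) := by rw [mul_assoc, hTinv, mul_one]
      _ = 1 := by rw [← hTL₀, hs, mul_one, hTinv]
  let S := R ⧸ N
  let L : S →* Module.End k U := QuotientGroup.lift N L₀ le_rfl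
  have hLmk : ∀ s : R, L (s : S) = L₀ s := fun s => rfl
  have hinj : Function.Injective L := by
    rw [injective_iff_map_eq_one]
    intro x hx
    induction x using QuotientGroup.induction_on with
    | _ s => exact (QuotientGroup.eq_one_iff s).2 hx
  let σ : MulAut S := QuotientGroup.congr N N σR hNσ
  have hσmk : ∀ (i : ℕ) (s : R), (σ ^ i) (s : S) = ((σR ^ i) s : S) := by
    intro i
    induction i with
    | zero => intro s; rfl
    | succ i ih =>
      intro s
      rw [pow_succ, pow_succ, MulAut.mul_apply, MulAut.mul_apply, ← ih]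
      rfl
  have hσp : σ ^ p = 1 := MulEquiv.ext fun x => by
    induction x using QuotientGroup.induction_on with
    | _ s => rw [hσmk, hσRp]; rfl
  have hTL : ∀ x, T * L x = L (σ x) * T := fun x => by
    induction x using QuotientGroup.induction_on with
    | _ s => exact hTL₀ s
  have hSdvd : Nat.card S ∣ Nat.card R := Subgroup.card_quotient_dvd_card N
  have hSk : (Nat.card S : k) ≠ 0 := CfsgLib.FpfAut.natCast_ne_zero_of_dvd hSdvd hRk
  set Cn := Subgroup.center S with hCn
  have hfixC : ∀ x ∈ Cn, σ x = x := fixed_center_of_quadratic hp.out hp2 hSk L hinj σ hσp T hT hTL hTq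
  have hcommS : ∀ x y : S, ⁅x, y⁆ ∈ Cn := fun x y => by
    induction x using QuotientGroup.induction_on with
    | _ s =>
      induction y using QuotientGroup.induction_on with
      | _ t =>
        refine Subgroup.mem_center_iff.2 fun w => ?_
        induction w using QuotientGroup.induction_on with
        | _ r =>
          rw [← QuotientGroup.mk'_apply N s, ← QuotientGroup.mk'_apply N t, ← map_commutatorElement,
            ← QuotientGroup.mk'_apply N r, ← map_mul, ← map_mul, Subgroup.mem_center_iff.1 (hcomm s t) r]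
  have hLz : ∀ z : Subgroup.center R, L₀ z = (χ z : k) • 1 := fun z =>
    LinearMap.ext fun x => Subtype.ext (hUW x.2 z)
  obtain ⟨x₀, hx₀⟩ := exists_ne (0 : U)
  have hrad : ∀ s : R, (s : S) ∈ Cn ↔ Rad χ s := by
    intro s
    rw [Subgroup.mem_center_iff]
    constructor
    · intro h t z hz
      have h0 : ⁅QuotientGroup.mk' N s, QuotientGroup.mk' N t⁆ = 1 :=
        commutatorElement_eq_one_iff_mul_comm.2 (h _).symm
      have h1 : L ((z : R) : S) = 1 := by
        rw [hz, ← QuotientGroup.mk'_apply N ⁅s, t⁆, map_commutatorElement, h0, map_one]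
      rw [hLmk, hLz] at h1
      refine Units.ext (smul_left_injective k hx₀ ?_)
      simpa using LinearMap.congr_fun h1 x₀
    · intro h w
      induction w using QuotientGroup.induction_on with
      | _ t =>
        refine (commutatorElement_eq_one_iff_mul_comm.1 ?_).symm
        rw [← QuotientGroup.mk'_apply N s, ← QuotientGroup.mk'_apply N t, ← map_commutatorElement,
          QuotientGroup.mk'_apply, QuotientGroup.eq_one_iff, MonoidHom.mem_ker,
          show L₀ ⁅s, t⁆ = (χ ⟨⁅s, t⁆, hcomm s t⟩ : k) • 1 from hLz ⟨_, hcomm s t⟩, h t ⟨_, hcomm s t⟩ rfl,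
          Units.val_one, one_smul]
  have hnc : Cn ≠ ⊤ := fun h => hnd fun s => (hrad s).1 (h ▸ Subgroup.mem_top _)
  have hSp : ∀ (x : S), x ^ p = 1 → x = 1 := fun x hx => by
    refine orderOf_eq_one_iff.1 (Nat.eq_one_of_dvd_coprimes ?_ (orderOf_dvd_of_pow_eq_one hx)
      ((orderOf_dvd_natCard x).trans hSdvd))
    exact (Nat.Prime.coprime_iff_not_dvd hp.out).2 hRp
  -- fixed points are central
  have hgenS : Subgroup.closure (Set.range fun x : S => σ x * x⁻¹) = ⊤ := by
    rw [eq_top_iff, ← Subgroup.map_top_of_surjective _ (QuotientGroup.mk'_surjective N), ← hgen,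
      MonoidHom.map_closure, Subgroup.closure_le]
    rintro _ ⟨_, ⟨s, rfl⟩, rfl⟩
    exact Subgroup.subset_closure ⟨(s : S), rfl⟩
  have hCσ : ∀ x, σ x = x → x ∈ Cn := by
    intro s hs
    refine Subgroup.mem_center_iff.2 fun t => ?_
    suffices h : Subgroup.closure (Set.range fun x : S => σ x * x⁻¹) ≤ Subgroup.centralizer {s} by
      exact Subgroup.mem_centralizer_singleton_iff.1 (h (hgenS ▸ Subgroup.mem_top t))
    rw [Subgroup.closure_le]
    rintro _ ⟨t, rfl⟩
    rw [SetLike.mem_coe, Subgroup.mem_centralizer_singleton_iff]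
    have h1 : σ ⁅s, t⁻¹⁆ = ⁅s, t⁻¹⁆ := hfixC _ (hcommS _ _)
    rw [map_commutatorElement, hs, map_inv] at h1
    have h4 : ∀ x : S, x⁻¹ * s⁻¹ * x = s⁻¹ * ⁅s, x⁻¹⁆ := fun x => by rw [commutatorElement_def]; group
    have h3 : (σ t)⁻¹ * s⁻¹ * σ t = t⁻¹ * s⁻¹ * t := by rw [h4, h4, h1]
    calc σ t * t⁻¹ * s = σ t * (t⁻¹ * s⁻¹ * t)⁻¹ * t⁻¹ := by group
      _ = σ t * ((σ t)⁻¹ * s⁻¹ * σ t)⁻¹ * t⁻¹ := by rw [h3]
      _ = _ := by group
  have hreg : ∀ i, 0 < i → i < p ^ 1 → ∀ x : S, x⁻¹ * (σ ^ i) x ∈ Cn → x ∈ Cn := by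
    intro i hi0 hip x hx
    rw [pow_one] at hip
    set c := x⁻¹ * (σ ^ i) x with hc
    have hσc : ∀ j, (σ ^ j) c = c := fun j => by
      induction j with
      | zero => rfl
      | succ j ih => rw [pow_succ, MulAut.mul_apply, hfixC c hx, ih]
    have hj : ∀ j, (σ ^ (i * j)) x = x * c ^ j := by
      intro j
      induction j with
      | zero => simp
      | succ j ih =>
        rw [Nat.mul_succ, add_comm, pow_add, MulAut.mul_apply, ih, map_mul, map_pow, hσc,
          show (σ ^ i) x = x * c by rw [hc, mul_inv_cancel_left], mul_assoc, ← pow_succ']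
    have h0 := hj p
    rw [mul_comm i p, pow_mul, hσp, one_pow, MulAut.one_apply, left_eq_mul] at h0
    have hc1 : c = 1 := hSp c h0
    obtain ⟨m, -, hm⟩ := Nat.exists_mul_mod_eq_one_of_coprime
      (((Nat.Prime.coprime_iff_not_dvd hp.out).2
        (Nat.not_dvd_of_pos_of_lt hi0 hip)).symm) hp.out.one_lt
    refine hCσ x ?_
    have h1 := hj m
    rw [hc1, one_pow, mul_one, ← Nat.mod_add_div (i * m) p, hm, pow_add, pow_one, pow_mul, hσp, one_pow,
      mul_one] at h1
    exact h1
  have hsimp : ∀ Y : Submodule k U, Y.map T ≤ Y → (∀ x, Y.map (L x) ≤ Y) → Y = ⊥ ∨ Y = ⊤ := by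
    intro Y hYT hYL
    by_contra hcon
    push Not at hcon
    refine hUmin (Y.map U.subtype) ⟨fun h => hcon.1 (Submodule.map_injective_of_injective
        U.injective_subtype (h.trans (Submodule.map_bot U.subtype).symm)),
      (Submodule.map_subtype_le U Y).trans hUW, ?_, fun s => ?_⟩
      (lt_of_le_of_ne (Submodule.map_subtype_le U Y) fun h => hcon.2 (Submodule.map_injective_of_injective
        U.injective_subtype (h.trans (Submodule.map_subtype_top U).symm)))
    · rintro _ ⟨_, ⟨x, hx, rfl⟩, rfl⟩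
      exact ⟨T x, hYT ⟨x, hx, rfl⟩, rfl⟩
    · rintro _ ⟨_, ⟨x, hx, rfl⟩, rfl⟩
      exact ⟨L (s : S) x, hYL _ ⟨x, hx, rfl⟩, rfl⟩
  have hscal : ∀ z ∈ Cn, ∃ c : k, L z = c • 1 := by
    intro z hz
    obtain ⟨c, hc⟩ := Module.End.exists_eigenvalue (L z)
    refine ⟨c, ?_⟩
    refine (hsimp (Module.End.eigenspace (L z) c) ?_ ?_).elim (fun h => absurd h hc) fun h => ?_
    · rintro _ ⟨x, hx, rfl⟩
      rw [SetLike.mem_coe, Module.End.mem_eigenspace_iff] at hx
      have h2 := hTL z
      rw [hfixC z hz] at h2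
      rw [Module.End.mem_eigenspace_iff, ← Module.End.mul_apply, ← h2, Module.End.mul_apply, hx, map_smul]
    · rintro w _ ⟨x, hx, rfl⟩
      rw [SetLike.mem_coe, Module.End.mem_eigenspace_iff] at hx
      rw [Module.End.mem_eigenspace_iff, ← Module.End.mul_apply, ← map_mul,
        ← Subgroup.mem_center_iff.1 hz w, map_mul, Module.End.mul_apply, hx, map_smul]
    · refine LinearMap.ext fun x => ?_
      have h1 : x ∈ Module.End.eigenspace (L z) c := h ▸ Submodule.mem_top
      rw [Module.End.mem_eigenspace_iff] at h1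
      simpa using h1
  have hsimpL := CfsgLib.HallHigmanB.simple_of_twist hSk L hinj hcommS hscal σ 1 (by rwa [pow_one]) T
    (by rwa [pow_one]) hTL hsimp
  rcases CfsgLib.HallHigmanB.critical hSk L hinj hsimpL hcommS hnc σ 1 (by rwa [pow_one]) T (by rwa [pow_one])
    hTL hreg hTq with h | ⟨d, hd, hdr, hd1, hcard⟩
  · rw [pow_one] at h
    have := hp.out.two_le
    omega
  · obtain rfl : d = 2 := by omega
    rw [pow_one] at hd
    refine ⟨hd, Cn.comap (QuotientGroup.mk' N), inferInstance, ?_, fun s => hrad s⟩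
    rw [Subgroup.index_comap_of_surjective _ (QuotientGroup.mk'_surjective N)]
    exact hcard

end Setting

end CfsgLib.PLengthExp
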