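import Mathlib
import Cfsg.Agent.PLengthExp.DerivedCore
import Cfsg.Agent.PLengthExp.TheoremB
import Cfsg.Agent.Coprime44.InvariantSylow
import Cfsg.Agent.TISolvable.Minimal
import Cfsg.Agent.PGroup.Frattini

/-!
For odd `p` the `p`-length of a `p`-solvable group is at most the derived length of its Sylow `p`-subgroups.
-/

set_option autoImplicit false

open scoped commutatorElement IsMulCommutative

namespace CfsgLib.PLengthExp

universe u v w

section Core

variable {k : Type w} [Field k] [IsAlgClosed k] {V : Type v} [AddCommGroup V] [Module k V]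
  {H : Type u} [Group H] [Finite H]

/-- The core of the derived length bound. -/
theorem commute_of_chain [FiniteDimensional k V] {p : ℕ} [hp : Fact p.Prime] [CharP k p] (hp2 : p ≠ 2)
    (ρ : H →* Module.End k V) (hinj : Function.Injective ρ) (P : Subgroup H) (hP : IsPGroup p P) {a : H}
    (hap : a ^ p = 1) (hcen : ∀ y ∈ P, a * y = y * a) (hquad : (ρ a - 1) ^ 2 = 0) {e : ℕ}
    (hae : a ∈ dser P e)
    (hchain : ∀ y : ℕ → H, (∀ i < e, y i ∈ dser P i) → ∀ F : ℕ → Module.End k V, F 0 = 1 →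
      (∀ i < e, F (i + 1) = (ρ (y i) - 1) * F i) → (ρ a - 1) * F e = 0)
    {q : ℕ} [hq : Fact q.Prime] (hqp : q ≠ p) {R₀ : Subgroup H} (hR₀ : IsPGroup q R₀)
    (hPR₀ : P ≤ Subgroup.normalizer (R₀ : Set H)) :
    ∀ r ∈ R₀, a * r = r * a := by
  classical
  by_contra hmov
  have haP : a ∈ P := dser_antitone P (Nat.zero_le e) hae
  -- a minimal moved invariant subgroup
  obtain ⟨R, ⟨hRR₀, hPR, hRmov⟩, hRmin⟩ := (wellFounded_lt (α := Subgroup H)).has_min
    {X | X ≤ R₀ ∧ P ≤ Subgroup.normalizer (X : Set H) ∧ ¬ ∀ r ∈ X, a * r = r * a} ⟨R₀, le_rfl, hPR₀, hmov⟩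
  have hmin : ∀ X : Subgroup H, X < R → P ≤ Subgroup.normalizer (X : Set H) → ∀ r ∈ X, a * r = r * a := by
    intro X hX hPX
    by_contra h
    exact hRmin X ⟨hX.le.trans hRR₀, hPX, h⟩ hX
  have hRq : IsPGroup q R := hR₀.to_le hRR₀
  have hRp : ¬ p ∣ Nat.card R := by
    obtain ⟨i, hi⟩ := IsPGroup.iff_card.1 hRq
    rw [hi]
    intro h
    exact hqp ((Nat.prime_dvd_prime_iff_eq hp.out hq.out).1 (hp.out.dvd_of_dvd_pow h)).symm
  have hRk : (Nat.card R : k) ≠ 0 := by rwa [Ne, CharP.cast_eq_zero_iff k p]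
  haveI : Nontrivial R := by
    rw [Subgroup.nontrivial_iff_ne_bot]
    rintro rfl
    exact hRmov fun r hr => by rw [Subgroup.mem_bot.1 hr, mul_one, one_mul]
  let c : P →* MulAut R := R.normalizerMonoidHom.comp (Subgroup.inclusion hPR)
  have hcv : ∀ (y : P) (s : R), ((c y s : R) : H) = y * s * (y : H)⁻¹ := fun y s => rfl
  set σ := c ⟨a, haP⟩ with hσ
  have hcσ : ∀ (y : P) (s : R), c y (σ s) = σ (c y s) := fun y s => by
    rw [hσ, ← MulAut.mul_apply, ← MulAut.mul_apply, ← map_mul, ← map_mul,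
      show y * ⟨a, haP⟩ = ⟨a, haP⟩ * y from Subtype.ext (hcen y y.2).symm]
  have hσfix : ∀ s : R, σ s = s → a * (s : H) = s * a := fun s hs => by
    have h := congrArg Subtype.val hs
    rw [hcv] at h
    exact mul_inv_eq_iff_eq_mul.1 h
  have hσp : σ ^ p = 1 := by
    rw [hσ, ← map_pow, show (⟨a, haP⟩ : P) ^ p = 1 from Subtype.ext hap, map_one]
  -- the centre is centralized
  have hafix : ∀ z : Subgroup.center R, a * ((z : R) : H) = ((z : R) : H) * a := by
    rintro ⟨z, hz⟩
    refine hσfix z (fixed_center_of_quadratic hp.out hp2 hRk (ρ.comp R.subtype)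
      (hinj.comp R.subtype_injective) σ hσp (ρ a) (by rw [← map_pow, hap, map_one]) (fun s => ?_) hquad z hz)
    show ρ a * ρ (s : H) = ρ ((σ s : R) : H) * ρ a
    rw [hcv, ← map_mul, ← map_mul, inv_mul_cancel_right]
  -- `[R, a] = R`
  set gens := Set.range fun s : R => σ s * s⁻¹ with hgens
  have hgeninv : ∀ (y : P), (Subgroup.closure gens).map (c y).toMonoidHom ≤ Subgroup.closure gens := by
    intro y
    rw [MonoidHom.map_closure, Subgroup.closure_le]
    rintro _ ⟨_, ⟨s, rfl⟩, rfl⟩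
    refine Subgroup.subset_closure ⟨c y s, ?_⟩
    show σ (c y s) * (c y s)⁻¹ = c y (σ s * s⁻¹)
    rw [map_mul, map_inv, hcσ]
  have hnorm : ∀ X : Subgroup R, (∀ y : P, X.map (c y).toMonoidHom ≤ X) →
      P ≤ Subgroup.normalizer ((X.map R.subtype : Subgroup H) : Set H) := by
    intro X hX y hy
    rw [Subgroup.mem_normalizer_iff_map_conj_eq]
    refine Subgroup.eq_of_le_of_card_ge ?_
      (Subgroup.card_map_of_injective (f := (MulAut.conj y).toMonoidHom) (MulAut.conj y).injective).ge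
    rintro _ ⟨_, ⟨s, hs, rfl⟩, rfl⟩
    exact ⟨c ⟨y, hy⟩ s, hX ⟨y, hy⟩ ⟨s, hs, rfl⟩, rfl⟩
  have hmin' : ∀ X : Subgroup R, X ≠ ⊤ → (∀ y : P, X.map (c y).toMonoidHom ≤ X) →
      ∀ s ∈ X, a * (s : H) = s * a := by
    intro X hX hXinv s hs
    refine hmin _ (lt_of_le_of_ne (Subgroup.map_subtype_le X) fun h => hX ?_) (hnorm X hXinv) s
      ⟨s, hs, rfl⟩
    refine Subgroup.map_injective R.subtype_injective (h.trans ?_)
    rw [← MonoidHom.range_eq_map, Subgroup.range_subtype]
  have hgen : Subgroup.closure gens = ⊤ := by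
    by_contra hne
    refine hRmov fun r hr => ?_
    have h1 := hmin' _ hne hgeninv _ (Subgroup.subset_closure ⟨⟨r, hr⟩, rfl⟩)
    refine CfsgLib.Coprime.commute_of_commute_commutator_mem (H := R) h1
      (σ ⟨r, hr⟩ * (⟨r, hr⟩ : R)⁻¹).2 ?_
    exact Nat.Coprime.coprime_dvd_left (orderOf_dvd_of_pow_eq_one hap)
      ((Nat.Prime.coprime_iff_not_dvd hp.out).2 hRp)
  -- class two
  have hcomm : ∀ s t : R, ⁅s, t⁆ ∈ Subgroup.center R := by
    have hne : commutator R ≠ ⊤ := fun h => CfsgLib.PGroup.frattini_ne_top (P := R)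
      (top_le_iff.1 (h ▸ CfsgLib.PGroup.commutator_le_frattini hRq))
    have hinv : ∀ y : P, (commutator R).map (c y).toMonoidHom ≤ commutator R := fun y =>
      (Subgroup.characteristic_iff_map_eq.1 inferInstance (c y)).le
    intro s t
    have hf : ⁅s, t⁆ ∈ commutator R :=
      Subgroup.commutator_mem_commutator (Subgroup.mem_top s) (Subgroup.mem_top t)
    refine Subgroup.mem_center_iff.2 fun r => ?_
    suffices h : Subgroup.closure gens ≤ Subgroup.centralizer {⁅s, t⁆} by
      exact Subgroup.mem_centralizer_singleton_iff.1 (h (hgen ▸ Subgroup.mem_top r))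
    rw [Subgroup.closure_le]
    rintro _ ⟨m, rfl⟩
    rw [SetLike.mem_coe, Subgroup.mem_centralizer_singleton_iff]
    set f := ⁅s, t⁆
    have hfix : ∀ g ∈ commutator R, σ g = g := fun g hg => Subtype.ext (by
      rw [hcv, hmin' _ hne hinv g hg, mul_inv_cancel_right])
    have h1 : σ (m⁻¹ * f * m) = m⁻¹ * f * m :=
      hfix _ (by simpa using (inferInstance : (commutator R).Normal).conj_mem f hf m⁻¹)
    rw [map_mul, map_mul, map_inv, hfix f hf] at h1
    calc σ m * m⁻¹ * f = σ m * (m⁻¹ * f * m) * m⁻¹ := by group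
      _ = σ m * ((σ m)⁻¹ * f * σ m) * m⁻¹ := by rw [h1]
      _ = _ := by group
  -- a non-degenerate weight
  obtain ⟨χ, u, hu, hχu, hnd⟩ : ∃ (χ : Subgroup.center R →* kˣ) (u : V), u ≠ 0 ∧
      (∀ z : Subgroup.center R, ρ ((z : R) : H) u = (χ z : k) • u) ∧ ¬ ∀ s, Rad χ s := by
    by_contra hcon
    push Not at hcon
    refine hRmov fun r hr => ?_
    have hab : ∀ s t : R, ⁅s, t⁆ = 1 := fun s t => by
      refine Subtype.ext (hinj ?_)
      rw [OneMemClass.coe_one, map_one, ← sub_eq_zero]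
      refine CfsgLib.FpfAut.eq_zero_of_eigen
        (CfsgLib.FpfAut.natCast_ne_zero_of_dvd (Subgroup.card_subgroup_dvd_card (Subgroup.center R)) hRk)
        ((ρ.comp R.subtype).comp (Subgroup.center R).subtype) _ fun ψ x hx => ?_
      rcases eq_or_ne x 0 with rfl | hx0
      · exact map_zero _
      · rw [LinearMap.sub_apply, Module.End.one_apply, sub_eq_zero,
          show ρ ((⁅s, t⁆ : R) : H) x = (ψ ⟨⁅s, t⁆, hcomm s t⟩ : k) • x from hx ⟨_, hcomm s t⟩,
          hcon ψ x hx0 hx s t ⟨_, hcomm s t⟩ rfl, Units.val_one, one_smul]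
    have hz : (⟨r, hr⟩ : R) ∈ Subgroup.center R :=
      Subgroup.mem_center_iff.2 fun t => commutatorElement_eq_one_iff_mul_comm.1 (hab t _)
    exact hafix ⟨_, hz⟩
  have haR : a ∈ Subgroup.normalizer (R : Set H) := hPR haP
  obtain ⟨hp3, D, hDn, hD4, hDrad⟩ :=
    index_rad_eq_four hp2 ρ hap hquad R hRk hRp haR hgen hcomm χ u hu hχu hafix hnd
  have hDne : ∀ s : R, ¬ ∀ t : R, σ t * t⁻¹ ∈ D := by
    intro s hall
    have h1 : D = ⊤ := top_le_iff.1 (hgen ▸ (Subgroup.closure_le D).2 (by rintro _ ⟨t, rfl⟩; exact hall t))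
    rw [h1, Subgroup.index_top] at hD4
    omega
  -- the stabilizer of the weight
  let St : Subgroup P :=
    { carrier := {y | ∀ z, χ (centerAut (c y) z) = χ z}
      one_mem' := fun z => congrArg χ (Subtype.ext (by show c 1 z = z; rw [map_one]; rfl))
      mul_mem' := fun {y y'} hy hy' z => by
        rw [show centerAut (c (y * y')) z = centerAut (c y) (centerAut (c y') z) from
          Subtype.ext (by show c (y * y') z = c y (c y' z); rw [map_mul]; rfl), hy, hy']
      inv_mem' := fun {y} hy z => by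
        rw [← hy (centerAut (c y⁻¹) z)]
        exact congrArg χ (Subtype.ext (by
          show c y (c y⁻¹ z) = z
          rw [← MulAut.mul_apply, ← map_mul, mul_inv_cancel, map_one]; rfl)) }
  set St' := St.map P.subtype with hSt'
  have hSt : ∀ {y : H} (hy : y ∈ P), y ∈ St' ↔ ∀ z, χ (centerAut (c ⟨y, hy⟩) z) = χ z := by
    intro y hy
    constructor
    · rintro ⟨⟨y', hy'⟩, h, rfl⟩
      exact h
    · exact fun h => ⟨⟨y, hy⟩, h, rfl⟩
  have haSt : a ∈ St' := (hSt haP).2 fun z => congrArg χ (Subtype.ext (Subtype.ext (by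
    show a * ((z : R) : H) * a⁻¹ = _
    rw [hafix, mul_inv_cancel_right])))
  -- no term of the series fixes the weight
  have hnot : ∀ i < e, ¬ dser P i ≤ St' := by
    intro i hi hle
    obtain ⟨e', rfl⟩ : ∃ e', e = e' + 1 := ⟨e - 1, by omega⟩
    set B := dser P e' with hBdef
    have hB : B ≤ St' := (dser_antitone P (by omega)).trans hle
    have hBP : B ≤ P := dser_antitone P (Nat.zero_le _)
    let cB : B →* MulAut R := c.comp (Subgroup.inclusion hBP)
    have hDB : ∀ b : B, D.map (cB b).toMonoidHom = D := by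
      intro b
      refine Subgroup.eq_of_le_of_card_ge ?_
        (Subgroup.card_map_of_injective (f := (cB b).toMonoidHom) (cB b).injective).ge
      rintro _ ⟨s, hs, rfl⟩
      rw [SetLike.mem_coe, hDrad] at hs
      rw [hDrad]
      intro t z hz
      have h1 := (hSt (hBP (inv_mem b.2))).1 (hB (inv_mem b.2)) z
      rw [← h1]
      refine hs ((cB b).symm t) _ ?_
      show c ⟨(b : H)⁻¹, _⟩ (z : R) = _
      have e1 : c ⟨(b : H)⁻¹, hBP (inv_mem b.2)⟩ = (cB b)⁻¹ := by
        rw [← map_inv cB]; rfl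
      rw [hz, e1, map_commutatorElement]
      congr 1
      exact (cB b).symm_apply_apply s
    let ψ : B →* Equiv.Perm (R ⧸ D) := MonoidHom.mk'
      (fun b => (QuotientGroup.congr D D (cB b) (hDB b)).toEquiv) fun b b' => Equiv.ext fun x => by
        induction x using QuotientGroup.induction_on with
        | _ s =>
          show ((cB (b * b') s : R) : R ⧸ D) = ((cB b (cB b' s) : R) : R ⧸ D)
          rw [map_mul]; rfl
    have hrange : IsPGroup p ψ.range :=
      (hP.to_le hBP).of_surjective ψ.rangeRestrict ψ.rangeRestrict_surjective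
    obtain ⟨j, hj⟩ := IsPGroup.iff_card.1 hrange
    have h24 : Nat.card ψ.range ∣ 24 := by
      refine (Subgroup.card_subgroup_dvd_card ψ.range).trans ?_
      rw [Nat.card_perm, show Nat.card (R ⧸ D) = 4 from hD4]
      exact dvd_rfl
    rw [hj, hp3] at h24
    have hj1 : j ≤ 1 := by
      by_contra hcon
      have h9 := (pow_dvd_pow 3 (show 2 ≤ j by omega)).trans h24
      omega
    have hcyc : IsCyclic ψ.range := by
      rcases Nat.le_one_iff_eq_zero_or_eq_one.1 hj1 with rfl | rfl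
      · haveI : Subsingleton ψ.range := (Nat.card_eq_one_iff_unique.1 (by rw [hj, pow_zero])).1
        exact isCyclic_of_subsingleton
      · exact isCyclic_of_prime_card (p := p) (by rw [hj, pow_one])
    letI := hcyc.commGroup
    have hker : commutator B ≤ ψ.ker := by
      rw [commutator_def, Subgroup.commutator_le]
      intro x _ y _
      rw [MonoidHom.mem_ker, map_commutatorElement, commutatorElement_eq_one_iff_mul_comm]
      exact congrArg Subtype.val (mul_comm (⟨_, x, rfl⟩ : ψ.range) ⟨_, y, rfl⟩)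
    have hae' : a ∈ (commutator B).map B.subtype := by
      rw [Subgroup.map_subtype_commutator]; exact hae
    obtain ⟨b, hb, hba⟩ := hae'
    refine hDne 1 fun t => ?_
    have h2 := Equiv.congr_fun (MonoidHom.mem_ker.1 (hker hb)) (t : R ⧸ D)
    have h3 : ((σ t : R) : R ⧸ D) = (t : R ⧸ D) := by
      refine Eq.trans ?_ h2
      show ((σ t : R) : R ⧸ D) = ((cB b t : R) : R ⧸ D)
      have : (⟨a, haP⟩ : P) = Subgroup.inclusion hBP b := Subtype.ext hba.symm
      rw [hσ, this]; rfl
    rw [← QuotientGroup.eq_one_iff, QuotientGroup.mk_mul, QuotientGroup.mk_inv, h3, mul_inv_cancel]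
  have hsel : ∀ i, ∃ y : H, i < e → y ∈ dser P i ∧ ∀ b ∈ dser P (i + 1), b * y ∉ St' := by
    intro i
    by_cases hi : i < e
    swap
    · exact ⟨1, fun h => absurd h hi⟩
    set Di := dser P i with hDidef
    set M := St'.subgroupOf Di with hMdef
    have hM : M ≠ ⊤ := fun h => hnot i hi (Subgroup.subgroupOf_eq_top.1 h)
    have hMF : M ⊔ frattini Di ≠ ⊤ := fun h => hM (frattini_nongenerating h)
    obtain ⟨y, -, hy⟩ := SetLike.exists_of_lt (lt_top_iff_ne_top.2 hMF)
    refine ⟨y, fun _ => ⟨y.2, fun b hb hby => hy ?_⟩⟩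
    rw [dser_succ, ← Subgroup.map_subtype_commutator] at hb
    obtain ⟨b', hb', rfl⟩ := hb
    have h1 : b' * y ∈ M ⊔ frattini Di := (le_sup_left (b := frattini Di)) (show b' * y ∈ M from hby)
    have h2 : b' ∈ M ⊔ frattini Di := (le_sup_right (a := M)) (CfsgLib.PGroup.commutator_le_frattini
      (hP.to_le (dser_antitone P (Nat.zero_le i))) hb')
    simpa using mul_mem (inv_mem h2) h1
  choose y hy using hsel
  -- the projection
  letI : Fintype (Subgroup.center R) := Fintype.ofFinite _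
  let π : Module.End k V := ∑ z : Subgroup.center R, ((χ z)⁻¹ : kˣ).val • ρ ((z : R) : H)
  let W : Submodule k V :=
    { carrier := {x | ∀ z : Subgroup.center R, ρ ((z : R) : H) x = (χ z : k) • x}
      add_mem' := fun {x y} hx hy z => by rw [map_add, hx z, hy z, smul_add]
      zero_mem' := fun z => by rw [map_zero, smul_zero]
      smul_mem' := fun c x hx z => by rw [map_smul, hx z, smul_comm] }
  have hπW : ∀ x ∈ W, π x = (Nat.card (Subgroup.center R) : k) • x := by
    intro x hx
    simp only [π, LinearMap.sum_apply, LinearMap.smul_apply]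
    rw [Finset.sum_congr rfl fun z _ => by rw [hx z, smul_smul, Units.inv_mul, one_smul],
      Finset.sum_const, Finset.card_univ, Nat.card_eq_fintype_card, Nat.cast_smul_eq_nsmul]
  have hπg : ∀ g ∈ P, g ∉ St' → ∀ x ∈ W, π (ρ g x) = 0 := by
    intro g hg hgS x hx
    rw [← Subgroup.inv_mem_iff, hSt (inv_mem hg)] at hgS
    push Not at hgS
    obtain ⟨z₀, hz₀⟩ := hgS
    let φ : Subgroup.center R →* kˣ := χ⁻¹ * χ.comp (centerAut (c ⟨g⁻¹, inv_mem hg⟩)).toMonoidHom
    have hφ : φ ≠ 1 := fun h => hz₀ (inv_mul_eq_one.1 (show (χ z₀)⁻¹ * χ _ = 1 from DFunLike.congr_fun h z₀)).symm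
    have h1 : ∀ z : Subgroup.center R, ((χ z)⁻¹ : kˣ).val • ρ ((z : R) : H) (ρ g x) = (φ z : k) • ρ g x := by
      intro z
      have h2 := hx (centerAut (c ⟨g⁻¹, inv_mem hg⟩) z)
      have h3 : ρ ((z : R) : H) (ρ g x) = ρ g (ρ (g⁻¹ * ((z : R) : H) * g⁻¹⁻¹) x) := by
        rw [← Module.End.mul_apply, ← map_mul, ← Module.End.mul_apply, ← map_mul]
        congr 2
        group
      rw [h3]
      show _ • ρ g (ρ ((((centerAut (c ⟨g⁻¹, inv_mem hg⟩) z) : Subgroup.center R) : R) : H) x) = _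
      rw [h2, map_smul, smul_smul]
      rfl
    simp only [π, LinearMap.sum_apply, LinearMap.smul_apply]
    rw [Finset.sum_congr rfl fun z _ => h1 z, ← Finset.sum_smul, CfsgLib.FpfAut.sum_units_eq_zero hφ,
      zero_smul]
  let F : ℕ → Module.End k V := fun n => Nat.rec (motive := fun _ => Module.End k V) 1
    (fun i f => (ρ (y i) - 1) * f) n
  let G : ℕ → Set H := fun j => {g | g ∈ P ∧ ∀ b ∈ dser P j, b * g ∉ St'}
  have hF : ∀ x ∈ W, ∀ j ≤ e, F j x - (-1 : k) ^ j • x ∈ Submodule.span k ((fun g => ρ g x) '' G j) := by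
    intro x hx j hj
    induction j with
    | zero => simp [F]
    | succ j ih =>
      obtain ⟨m, hm, hmeq⟩ : ∃ m ∈ Submodule.span k ((fun g => ρ g x) '' G j),
          F j x = (-1 : k) ^ j • x + m := ⟨_, ih (by omega), by abel⟩
      obtain ⟨hyD, hyS⟩ := hy j (by omega)
      have hyP : y j ∈ P := dser_antitone P (Nat.zero_le j) hyD
      have hGG : G j ⊆ G (j + 1) := fun g hg => ⟨hg.1, fun b hb => hg.2 b (dser_succ_le P j hb)⟩
      have hm1 : ρ (y j) m ∈ Submodule.span k ((fun g => ρ g x) '' G (j + 1)) := by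
        refine (?_ : Submodule.map (ρ (y j)) (Submodule.span k ((fun g => ρ g x) '' G j)) ≤ _) ⟨m, hm, rfl⟩
        rw [Submodule.map_span, Submodule.span_le]
        rintro _ ⟨_, ⟨g, hg, rfl⟩, rfl⟩
        refine Submodule.subset_span ⟨y j * g, ⟨mul_mem hyP hg.1, fun b hb => ?_⟩, ?_⟩
        · rw [← mul_assoc]
          exact hg.2 _ (mul_mem (dser_succ_le P j hb) hyD)
        · show ρ (y j * g) x = ρ (y j) (ρ g x)
          rw [map_mul]; rfl
      have hm2 : m ∈ Submodule.span k ((fun g => ρ g x) '' G (j + 1)) :=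
        Submodule.span_mono (Set.image_mono hGG) hm
      have hm3 : ρ (y j) x ∈ Submodule.span k ((fun g => ρ g x) '' G (j + 1)) :=
        Submodule.subset_span ⟨y j, ⟨hyP, hyS⟩, rfl⟩
      have heq : F (j + 1) x - (-1 : k) ^ (j + 1) • x = (-1 : k) ^ j • ρ (y j) x + ρ (y j) m - m := by
        show ((ρ (y j) - 1) * F j) x - _ = _
        rw [Module.End.mul_apply, LinearMap.sub_apply, Module.End.one_apply, hmeq, map_add, map_smul,
          pow_succ, mul_neg_one, neg_smul]
        abel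
      rw [heq]
      exact sub_mem (add_mem (Submodule.smul_mem _ _ hm3) hm1) hm2
  have htriv : ∀ x ∈ W, ρ a x = x := by
    intro x hx
    have h0 := LinearMap.congr_fun (hchain y (fun i hi => (hy i hi).1) F rfl fun i _ => rfl) x
    obtain ⟨m, hm, hmeq⟩ : ∃ m ∈ Submodule.span k ((fun g => ρ g x) '' G e),
        F e x = (-1 : k) ^ e • x + m := ⟨_, hF x hx e le_rfl, by abel⟩
    rw [Module.End.mul_apply, LinearMap.zero_apply, hmeq, map_add, map_smul] at h0
    have hax : ρ a x ∈ W := fun z => by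
      rw [← Module.End.mul_apply, ← map_mul, ← hafix, map_mul, Module.End.mul_apply, hx z, map_smul]
    have h1 : π ((ρ a - 1 : Module.End k V) m) = 0 := by
      refine (?_ : Submodule.span k ((fun g => ρ g x) '' G e) ≤ LinearMap.ker (π * (ρ a - 1))) hm
      rw [Submodule.span_le]
      rintro _ ⟨g, hg, rfl⟩
      have hg1 : g ∉ St' := by simpa using hg.2 1 (one_mem _)
      rw [SetLike.mem_coe, LinearMap.mem_ker, Module.End.mul_apply, LinearMap.sub_apply, Module.End.one_apply,
        map_sub, ← Module.End.mul_apply (ρ a), ← map_mul,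
        hπg _ (mul_mem haP hg.1) (hg.2 a hae) x hx, hπg g hg.1 hg1 x hx, sub_zero]
    have h2 := congrArg π h0
    rw [map_add, map_smul, h1, add_zero, LinearMap.sub_apply, Module.End.one_apply,
      hπW _ (sub_mem hax hx), map_zero, smul_smul, smul_eq_zero, sub_eq_zero] at h2
    exact h2.resolve_left (mul_ne_zero (pow_ne_zero _ (neg_ne_zero.2 one_ne_zero))
      (CfsgLib.FpfAut.natCast_ne_zero_of_dvd (Subgroup.card_subgroup_dvd_card _) hRk))
  -- `a` acts trivially on `R / D`
  refine hDne 1 fun s => ?_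
  rw [hDrad]
  intro t z hz
  have hWR : ∀ r : R, ∀ x ∈ W, ρ (r : H) x ∈ W := by
    intro r x hx w
    have h1 : ((w : R) : H) * r = r * (w : R) := congrArg Subtype.val (Subgroup.mem_center_iff.1 w.2 r).symm
    rw [← Module.End.mul_apply, ← map_mul, h1, map_mul, Module.End.mul_apply, hx w, map_smul]
  have hd : ∀ x ∈ W, ρ ((σ s * s⁻¹ : R) : H) x = x := by
    intro x hx
    have hfx : ρ a⁻¹ x = x := by
      conv_lhs => rw [← htriv x hx]
      rw [← Module.End.mul_apply, ← map_mul, inv_mul_cancel, map_one, Module.End.one_apply]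
    rw [Subgroup.coe_mul, Subgroup.coe_inv, hcv]
    have hw1 := hWR s⁻¹ x hx
    rw [Subgroup.coe_inv] at hw1
    rw [map_mul, map_mul, map_mul, Module.End.mul_apply, Module.End.mul_apply, Module.End.mul_apply]
    rw [show ρ a⁻¹ (ρ ((s : H))⁻¹ x) = ρ ((s : H))⁻¹ x by
      conv_lhs => rw [← htriv _ hw1]
      rw [← Module.End.mul_apply, ← map_mul, inv_mul_cancel, map_one, Module.End.one_apply],
      ← Module.End.mul_apply (ρ (s : H)), ← map_mul, mul_inv_cancel, map_one, Module.End.one_apply,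
      htriv x hx]
  set d := σ s * s⁻¹ with hddef
  have hdinv : ∀ x ∈ W, ρ ((d⁻¹ : R) : H) x = x := fun x hx => by
    conv_lhs => rw [← hd x hx]
    rw [← Module.End.mul_apply, ← map_mul, ← Subgroup.coe_mul, inv_mul_cancel, Subgroup.coe_one, map_one,
      Module.End.one_apply]
  have h5 : ρ ((⁅d, t⁆ : R) : H) u = u := by
    rw [commutatorElement_def, Subgroup.coe_mul, Subgroup.coe_mul, Subgroup.coe_mul, map_mul, map_mul,
      map_mul, Module.End.mul_apply, Module.End.mul_apply, Module.End.mul_apply,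
      hdinv _ (hWR _ u hχu), ← Module.End.mul_apply (ρ (t : H)), ← map_mul, ← Subgroup.coe_mul, mul_inv_cancel,
      Subgroup.coe_one, map_one, Module.End.one_apply, hd u hχu]
  have h6 := hχu z
  rw [hz, h5] at h6
  exact Units.ext (smul_left_injective k hu (by simpa using h6.symm))

end Core

section Bound

open Cfsg

/-- A nontrivial subgroup normal in a `p`-group contains a central element of order `p`. -/
theorem exists_central_order {G : Type u} [Group G] [Finite G] {p : ℕ} [Fact p.Prime] {S T : Subgroup G}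
    (hS : IsPGroup p S) (hTS : T ≤ S) (hT : T ≠ ⊥) (hn : ∀ s ∈ S, ∀ x ∈ T, s * x * s⁻¹ ∈ T) :
    ∃ z ∈ T, z ≠ 1 ∧ z ^ p = 1 ∧ ∀ s ∈ S, z * s = s * z := by
  letI act : MulAction S T :=
    { smul := fun s x => ⟨(s : G) * (x : G) * (s : G)⁻¹, hn _ s.2 _ x.2⟩
      one_smul := fun x => Subtype.ext (by show (1 : G) * x * (1 : G)⁻¹ = x; group)
      mul_smul := fun s t x => Subtype.ext (by
        show ((s : G) * t) * x * ((s : G) * t)⁻¹ = s * (t * x * (t : G)⁻¹) * (s : G)⁻¹
        group) }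
  obtain ⟨i, hi⟩ := (hS.to_le hTS).exists_card_eq
  have hdvd : p ∣ Nat.card T := by
    rcases Nat.eq_zero_or_pos i with h0 | h0
    · rw [h0, pow_zero, Subgroup.card_eq_one] at hi
      exact absurd hi hT
    · exact hi ▸ dvd_pow_self p h0.ne'
  obtain ⟨z, hz, hz1⟩ := hS.exists_fixed_point_of_prime_dvd_card_of_fixed_point T hdvd (a := 1)
    fun s => Subtype.ext (by show (s : G) * 1 * (s : G)⁻¹ = 1; group)
  have hz1' : (z : G) ≠ 1 := fun h => hz1 (Subtype.ext h.symm)
  obtain ⟨j, hj⟩ := (hS.to_le hTS) z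
  obtain ⟨j', -, hj'⟩ := (Nat.dvd_prime_pow (Fact.out : p.Prime)).1
    (orderOf_dvd_of_pow_eq_one (congrArg Subtype.val hj : (z : G) ^ p ^ j = 1))
  obtain ⟨m, rfl⟩ : ∃ m, j' = m + 1 := by
    rcases j' with _ | m
    · rw [pow_zero, orderOf_eq_one_iff] at hj'
      exact absurd hj' hz1'
    · exact ⟨m, rfl⟩
  refine ⟨(z : G) ^ p ^ m, pow_mem z.2 _, fun h => ?_, ?_, fun s hs => ?_⟩
  · have h' := Nat.le_of_dvd (pow_pos (Fact.out : p.Prime).pos m) (hj' ▸ orderOf_dvd_of_pow_eq_one h)
    exact absurd h' (not_le.2 (Nat.pow_lt_pow_right (Fact.out : p.Prime).one_lt (by omega)))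
  · rw [← pow_mul, ← pow_succ, ← hj', pow_orderOf_eq_one]
  · have h : s * (z : G) * s⁻¹ = z := congrArg Subtype.val (hz ⟨s, hs⟩)
    exact ((show Commute s (z : G) from mul_inv_eq_iff_eq_mul.1 h).pow_right _).eq.symm

/-- With no `p'`-core, the last term of the derived series of a `p`-subgroup lies in `O_p`. -/
theorem dser_le_pCore {p : ℕ} [hp : Fact p.Prime] (hp2 : p ≠ 2) {K : Type u} [Group K] [Finite K]
    (hK : IsPSolvable p K) (hO : pPrimeCore p K = ⊥) (P : Subgroup K) (hP : IsPGroup p P)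
    (hle : pCore p K ≤ P) {e : ℕ} (he : dser P (e + 1) = ⊥) : dser P e ≤ pCore p K := by
  classical
  by_contra hne
  set mk := QuotientGroup.mk' (pCore p K) with hmk
  set Pb := P.map mk with hPb
  have hPbp : IsPGroup p Pb := hP.map mk
  have hmap : ∀ i, (dser P i).map mk = dser Pb i := map_dser mk P
  have hT : dser Pb e ≠ ⊥ := by
    rw [← hmap, Ne, Subgroup.map_eq_bot_iff, hmk, QuotientGroup.ker_mk']
    exact hne
  obtain ⟨a, hae, ha1, hap, hcen⟩ := exists_central_order hPbp (dser_antitone Pb (Nat.zero_le e)) hT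
    fun s hs x hx => conj_mem_dser hs hx
  have hsol : IsPSolvable p (K ⧸ pCore p K) := CfsgLib.Constrained.IsPSolvable.quotient hK _
  obtain ⟨g, hg, hga⟩ : a ∈ (dser P e).map mk := (hmap e).symm ▸ hae
  let E := Module.End (ZMod p) (Additive (FrattQuot p K))
  let bc := Module.End.baseChangeHom (ZMod p) (Clo p) (Additive (FrattQuot p K))
  let D : K → E := fun h => autLin p K (conjAut p K h) - 1
  have hbc : ∀ h : K, bc (D h) = rep p K (h : K ⧸ pCore p K) - 1 := fun h => by
    show bc (_ - 1) = _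
    rw [map_sub, map_one]; rfl
  let img : Subgroup K → Set (Additive (FrattQuot p K)) := fun X =>
    {v | ∃ w : ↥(pCore p K), (w : K) ∈ X ∧ Additive.ofMul (w : FrattQuot p K) = v}
  have hD : ∀ (h : K) (w : ↥(pCore p K)), D h (Additive.ofMul (w : FrattQuot p K)) =
      Additive.ofMul (((MulAut.conjNormal h w * w⁻¹ : ↥(pCore p K))) : FrattQuot p K) := fun h w => by
    rw [QuotientGroup.mk_mul, QuotientGroup.mk_inv, ofMul_mul, ofMul_inv, ← sub_eq_add_neg]
    rfl
  have hstep : ∀ (X Y Z : Subgroup K) (h : K), h ∈ X → (∀ x ∈ Y, h * x * h⁻¹ * x⁻¹ ∈ Z) →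
      ∀ v ∈ img Y, D h v ∈ img Z := by
    rintro X Y Z h - hYZ _ ⟨w, hw, rfl⟩
    refine ⟨MulAut.conjNormal h w * w⁻¹, ?_, (hD h w).symm⟩
    rw [Subgroup.coe_mul, Subgroup.coe_inv, MulAut.conjNormal_apply]
    exact hYZ _ hw
  have hkill : ∀ v ∈ img (dser P e), D g v = 0 := by
    intro v hv
    obtain ⟨w, hw, hwv⟩ := hstep (dser P e) (dser P e) (dser P (e + 1)) g hg
      (fun x hx => Subgroup.commutator_mem_commutator hg hx) v hv
    rw [he, Subgroup.mem_bot, OneMemClass.coe_eq_one] at hw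
    rw [← hwv, hw]
    rfl
  have hall : ∀ v, v ∈ img P := fun v => by
    obtain ⟨w, hw⟩ := QuotientGroup.mk_surjective (Additive.toMul v)
    exact ⟨w, hle w.2, by rw [hw]; rfl⟩
  have hquad : (rep p K a - 1) ^ 2 = 0 := by
    rw [← hga, hmk, QuotientGroup.mk'_apply, ← hbc, sq, ← map_mul]
    have h0 : D g * D g = 0 := LinearMap.ext fun v => by
      rw [Module.End.mul_apply]
      refine hkill _ (hstep P P (dser P e) g (dser_antitone P (Nat.zero_le e) hg) (fun x hx => ?_) v (hall v))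
      have h1 := mul_mem hg (conj_mem_dser hx (inv_mem hg))
      simpa [mul_assoc] using h1
    rw [h0, map_zero]
  have hchain : ∀ y : ℕ → K ⧸ pCore p K, (∀ i < e, y i ∈ dser Pb i) → ∀ F : ℕ → Module.End (Clo p) (Mod p K),
      F 0 = 1 → (∀ i < e, F (i + 1) = (rep p K (y i) - 1) * F i) → (rep p K a - 1) * F e = 0 := by
    intro y hy F hF0 hF
    have hlift : ∀ i, ∃ h : K, i < e → h ∈ dser P i ∧ mk h = y i := fun i => by
      by_cases hi : i < e
      · obtain ⟨h, hh, hhy⟩ : y i ∈ (dser P i).map mk := (hmap i).symm ▸ hy i hi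
        exact ⟨h, fun _ => ⟨hh, hhy⟩⟩
      · exact ⟨1, fun h => absurd h hi⟩
    choose h hh using hlift
    let G : ℕ → E := fun n => Nat.rec (motive := fun _ => E) 1 (fun i f => D (h i) * f) n
    have key : ∀ j ≤ e, (∀ v, G j v ∈ img (dser P j)) ∧ F j = bc (G j) := by
      intro j hj
      induction j with
      | zero => exact ⟨hall, by rw [hF0]; exact (map_one bc).symm⟩
      | succ j ih =>
        obtain ⟨ih1, ih2⟩ := ih (by omega)
        obtain ⟨hhd, hhy⟩ := hh j (by omega)
        refine ⟨fun v => hstep (dser P j) (dser P j) (dser P (j + 1)) (h j) hhd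
          (fun x hx => Subgroup.commutator_mem_commutator hhd hx) _ (ih1 v), ?_⟩
        rw [hF j (by omega), ih2, ← hhy, hmk, QuotientGroup.mk'_apply, ← hbc, ← map_mul]
    obtain ⟨h1, h2⟩ := key e le_rfl
    rw [h2, ← hga, hmk, QuotientGroup.mk'_apply, ← hbc, ← map_mul,
      show D g * G e = 0 from LinearMap.ext fun v => hkill _ (h1 v), map_zero]
  -- centralizing the whole `p'`-core
  set Q := pPrimeCore p (K ⧸ pCore p K) with hQ
  have htop : (Subgroup.centralizer ({a} : Set (K ⧸ pCore p K))).subgroupOf Q = ⊤ := by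
    refine CfsgLib.Constrained.eq_top_of_forall_sylow_le _ fun q hq => ?_
    haveI := Fact.mk hq
    obtain ⟨S, hS⟩ := CfsgLib.Coprime44.exists_invariant_sylow hPbp
      (CfsgLib.Constrained.pPrimeCore_not_dvd (p := p) (G := K ⧸ pCore p K))
      (by rw [Subgroup.normalizer_eq_top]; exact le_top) q
    refine ⟨S, fun s hs => ?_⟩
    rw [Subgroup.mem_subgroupOf, Subgroup.mem_centralizer_singleton_iff]
    rcases eq_or_ne q p with hqp | hqp
    · subst hqp
      have h0 : (S : Subgroup Q) = ⊥ := by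
        obtain ⟨i, hi⟩ := IsPGroup.iff_card.1 S.isPGroup'
        rw [← Subgroup.card_eq_one, hi]
        rcases Nat.eq_zero_or_pos i with rfl | hi0
        · rw [pow_zero]
        · exact absurd ((dvd_pow_self q hi0.ne').trans
            (hi ▸ Subgroup.card_subgroup_dvd_card (S : Subgroup Q)))
            (CfsgLib.Constrained.pPrimeCore_not_dvd (p := q) (G := K ⧸ pCore q K))
      rw [h0, Subgroup.mem_bot] at hs
      subst hs
      simp
    · exact (commute_of_chain hp2 (rep p K) (rep_injective p K hK hO) Pb hPbp hap hcen hquad hae hchain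
        hqp (S.isPGroup'.map Q.subtype) hS (s : K ⧸ pCore p K) ⟨s, hs, rfl⟩).symm
  have haQ : a ∈ Q := by
    refine CfsgLib.TISolvable.centralizer_pPrimeCore_le hsol CfsgLib.Constrained.pCore_quotient_pCore
      (Subgroup.mem_centralizer_iff.2 fun q hq => ?_)
    have h := (htop ▸ Subgroup.mem_top (⟨q, hq⟩ : Q) :
      (⟨q, hq⟩ : Q) ∈ (Subgroup.centralizer ({a} : Set (K ⧸ pCore p K))).subgroupOf Q)
    rw [Subgroup.mem_subgroupOf, Subgroup.mem_centralizer_singleton_iff] at h
    exact h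
  have h := Subgroup.orderOf_dvd_natCard Q haQ
  rw [orderOf_eq_prime hap ha1] at h
  exact CfsgLib.Constrained.pPrimeCore_not_dvd (p := p) (G := K ⧸ pCore p K) h

/-- All `p`-subgroups have derived length at most `d`. -/
def DerLE (p d : ℕ) (K : Type*) [Group K] : Prop :=
  ∀ S : Subgroup K, IsPGroup p S → dser S d = ⊥

theorem derLE_of_sylow {G : Type u} [Group G] {p d : ℕ}
    (h : ∀ P : Sylow p G, derivedSeries ↥(P : Subgroup G) d = ⊥) : DerLE p d G := by
  intro S hS
  obtain ⟨P, hP⟩ := hS.exists_le_sylow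
  refine le_bot_iff.1 ((dser_mono hP d).trans ?_)
  rw [dser_eq, h P, Subgroup.map_bot]

theorem DerLE.quotient {K : Type u} [Group K] [Finite K] {p d : ℕ} [Fact p.Prime] (h : DerLE p d K)
    (N : Subgroup K) [N.Normal] : DerLE p d (K ⧸ N) := by
  intro S hS
  obtain ⟨S', hS'⟩ := hS.exists_le_sylow
  obtain ⟨T, rfl⟩ := Sylow.mapSurjective_surjective (QuotientGroup.mk'_surjective N) p S'
  refine le_bot_iff.1 ((dser_mono hS' d).trans ?_)
  rw [Sylow.coe_mapSurjective, ← map_dser, h _ T.isPGroup', Subgroup.map_bot]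

/-- The bound by the derived length. -/
theorem pLengthLE_of_derLE {p : ℕ} [hp : Fact p.Prime] (hp2 : p ≠ 2) :
    ∀ (d : ℕ) (K : Type u) [Group K] [Finite K], IsPSolvable p K → DerLE p d K → PLengthLE p d K := by
  intro d
  induction d with
  | zero =>
    intro K _ _ _ hd
    rw [CfsgLib.Constrained.pLengthLE_zero_iff]
    intro hdvd
    obtain ⟨x, hx⟩ := exists_prime_orderOf_dvd_card' p hdvd
    have h := hd (Subgroup.zpowers x) (IsPGroup.of_card (n := 1) (by rw [Nat.card_zpowers, hx, pow_one]))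
    rw [dser_zero, Subgroup.zpowers_eq_bot] at h
    rw [h, orderOf_one] at hx
    exact hp.out.ne_one hx.symm
  | succ d ih =>
    intro K _ _ hsol hd
    refine CfsgLib.Constrained.pLengthLE_succ_of_quotient
      (ih _ (CfsgLib.Constrained.IsPSolvable.quotient hsol _) ?_)
    intro S hS
    obtain ⟨S', hS'⟩ := hS.exists_le_sylow
    obtain ⟨T, rfl⟩ := Sylow.mapSurjective_surjective (QuotientGroup.mk'_surjective (pPrimePCore p K)) p S'
    refine le_bot_iff.1 ((dser_mono hS' d).trans ?_)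
    rw [Sylow.coe_mapSurjective, ← map_dser, le_bot_iff, Subgroup.map_eq_bot_iff, QuotientGroup.ker_mk',
      pPrimePCore, ← Subgroup.map_le_iff_le_comap, map_dser]
    set T' := T.mapSurjective (QuotientGroup.mk'_surjective (pPrimeCore p K))
    refine dser_le_pCore hp2 (CfsgLib.Constrained.IsPSolvable.quotient hsol _)
      CfsgLib.Constrained.pPrimeCore_quotient_pPrimeCore _ T'.isPGroup' ?_ ?_
    · obtain ⟨T'', hT''⟩ := (CfsgLib.Constrained.isPGroup_pCore (p := p) (G := K ⧸ pPrimeCore p K)).exists_le_sylow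
      obtain ⟨y, hy⟩ := MulAction.exists_smul_eq (K ⧸ pPrimeCore p K) T'' T'
      intro x hx
      show x ∈ (T' : Subgroup (K ⧸ pPrimeCore p K))
      rw [← hy, Sylow.coe_subgroup_smul]
      refine Subgroup.mem_pointwise_smul_iff_inv_smul_mem.2 (hT'' ?_)
      exact (inferInstance : (pCore p (K ⧸ pPrimeCore p K)).Normal).conj_mem' x hx y
    · exact (hd.quotient _) _ T'.isPGroup'

end Bound

end CfsgLib.PLengthExp
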