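import Mathlib
import Cfsg.Agent.PLengthExp.Derived
import Cfsg.Agent.PLengthExp.TheoremB
import Cfsg.Agent.PLengthExp.CommuteSmall

/-!
Two elements with vanishing norm commute on the coprime groups their Sylow subgroup normalises.
-/

set_option autoImplicit false

open scoped commutatorElement IsMulCommutative

namespace CfsgLib.PLengthExp

universe u v w

/-- The only powers of an odd prime next to a prime power. -/
theorem prime_pow_sub_one_small {p f q m : ℕ} (hp : p.Prime) (hp2 : p ≠ 2) (hf : 1 ≤ f) (hq : q.Prime)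
    (h : p ^ f - 1 = q ^ m) : f = 1 ∨ (p = 3 ∧ f = 2) := by
  have hp3 : 3 ≤ p := by have := hp.two_le; omega
  have hpf : p ≤ p ^ f := Nat.le_self_pow (by omega) p
  have hm : 1 ≤ m := by
    rcases Nat.eq_zero_or_pos m with rfl | hm
    · rw [pow_zero] at h; omega
    · exact hm
  obtain ⟨rfl, -⟩ := exception_two hp hp2 hf hq hm h
  have hodd : p % 2 = 1 := (hp.eq_two_or_odd).resolve_left hp2
  rcases Nat.even_or_odd f with ⟨g, rfl⟩ | hfo
  · right
    have hg : p ≤ p ^ g := Nat.le_self_pow (by omega) p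
    rw [show p ^ (g + g) - 1 = (p ^ g + 1) * (p ^ g - 1) by
      rw [pow_add, ← Nat.sq_sub_sq, sq, one_pow]] at h
    obtain ⟨b, -, hb⟩ := (Nat.dvd_prime_pow Nat.prime_two).1 (h ▸ Dvd.intro _ rfl : p ^ g + 1 ∣ 2 ^ m)
    obtain ⟨a, -, ha⟩ := (Nat.dvd_prime_pow Nat.prime_two).1 (h ▸ Dvd.intro_left _ rfl : p ^ g - 1 ∣ 2 ^ m)
    have ha1 : a = 1 := by
      have hb2 : 2 ≤ b := by
        by_contra hb2
        have := Nat.pow_le_pow_right (show 0 < 2 by norm_num) (show b ≤ 1 by omega)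
        omega
      obtain ⟨b', rfl⟩ : ∃ b', b = b' + 2 := ⟨b - 2, by omega⟩
      rcases a with _ | _ | a
      · omega
      · rfl
      · rw [pow_succ, pow_succ] at ha hb; omega
    subst ha1
    have hg1 : g = 1 := by
      rcases g with _ | _ | g
      · omega
      · rfl
      · have := Nat.pow_le_pow_left hp3 (g + 2)
        change p ^ (g + 2) - 1 = _ at ha
        have h9 : 3 ^ 2 ≤ 3 ^ (g + 2) := Nat.pow_le_pow_right (by norm_num) (by omega)
        omega
    subst hg1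
    rw [pow_one] at ha
    exact ⟨by omega, rfl⟩
  · left
    set S := ∑ i ∈ Finset.range f, p ^ i with hS
    have hS2 : S % 2 = 1 := by
      rw [hS, Finset.sum_nat_mod]
      simp [Nat.pow_mod, hodd, Nat.odd_iff.1 hfo]
    have hmul : S * (p - 1) + 1 = p ^ f := by
      have := geom_sum_mul_add (p - 1) f
      rwa [Nat.sub_add_cancel hp.one_le] at this
    obtain ⟨a, -, ha⟩ := (Nat.dvd_prime_pow Nat.prime_two).1
      (Dvd.intro _ (show S * (p - 1) = 2 ^ m by omega) : S ∣ 2 ^ m)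
    have hS1 : S = 1 := by
      rcases a with _ | a
      · simpa using ha
      · rw [pow_succ] at ha; omega
    rw [hS1, one_mul] at hmul
    exact Nat.pow_right_injective hp.two_le (show p ^ f = p ^ 1 by rw [pow_one]; omega)

variable {k : Type w} [Field k] [IsAlgClosed k] {V : Type v} [AddCommGroup V] [Module k V]

/-- A weight of an abelian coprime group under an operator with vanishing norm. -/
theorem stab_sum {p : ℕ} [hp : Fact p.Prime] {A : Type*} [CommGroup A] [Finite A]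
    (hA : (Nat.card A : k) ≠ 0) (L : A →* Module.End k V) (σ : MulAut A) (T : Module.End k V) {f : ℕ}
    (hσ : σ ^ p ^ f = 1) (hTL : ∀ a, T * L a = L (σ a) * T)
    (hsum : ∑ i ∈ Finset.range (p ^ f), T ^ i = 0)
    (χ : A →* kˣ) {w : V} (hw0 : w ≠ 0) (hw : ∀ a, L a w = (χ a : k) • w) :
    ∃ j < f, (∀ a, χ ((σ ^ p ^ j) a) = χ a) ∧ ∀ v, (∀ a, L a v = (χ a : k) • v) →
      (∑ l ∈ Finset.range (p ^ (f - j)), (T ^ p ^ j) ^ l) v = 0 := by
  classical
  letI : Fintype A := Fintype.ofFinite A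
  let g : (A →* kˣ) → (A →* kˣ) := fun φ => φ.comp σ.toMonoidHom
  have hg : ∀ (i : ℕ) (φ : A →* kˣ) (a : A), g^[i] φ a = φ ((σ ^ i) a) := by
    intro i
    induction i with
    | zero => intro φ a; rfl
    | succ i ih =>
      intro φ a
      rw [Function.iterate_succ_apply, ih, pow_succ', MulAut.mul_apply]
      rfl
  have hper : Function.IsPeriodicPt g (p ^ f) χ := MonoidHom.ext fun a => by rw [hg, hσ]; rfl
  obtain ⟨j, hj, hjm⟩ := (Nat.dvd_prime_pow hp.out).1 hper.minimalPeriod_dvd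
  have hfix : ∀ i : ℕ, (∀ a, χ ((σ ^ i) a) = χ a) ↔ p ^ j ∣ i := fun i => by
    rw [← hjm, ← Function.isPeriodicPt_iff_minimalPeriod_dvd]
    exact ⟨fun h => MonoidHom.ext fun a => (hg i χ a).trans (h a),
      fun h a => (hg i χ a).symm.trans (DFunLike.congr_fun h a)⟩
  let π : Module.End k V := ∑ b : A, ((χ b)⁻¹ : kˣ).val • L b
  have heig : ∀ (i : ℕ) (v : V), (∀ a, L a v = (χ a : k) • v) → ∀ a, L ((σ ^ i) a) ((T ^ i) v) = (χ a : k) • (T ^ i) v := by
    intro i v hv a
    rw [← Module.End.mul_apply, ← CfsgLib.HallHigmanB.twist_pow hTL, Module.End.mul_apply, hv, map_smul]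
  have hπ : ∀ (i : ℕ) (v : V), (∀ a, L a v = (χ a : k) • v) →
      π ((T ^ i) v) = if p ^ j ∣ i then (Nat.card A : k) • (T ^ i) v else 0 := by
    intro i v hv
    simp only [π, LinearMap.sum_apply, LinearMap.smul_apply]
    rw [← Equiv.sum_comp (σ ^ i).toEquiv (fun b => ((χ b)⁻¹ : kˣ).val • L b ((T ^ i) v))]
    let φ : A →* kˣ := (χ.comp (σ ^ i).toMonoidHom)⁻¹ * χ
    have h2 : ∀ b, ((χ ((σ ^ i) b))⁻¹ : kˣ).val • L ((σ ^ i) b) ((T ^ i) v) = (φ b : k) • (T ^ i) v := by
      intro b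
      rw [heig i v hv, smul_smul, ← Units.val_mul]
      rfl
    show ∑ b, ((χ ((σ ^ i) b))⁻¹ : kˣ).val • L ((σ ^ i) b) ((T ^ i) v) = _
    rw [Finset.sum_congr rfl fun b _ => h2 b, ← Finset.sum_smul]
    split_ifs with hd
    · have h1 : φ = 1 := MonoidHom.ext fun b => by
        show (χ ((σ ^ i) b))⁻¹ * χ b = 1
        rw [(hfix i).2 hd, inv_mul_cancel]
      simp [h1, Nat.card_eq_fintype_card]
    · have h1 : φ ≠ 1 := fun h => hd ((hfix i).1 fun b => inv_mul_eq_one.1
        (show (χ ((σ ^ i) b))⁻¹ * χ b = 1 from DFunLike.congr_fun h b))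
      rw [CfsgLib.FpfAut.sum_units_eq_zero h1, zero_smul]
  have hkill : ∀ v, (∀ a, L a v = (χ a : k) • v) →
      (∑ l ∈ Finset.range (p ^ (f - j)), (T ^ p ^ j) ^ l) v = 0 := by
    intro v hv
    have h1 : π (∑ i ∈ Finset.range (p ^ f), (T ^ i) v) = 0 := by
      rw [← LinearMap.sum_apply, hsum, LinearMap.zero_apply, map_zero]
    rw [map_sum, Finset.sum_congr rfl fun i _ => hπ i v hv, ← Finset.sum_filter, ← Finset.smul_sum, smul_eq_zero] at h1
    rw [LinearMap.sum_apply]
    refine Eq.trans ?_ (h1.resolve_left hA)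
    have hpj : 0 < p ^ j := pow_pos hp.out.pos j
    refine Finset.sum_nbij' (fun l => p ^ j * l) (fun i => i / p ^ j) ?_ ?_ ?_ ?_ ?_
    · intro l hl
      simp only [Finset.mem_filter, Finset.mem_range] at hl ⊢
      refine ⟨?_, dvd_mul_right _ _⟩
      rw [← Nat.add_sub_cancel' hj, pow_add]
      exact Nat.mul_lt_mul_of_pos_left hl hpj
    · intro i hi
      simp only [Finset.mem_filter, Finset.mem_range] at hi ⊢
      rw [Nat.div_lt_iff_lt_mul hpj, ← pow_add, Nat.sub_add_cancel hj]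
      exact hi.1
    · intro l _; exact Nat.mul_div_cancel_left l hpj
    · intro i hi
      simp only [Finset.mem_filter, Finset.mem_range] at hi
      exact Nat.mul_div_cancel' hi.2
    · intro l _
      rw [pow_mul]
  refine ⟨j, lt_of_le_of_ne hj fun h => hw0 ?_, (hfix _).2 dvd_rfl, hkill⟩
  have h1 := hkill w hw
  rwa [h, Nat.sub_self, pow_zero, Finset.sum_range_one, pow_zero, Module.End.one_apply] at h1

/-- The index bound on a coprime group of class two with scalar commutators. -/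
theorem index_fixed_mod_center [FiniteDimensional k V] [Nontrivial V] {p : ℕ} [hp : Fact p.Prime] [CharP k p]
    (hp2 : p ≠ 2) {q : ℕ} [hq : Fact q.Prime] {S : Type u} [Group S] [Finite S] (hSq : IsPGroup q S)
    (hSk : (Nat.card S : k) ≠ 0) (L : S →* Module.End k V) (hinj : Function.Injective L)
    (hcomm : ∀ s t : S, ⁅s, t⁆ ∈ Subgroup.center S) (hscalc : ∀ s t : S, ∃ c : k, L ⁅s, t⁆ = c • 1)
    (σ : MulAut S) {f : ℕ} (hσ : σ ^ p ^ f = 1) (T : Module.End k V) (hT : T ^ p ^ f = 1)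
    (hTL : ∀ s, T * L s = L (σ s) * T) (hsum : ∑ i ∈ Finset.range (p ^ f), T ^ i = 0)
    (hfix : ∀ s t : S, (σ ^ p ^ (f - 1)) ⁅s, t⁆ = ⁅s, t⁆)
    (C : Subgroup S) (hC : ∀ s, s ∈ C ↔ (σ ^ p ^ (f - 1)) s * s⁻¹ ∈ Subgroup.center S) :
    C.index ≤ (p - 1) ^ 2 ∨ (2 ≤ f ∧ C.index ≤ (p - 1) ^ (2 * p)) := by
  classical
  set τ := σ ^ p ^ (f - 1) with hτ
  set Z := Subgroup.center S with hZ
  have hZk : (Nat.card Z : k) ≠ 0 :=
    CfsgLib.FpfAut.natCast_ne_zero_of_dvd (Subgroup.card_subgroup_dvd_card _) hSk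
  obtain ⟨ψ, w, hw0, hw⟩ : ∃ (ψ : Z →* kˣ) (w : V), w ≠ 0 ∧ ∀ a : Z, L (a : S) w = (ψ a : k) • w := by
    by_contra hcon
    push Not at hcon
    refine one_ne_zero (α := Module.End k V) (CfsgLib.FpfAut.eq_zero_of_eigen hZk (L.comp Z.subtype) _
      fun ψ x hx => ?_)
    by_contra hx0
    obtain ⟨a, ha⟩ := hcon ψ x (fun h => hx0 (by rw [h, map_zero]))
    exact ha (hx a)
  obtain ⟨j, hjf, hψσ, hkill⟩ := stab_sum hZk (L.comp Z.subtype) (centerAut σ) T (f := f)
    (MulEquiv.ext fun z => Subtype.ext (by rw [centerAut_pow, hσ]; rfl)) (fun a => hTL a) hsum ψ hw0 hw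
  set σ₂ := σ ^ p ^ j with hσ₂
  set T₂ := T ^ p ^ j with hT₂
  set g := f - j with hg
  have hσ₂g : σ₂ ^ p ^ g = 1 := by rw [hσ₂, ← pow_mul, ← pow_add, hg, Nat.add_sub_cancel' hjf.le, hσ]
  have hT₂g : T₂ ^ p ^ g = 1 := by rw [hT₂, ← pow_mul, ← pow_add, hg, Nat.add_sub_cancel' hjf.le, hT]
  have hσ₂τ : σ₂ ^ p ^ (g - 1) = τ := by
    rw [hσ₂, hτ, ← pow_mul, ← pow_add]
    congr 2
    omega
  have hT₂L : ∀ s, T₂ * L s = L (σ₂ s) * T₂ := CfsgLib.HallHigmanB.twist_pow hTL _
  have hcen : ∀ a : Z, ∀ t : S, t * a = a * t := fun a t => Subgroup.mem_center_iff.1 a.2 t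
  by_cases htriv : C = ⊤
  · left
    rw [htriv, Subgroup.index_top]
    exact Nat.one_le_pow _ _ (by have := hp.out.two_le; omega)
  set R₁ := Subgroup.closure (Set.range fun s : S => τ s * s⁻¹) with hR₁
  have hτc : ∀ c : S, c ∈ C → ∀ r ∈ R₁, r * c = c * r := by
    intro c hc r hr
    suffices h : R₁ ≤ Subgroup.centralizer {c} from Subgroup.mem_centralizer_singleton_iff.1 (h hr)
    rw [hR₁, Subgroup.closure_le]
    rintro _ ⟨t, rfl⟩
    rw [SetLike.mem_coe, Subgroup.mem_centralizer_singleton_iff]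
    obtain ⟨z, hz, hzc⟩ : ∃ z ∈ Z, τ c = z * c := ⟨τ c * c⁻¹, (hC c).1 hc, (inv_mul_cancel_right _ _).symm⟩
    have h1 : ∀ y, ⁅c, τ y⁆ = ⁅c, y⁆ := fun y => by
      have h := hfix c y
      rw [map_commutatorElement, hzc] at h
      rw [← h, commutatorElement_def, commutatorElement_def]
      calc c * τ y * c⁻¹ * (τ y)⁻¹ = (c * τ y * c⁻¹) * z * z⁻¹ * (τ y)⁻¹ := by group
        _ = z * (c * τ y * c⁻¹) * z⁻¹ * (τ y)⁻¹ := by rw [Subgroup.mem_center_iff.1 hz]
        _ = _ := by group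
    have h4 : ∀ y : S, y * c * y⁻¹ = ⁅c, y⁆⁻¹ * c := fun y => by rw [commutatorElement_def]; group
    have h5 : τ t⁻¹ * c * (τ t⁻¹)⁻¹ = t⁻¹ * c * t⁻¹⁻¹ := by rw [h4, h4, h1]
    rw [map_inv, inv_inv, inv_inv] at h5
    calc τ t * t⁻¹ * c = τ t * (t⁻¹ * c * t) * t⁻¹ := by group
      _ = τ t * ((τ t)⁻¹ * c * τ t) * t⁻¹ := by rw [h5]
      _ = _ := by group
  have hCn : ∀ a b : S, a ∈ C → b * a * b⁻¹ ∈ C := fun a b ha => by
    have h1 : (b * a * b⁻¹) * a⁻¹ ∈ Z := by
      have := hcomm b a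
      rwa [commutatorElement_def] at this
    have h2 : b * a * b⁻¹ * a⁻¹ ∈ C := by
      rw [hC]
      refine mul_mem ?_ (inv_mem h1)
      exact (Subgroup.characteristic_iff_map_eq.1 inferInstance τ).le ⟨_, h1, rfl⟩
    simpa using mul_mem h2 ha
  haveI : C.Normal := ⟨fun a ha b => hCn a b ha⟩
  -- `S = C R₁`
  have hSp : ¬ p ∣ Nat.card S := fun h => hSk ((CharP.cast_eq_zero_iff k p _).2 h)
  have hjoin : C ⊔ R₁ = ⊤ := by
    rw [eq_top_iff]
    intro s _
    set D := C ⊔ R₁ with hD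
    have hZD : Z ≤ D := le_trans (fun a ha => (hC a).2 (mul_mem
      ((Subgroup.characteristic_iff_map_eq.1 inferInstance τ).le ⟨_, ha, rfl⟩) (inv_mem ha))) le_sup_left
    haveI : D.Normal := by
      refine ⟨fun a ha b => ?_⟩
      have := mul_mem (hZD (hcomm b a)) ha
      rwa [commutatorElement_def, inv_mul_cancel_right] at this
    have hτs : ∀ y : S, ((τ y : S) : S ⧸ D) = (y : S ⧸ D) := fun y => by
      rw [eq_comm, QuotientGroup.eq]
      have h1 : τ y * y⁻¹ ∈ D := (le_sup_right (a := C)) (Subgroup.subset_closure ⟨y, rfl⟩)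
      exact (Subgroup.Normal.mem_comm_iff inferInstance).1 h1
    have hτp : τ ^ p = 1 := by
      rw [hτ, ← pow_mul, ← pow_succ, Nat.sub_add_cancel (show 1 ≤ f by omega), hσ]
    -- the norm modulo the centre
    letI : CommGroup (S ⧸ Z) := { (inferInstance : Group (S ⧸ Z)) with
      mul_comm := fun a b => by
        induction a using QuotientGroup.induction_on with
        | _ a =>
          induction b using QuotientGroup.induction_on with
          | _ b =>
            rw [← QuotientGroup.mk_mul, ← QuotientGroup.mk_mul, QuotientGroup.eq]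
            have := hcomm b⁻¹ a⁻¹
            rw [commutatorElement_def] at this
            simpa [mul_assoc] using this }
    let τZ : MulAut (S ⧸ Z) := QuotientGroup.congr Z Z τ (Subgroup.characteristic_iff_map_eq.1 inferInstance τ)
    have hτZ : ∀ (i : ℕ) (y : S), (τZ ^ i) (y : S ⧸ Z) = ((τ ^ i) y : S) := by
      intro i
      induction i with
      | zero => intro y; rfl
      | succ i ih =>
        intro y
        rw [pow_succ', pow_succ', MulAut.mul_apply, MulAut.mul_apply, ih]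
        rfl
    have hτZp : τZ ^ p = 1 := MulEquiv.ext fun y => by
      induction y using QuotientGroup.induction_on with
      | _ y => rw [hτZ, hτp]; rfl
    obtain ⟨c, hc⟩ := QuotientGroup.mk_surjective (∏ i ∈ Finset.range p, (τZ ^ i) (s : S ⧸ Z))
    have hcC : c ∈ C := by
      have h1 := norm_fixed τZ hτZp (s : S ⧸ Z)
      rw [← hc] at h1
      have h2 : ((τ c : S) : S ⧸ Z) = (c : S ⧸ Z) := h1
      rw [hC, ← QuotientGroup.eq_one_iff, QuotientGroup.mk_mul, QuotientGroup.mk_inv, h2, mul_inv_cancel]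
    let φ : S ⧸ Z →* S ⧸ D := QuotientGroup.lift Z (QuotientGroup.mk' D) (by rw [QuotientGroup.ker_mk']; exact hZD)
    have hφ : ∀ i : ℕ, φ ((τZ ^ i) (s : S ⧸ Z)) = (s : S ⧸ D) := fun i => by
      induction i with
      | zero => rfl
      | succ i ih =>
        rw [hτZ] at ih ⊢
        rw [pow_succ', MulAut.mul_apply]
        exact (hτs _).trans ih
    have h1 : (s : S ⧸ D) ^ p = 1 := by
      have h2 : φ (c : S ⧸ Z) = 1 := (QuotientGroup.eq_one_iff c).2 ((le_sup_left (b := R₁)) hcC)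
      rw [hc] at h2
      have h3 : ∀ n : ℕ, φ (∏ i ∈ Finset.range n, (τZ ^ i) (s : S ⧸ Z)) = (s : S ⧸ D) ^ n := fun n => by
        induction n with
        | zero => simp
        | succ n ih => rw [Finset.prod_range_succ, map_mul, ih, hφ, pow_succ]
      exact (h3 p).symm.trans h2
    rw [← QuotientGroup.eq_one_iff]
    refine orderOf_eq_one_iff.1 (Nat.eq_one_of_dvd_coprimes (hp.out.coprime_iff_not_dvd.2 hSp)
      (orderOf_dvd_of_pow_eq_one h1) ((orderOf_dvd_natCard _).trans (Subgroup.card_quotient_dvd_card D)))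
  have hR₁C : ∀ r ∈ R₁, r ∈ C → r ∈ Z := by
    intro r hr hrC
    refine Subgroup.mem_center_iff.2 fun t => ?_
    suffices h : C ⊔ R₁ ≤ Subgroup.centralizer {r} from
      Subgroup.mem_centralizer_singleton_iff.1 (h (hjoin ▸ Subgroup.mem_top t))
    refine sup_le (fun a ha => Subgroup.mem_centralizer_singleton_iff.2 (hτc a ha r hr).symm) ?_
    exact fun a ha => Subgroup.mem_centralizer_singleton_iff.2 (hτc r hrC a ha)
  -- an irreducible piece of the weight space
  let W : Submodule k V :=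
    { carrier := {x | ∀ a : Z, L (a : S) x = (ψ a : k) • x}
      add_mem' := fun {x y} hx hy a => by rw [map_add, hx a, hy a, smul_add]
      zero_mem' := fun a => by rw [map_zero, smul_zero]
      smul_mem' := fun c x hx a => by rw [map_smul, hx a, smul_comm] }
  have hWT : W.map T₂ ≤ W := by
    rintro _ ⟨x, hx, rfl⟩ a
    obtain ⟨a', ha'⟩ := (centerAut σ ^ p ^ j).surjective a
    have h1 : σ₂ (a' : S) = a := by rw [← ha', centerAut_pow]
    rw [← h1, ← Module.End.mul_apply, ← hT₂L, Module.End.mul_apply, hx a', map_smul, ← ha', hψσ]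
  have hWR : ∀ s : S, W.map (L s) ≤ W := by
    rintro s _ ⟨x, hx, rfl⟩ a
    rw [← Module.End.mul_apply, ← map_mul, ← hcen, map_mul, Module.End.mul_apply, hx a, map_smul]
  obtain ⟨U, ⟨hU0, hUW, hUT, hUR⟩, hUmin⟩ := (wellFounded_lt (α := Submodule k V)).has_min
    {U | U ≠ ⊥ ∧ U ≤ W ∧ U.map T₂ ≤ U ∧ ∀ r : R₁, U.map (L r) ≤ U}
    ⟨W, fun h => hw0 ((Submodule.eq_bot_iff W).1 h w hw), le_rfl, hWT, fun r => hWR r⟩
  haveI : Nontrivial U := Submodule.nontrivial_iff_ne_bot.2 hU0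
  let Tu : Module.End k U := T₂.restrict fun x hx => hUT ⟨x, hx, rfl⟩
  let L₀ : R₁ →* Module.End k U := CfsgLib.HallHigmanB.restrictRep (L.comp R₁.subtype) U
    fun r x hx => hUR r ⟨x, hx, rfl⟩
  have hστ : ∀ y, σ₂ (τ y) = τ (σ₂ y) := fun y => by
    rw [← MulAut.mul_apply, ← MulAut.mul_apply, hσ₂, hτ, ← pow_add, ← pow_add, add_comm]
  have hinvR : ∀ r ∈ R₁, σ₂ r ∈ R₁ := by
    intro r hr
    refine (?_ : R₁.map σ₂.toMonoidHom ≤ R₁) ⟨r, hr, rfl⟩
    rw [hR₁, MonoidHom.map_closure, Subgroup.closure_le]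
    rintro _ ⟨_, ⟨t, rfl⟩, rfl⟩
    refine Subgroup.subset_closure ⟨σ₂ t, ?_⟩
    show τ (σ₂ t) * (σ₂ t)⁻¹ = σ₂ (τ t * t⁻¹)
    rw [map_mul, map_inv, hστ]
  set σR := CfsgLib.HallHigmanB.restrictAut σ₂ R₁ hinvR with hσR
  have hσRv : ∀ (i : ℕ) (r : R₁), (((σR ^ i) r : R₁) : S) = (σ₂ ^ i) r :=
    CfsgLib.HallHigmanB.restrictAut_pow_coe σ₂ R₁ hinvR
  have hσRg : σR ^ p ^ g = 1 := MulEquiv.ext fun r => Subtype.ext (by rw [hσRv, hσ₂g]; rfl)
  have hTug : Tu ^ p ^ g = 1 := LinearMap.ext fun x => Subtype.ext (by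
    rw [CfsgLib.HallHigmanB.restrict_pow_coe, hT₂g]; rfl)
  have hTuL₀ : ∀ r, Tu * L₀ r = L₀ (σR r) * Tu := fun r => LinearMap.ext fun x => Subtype.ext (by
    show T₂ (L (r : S) x.1) = L ((σR r : R₁) : S) (T₂ x.1)
    have h1 := hσRv 1 r
    rw [pow_one, pow_one] at h1
    rw [h1, ← Module.End.mul_apply, hT₂L, Module.End.mul_apply])
  have hTuinv : Tu * Tu ^ (p ^ g - 1) = 1 := by
    rw [← pow_succ', Nat.sub_add_cancel (Nat.one_le_pow _ _ hp.out.pos), hTug]
  set N := L₀.ker with hN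
  have hNσ : N.map σR.toMonoidHom = N := by
    refine Subgroup.eq_of_le_of_card_ge ?_
      (Subgroup.card_map_of_injective (f := σR.toMonoidHom) σR.injective).ge
    rintro _ ⟨r, hr, rfl⟩
    rw [SetLike.mem_coe, MonoidHom.mem_ker] at hr
    rw [MonoidHom.mem_ker]
    calc L₀ (σR r) = L₀ (σR r) * Tu * Tu ^ (p ^ g - 1) := by rw [mul_assoc, hTuinv, mul_one]
      _ = 1 := by rw [← hTuL₀, hr, mul_one, hTuinv]
  let L' : R₁ ⧸ N →* Module.End k U := QuotientGroup.lift N L₀ le_rfl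
  have hinj' : Function.Injective L' := by
    rw [injective_iff_map_eq_one]
    intro x hx
    induction x using QuotientGroup.induction_on with
    | _ r => exact (QuotientGroup.eq_one_iff r).2 hx
  let σ' : MulAut (R₁ ⧸ N) := QuotientGroup.congr N N σR hNσ
  have hσ'mk : ∀ (i : ℕ) (r : R₁), (σ' ^ i) (r : R₁ ⧸ N) = ((σR ^ i) r : R₁) := by
    intro i
    induction i with
    | zero => intro r; rfl
    | succ i ih =>
      intro r
      rw [pow_succ', pow_succ', MulAut.mul_apply, MulAut.mul_apply, ih]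
      rfl
  have hσ'g : σ' ^ p ^ g = 1 := MulEquiv.ext fun x => by
    induction x using QuotientGroup.induction_on with
    | _ r => rw [hσ'mk, hσRg]; rfl
  have hTuL' : ∀ x, Tu * L' x = L' (σ' x) * Tu := fun x => by
    induction x using QuotientGroup.induction_on with
    | _ r => exact hTuL₀ r
  set Z' := Subgroup.center (R₁ ⧸ N) with hZ'
  have hcomm' : ∀ x y : R₁ ⧸ N, ⁅x, y⁆ ∈ Z' := fun x y => by
    induction x using QuotientGroup.induction_on with
    | _ a =>
      induction y using QuotientGroup.induction_on with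
      | _ b =>
        refine Subgroup.mem_center_iff.2 fun t => ?_
        induction t using QuotientGroup.induction_on with
        | _ r =>
          have h1 : r * ⁅a, b⁆ = ⁅a, b⁆ * r :=
            Subtype.ext (Subgroup.mem_center_iff.1 (hcomm (a : S) (b : S)) (r : S))
          exact congrArg (QuotientGroup.mk' N) h1
  obtain ⟨x₀, hx₀⟩ := exists_ne (0 : U)
  have hcen' : ∀ r : R₁, (r : R₁ ⧸ N) ∈ Z' ↔ (r : S) ∈ Z := by
    intro r
    constructor
    · intro h
      have hrR : ∀ a ∈ R₁, a * (r : S) = r * a := by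
        intro a ha
        have h0 : ⁅QuotientGroup.mk' N r, QuotientGroup.mk' N ⟨a, ha⟩⁆ = 1 :=
          commutatorElement_eq_one_iff_mul_comm.2 (Subgroup.mem_center_iff.1 h _).symm
        rw [← map_commutatorElement, QuotientGroup.mk'_apply, QuotientGroup.eq_one_iff, MonoidHom.mem_ker] at h0
        obtain ⟨c, hc⟩ := hscalc (r : S) a
        have h2 : (L ⁅(r : S), a⁆) x₀.1 = x₀.1 := congrArg Subtype.val (LinearMap.congr_fun h0 x₀)
        rw [hc, LinearMap.smul_apply, Module.End.one_apply] at h2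
        have hc1 : c = 1 := smul_left_injective k (fun hz => hx₀ (Subtype.ext hz)) (h2.trans (one_smul k _).symm)
        refine (commutatorElement_eq_one_iff_mul_comm.1 (hinj ?_)).symm
        rw [hc, hc1, one_smul, map_one]
      refine Subgroup.mem_center_iff.2 fun t => ?_
      suffices h : C ⊔ R₁ ≤ Subgroup.centralizer {(r : S)} from
        Subgroup.mem_centralizer_singleton_iff.1 (h (hjoin ▸ Subgroup.mem_top t))
      exact sup_le (fun c hc => Subgroup.mem_centralizer_singleton_iff.2 (hτc c hc r r.2).symm)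
        fun a ha => Subgroup.mem_centralizer_singleton_iff.2 (hrR a ha)
    · intro h
      refine Subgroup.mem_center_iff.2 fun t => ?_
      induction t using QuotientGroup.induction_on with
      | _ a => exact congrArg (QuotientGroup.mk' N) (Subtype.ext (Subgroup.mem_center_iff.1 h (a : S)))
  have hnc : Z' ≠ ⊤ := by
    intro h
    refine htriv (eq_top_iff.2 fun t _ => (hC t).2 ?_)
    exact (hcen' ⟨_, Subgroup.subset_closure ⟨t, rfl⟩⟩).1 (h ▸ Subgroup.mem_top _)
  have hscal' : ∀ z ∈ Z', ∃ c : k, L' z = c • 1 := by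
    intro z hz
    induction z using QuotientGroup.induction_on with
    | _ r =>
      refine ⟨(ψ ⟨r, (hcen' r).1 hz⟩ : k), LinearMap.ext fun x => Subtype.ext ?_⟩
      exact hUW x.2 ⟨r, (hcen' r).1 hz⟩
  have hsimp : ∀ Y : Submodule k U, Y.map Tu ≤ Y → (∀ x, Y.map (L' x) ≤ Y) → Y = ⊥ ∨ Y = ⊤ := by
    intro Y hYT hYL
    by_contra hcon
    push Not at hcon
    refine hUmin (Y.map U.subtype) ⟨fun h => hcon.1 (Submodule.map_injective_of_injective
        U.injective_subtype (h.trans (Submodule.map_bot U.subtype).symm)),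
      (Submodule.map_subtype_le U Y).trans hUW, ?_, fun r => ?_⟩
      (lt_of_le_of_ne (Submodule.map_subtype_le U Y) fun h => hcon.2 (Submodule.map_injective_of_injective
        U.injective_subtype (h.trans (Submodule.map_subtype_top U).symm)))
    · rintro _ ⟨_, ⟨x, hx, rfl⟩, rfl⟩
      exact ⟨Tu x, hYT ⟨x, hx, rfl⟩, rfl⟩
    · rintro _ ⟨_, ⟨x, hx, rfl⟩, rfl⟩
      exact ⟨L' (r : R₁ ⧸ N) x, hYL _ ⟨x, hx, rfl⟩, rfl⟩
  have hS'dvd : Nat.card (R₁ ⧸ N) ∣ Nat.card S :=
    (Subgroup.card_quotient_dvd_card N).trans (Subgroup.card_subgroup_dvd_card R₁)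
  have hS'k : (Nat.card (R₁ ⧸ N) : k) ≠ 0 := CfsgLib.FpfAut.natCast_ne_zero_of_dvd hS'dvd hSk
  have hsimpL := CfsgLib.HallHigmanB.simple_of_twist hS'k L' hinj' hcomm' hscal' σ' g hσ'g Tu hTug hTuL' hsimp
  have hreg : ∀ i, 0 < i → i < p ^ g → ∀ x : R₁ ⧸ N, x⁻¹ * (σ' ^ i) x ∈ Z' → x ∈ Z' := by
    intro i hi0 hig x hx
    induction x using QuotientGroup.induction_on with
    | _ r =>
      rw [hσ'mk, ← QuotientGroup.mk_inv, ← QuotientGroup.mk_mul, hcen', Subgroup.coe_mul, Subgroup.coe_inv,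
        hσRv] at hx
      rw [hcen']
      refine hR₁C r r.2 ((hC _).2 ?_)
      let σZ : MulAut (S ⧸ Z) :=
        QuotientGroup.congr Z Z σ₂ (Subgroup.characteristic_iff_map_eq.1 inferInstance σ₂)
      have hσZ : ∀ (l : ℕ) (y : S), σZ^[l] (y : S ⧸ Z) = (((σ₂ ^ l) y : S) : S ⧸ Z) := by
        intro l
        induction l with
        | zero => intro y; rfl
        | succ l ih =>
          intro y
          rw [Function.iterate_succ_apply', ih, pow_succ', MulAut.mul_apply]
          rfl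
      have h1 : Function.IsPeriodicPt σZ i ((r : S) : S ⧸ Z) :=
        (hσZ i r).trans (QuotientGroup.eq.2 hx).symm
      have h2 : Function.IsPeriodicPt σZ (p ^ g) ((r : S) : S ⧸ Z) := (hσZ _ r).trans (by rw [hσ₂g]; rfl)
      obtain ⟨l, hl, hleq⟩ := (Nat.dvd_prime_pow hp.out).1 (Nat.gcd_dvd_right i (p ^ g))
      have hlg : l ≤ g - 1 := by
        by_contra hcon
        have h3 := Nat.le_of_dvd hi0 (Nat.gcd_dvd_left i (p ^ g))
        rw [hleq, show l = g by omega] at h3
        omega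
      have h4 : Function.IsPeriodicPt σZ (p ^ (g - 1)) ((r : S) : S ⧸ Z) :=
        (hleq ▸ h1.gcd h2).trans_dvd (pow_dvd_pow p hlg)
      have h5 : ((τ r : S) : S ⧸ Z) = (r : S) := by
        rw [← hσ₂τ, ← hσZ]; exact h4
      rw [← QuotientGroup.eq_one_iff, QuotientGroup.mk_mul, QuotientGroup.mk_inv, h5, mul_inv_cancel]
  have hTr : (Tu - 1) ^ (p ^ g - 1) = 0 := by
    rw [sub_one_pow_eq_sum k (p := p) Tu g]
    refine LinearMap.ext fun x => Subtype.ext ?_
    rw [LinearMap.sum_apply, AddSubmonoidClass.coe_finsetSum, LinearMap.zero_apply, ZeroMemClass.coe_zero]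
    refine Eq.trans (Finset.sum_congr rfl fun l _ => CfsgLib.HallHigmanB.restrict_pow_coe _ _ _ l x) ?_
    rw [← LinearMap.sum_apply]
    exact hkill _ (hUW x.2)
  rcases CfsgLib.HallHigmanB.critical hS'k L' hinj' hsimpL hcomm' hnc σ' g hσ'g Tu hTug hTuL' hreg hTr with
    h | ⟨d, hd, -, -, hcard⟩
  · have := Nat.one_le_pow g p hp.out.pos
    omega
  -- the index
  have hle : C.index ≤ d ^ 2 := by
    have h1 : C.relIndex R₁ = C.index := by
      rw [← Subgroup.relIndex_sup_right, sup_comm, hjoin, Subgroup.relIndex_top_right]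
    rw [← h1, ← hcard]
    refine Nat.le_of_dvd Nat.card_pos ?_
    rw [← Subgroup.index_eq_card, ← Subgroup.index_comap_of_surjective Z' (QuotientGroup.mk'_surjective N)]
    refine Subgroup.index_dvd_of_le fun r hr => ?_
    rw [Subgroup.mem_subgroupOf]
    have h2 : (r : S) ∈ Z := (hcen' r).1 hr
    exact (hC _).2 (mul_mem
      ((Subgroup.characteristic_iff_map_eq.1 inferInstance τ).le ⟨_, h2, rfl⟩) (inv_mem h2))
  obtain ⟨m, hm⟩ : ∃ m, d = q ^ m := by
    obtain ⟨l, hl⟩ := IsPGroup.iff_card.1 hSq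
    have h1 : d ∣ q ^ l := (dvd_pow_self d two_ne_zero).trans
      (hcard ▸ ((Subgroup.card_quotient_dvd_card Z').trans hS'dvd).trans hl.dvd)
    obtain ⟨m, -, hm⟩ := (Nat.dvd_prime_pow hq.out).1 h1
    exact ⟨m, hm⟩
  rcases prime_pow_sub_one_small hp.out hp2 (show 1 ≤ g by omega) hq.out
    (show p ^ g - 1 = q ^ m by omega) with hg1 | ⟨hp3, hg2⟩
  · left
    rw [hg1, pow_one] at hd
    rwa [show p - 1 = d by omega]
  · right
    refine ⟨by omega, hle.trans ?_⟩
    subst hp3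
    rw [hg2] at hd
    obtain rfl : d = 8 := by omega
    norm_num

section Setting

variable {H : Type u} [Group H]

/-- `z` is a power of an element of `P` with vanishing norm. -/
def Pinched (p : ℕ) (ρ : H →* Module.End k V) (P : Subgroup H) (z : H) : Prop :=
  ∃ x ∈ P, ∃ n : ℕ, x ^ p ^ n = z ∧ z ^ p = 1 ∧ ∑ i ∈ Finset.range (p ^ (n + 1)), ρ (x ^ i) = 0

theorem Pinched.mem {p : ℕ} {ρ : H →* Module.End k V} {P : Subgroup H} {z : H} (h : Pinched p ρ P z) :
    z ∈ P := by
  obtain ⟨x, hx, n, rfl, -, -⟩ := h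
  exact pow_mem hx _

variable [Finite H] {p : ℕ} [hp : Fact p.Prime]

/-- A pinched element fixes the centre. -/
theorem Pinched.fix_center {ρ : H →* Module.End k V} (hinj : Function.Injective ρ) {P : Subgroup H}
    (R : Subgroup H) (hRk : (Nat.card R : k) ≠ 0) (c : P →* MulAut R)
    (hcv : ∀ (y : P) (s : R), ((c y s : R) : H) = y * s * (y : H)⁻¹) {z : H} (hz : Pinched p ρ P z)
    (a : Subgroup.center R) : c ⟨z, hz.mem⟩ (a : R) = a := by
  obtain ⟨x, hx, n, hxz, hzp, hsum⟩ := id hz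
  have hAk : (Nat.card (Subgroup.center R) : k) ≠ 0 :=
    CfsgLib.FpfAut.natCast_ne_zero_of_dvd (Subgroup.card_subgroup_dvd_card _) hRk
  let L : Subgroup.center R →* Module.End k V := (ρ.comp R.subtype).comp (Subgroup.center R).subtype
  set σ := centerAut (c ⟨x, hx⟩) with hσdef
  have hσv : ∀ (i : ℕ) (b : Subgroup.center R),
      ((((σ ^ i) b : Subgroup.center R) : R) : H) = x ^ i * ((b : R) : H) * (x ^ i)⁻¹ := fun i b => by
    rw [hσdef, centerAut_pow, ← map_pow, hcv]
    rfl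
  have hσ : σ ^ p ^ (n + 1) = 1 := MulEquiv.ext fun b => Subtype.ext (Subtype.ext (by
    rw [hσv, pow_succ, pow_mul, hxz, hzp, one_mul, inv_one, mul_one]; rfl))
  have hTL : ∀ b, ρ x * L b = L (σ b) * ρ x := fun b => by
    show ρ x * ρ ((b : R) : H) = ρ (((σ b : Subgroup.center R) : R) : H) * ρ x
    have h := hσv 1 b
    rw [pow_one, pow_one] at h
    rw [h, ← map_mul, ← map_mul, inv_mul_cancel_right]
  have hfix : L ((σ ^ p ^ n) a) - L a = 0 := by
    refine CfsgLib.FpfAut.eq_zero_of_eigen hAk L _ fun χ w hw => ?_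
    rcases eq_or_ne w 0 with rfl | hw0
    · exact map_zero _
    obtain ⟨j, hj, hjfix, -⟩ := stab_sum hAk L σ (ρ x) hσ hTL (by simpa only [map_pow] using hsum) χ hw0 hw
    obtain ⟨t, ht⟩ := pow_dvd_pow p (show j ≤ n by omega)
    have hit : ∀ t b, χ ((σ ^ (p ^ j * t)) b) = χ b := fun t => by
      induction t with
      | zero => intro b; rw [mul_zero, pow_zero, MulAut.one_apply]
      | succ t ih => intro b; rw [Nat.mul_succ, pow_add, MulAut.mul_apply, ih, hjfix]
    rw [LinearMap.sub_apply, hw, hw, ht, hit, sub_self]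
  rw [sub_eq_zero] at hfix
  refine Subtype.ext ?_
  rw [hcv]
  have h := hinj hfix
  show z * ((a : R) : H) * z⁻¹ = _
  rw [← hxz, ← hσv]
  exact h

/-- The image of a pinched element on a nondegenerate weight piece is small. -/
theorem exists_small [FiniteDimensional k V] [CharP k p] (hp2 : p ≠ 2) {q : ℕ} [hq : Fact q.Prime]
    (ρ : H →* Module.End k V) (hinj : Function.Injective ρ) (P : Subgroup H) (R : Subgroup H)
    (hRq : IsPGroup q R) (hRk : (Nat.card R : k) ≠ 0) (hcomm : ∀ s t : R, ⁅s, t⁆ ∈ Subgroup.center R)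
    (c : P →* MulAut R) (hcv : ∀ (y : P) (s : R), ((c y s : R) : H) = y * s * (y : H)⁻¹)
    (χ : Subgroup.center R →* kˣ) {u : V} (hu : u ≠ 0)
    (hχu : ∀ a : Subgroup.center R, ρ ((a : R) : H) u = (χ a : k) • u)
    (St : Subgroup P) (hSt : ∀ y : P, y ∈ St ↔ ∀ a, χ (centerAut (c y) a) = χ a)
    {M : Type u} [CommGroup M] (π : R →* M) (hπ : Function.Surjective π) (hker : ∀ s, π s = 1 ↔ Rad χ s)
    (cM : St →* MulAut M) (hcM : ∀ (y : St) (s : R), cM y (π s) = π (c y s))
    {z : H} (hz : Pinched p ρ P z) (hzS : (⟨z, hz.mem⟩ : P) ∈ St) :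
    Small p cM.range (cM ⟨⟨z, hz.mem⟩, hzS⟩) := by
  classical
  obtain ⟨x, hx, n, hxz, hzp, hsum⟩ := id hz
  have hAk : (Nat.card (Subgroup.center R) : k) ≠ 0 :=
    CfsgLib.FpfAut.natCast_ne_zero_of_dvd (Subgroup.card_subgroup_dvd_card _) hRk
  set xP : P := ⟨x, hx⟩ with hxP
  let Lc : Subgroup.center R →* Module.End k V := (ρ.comp R.subtype).comp (Subgroup.center R).subtype
  set σ₀ := centerAut (c xP) with hσ₀
  have hσ₀v : ∀ (i : ℕ) (b : Subgroup.center R), (((σ₀ ^ i) b : Subgroup.center R) : R) = c (xP ^ i) b :=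
    fun i b => by rw [hσ₀, centerAut_pow, map_pow]
  have hxPz : xP ^ p ^ n = ⟨z, hz.mem⟩ := Subtype.ext hxz
  have hxPp : xP ^ p ^ (n + 1) = 1 := Subtype.ext (by
    rw [Subgroup.coe_pow, pow_succ, pow_mul, hxz, hzp]; rfl)
  have hσ : σ₀ ^ p ^ (n + 1) = 1 := MulEquiv.ext fun b => Subtype.ext (by
    rw [hσ₀v, hxPp, map_one]; rfl)
  have hTL₀ : ∀ b, ρ x * Lc b = Lc (σ₀ b) * ρ x := fun b => by
    show ρ x * ρ ((b : R) : H) = ρ (((σ₀ b : Subgroup.center R) : R) : H) * ρ x
    have h := hσ₀v 1 b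
    rw [pow_one, pow_one] at h
    rw [h, hcv, ← map_mul, ← map_mul, inv_mul_cancel_right]
  obtain ⟨j, hj, hjfix, hkill⟩ := stab_sum hAk Lc σ₀ (ρ x) hσ hTL₀ (by simpa only [map_pow] using hsum) χ hu hχu
  set x₁ : P := xP ^ p ^ j with hx₁
  have hx₁S : x₁ ∈ St := (hSt x₁).2 fun a => by
    rw [← hjfix a]
    exact congrArg χ (Subtype.ext (by rw [hσ₀v]; rfl))
  set f := n + 1 - j with hf
  have hfp : x₁ ^ p ^ f = 1 := by rw [hx₁, ← pow_mul, ← pow_add, hf, Nat.add_sub_cancel' hj.le, hxPp]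
  have hfz : x₁ ^ p ^ (f - 1) = ⟨z, hz.mem⟩ := by
    rw [hx₁, ← pow_mul, ← pow_add, show j + (f - 1) = n by omega, hxPz]
  -- the weight space
  let W : Submodule k V :=
    { carrier := {y | ∀ a : Subgroup.center R, ρ ((a : R) : H) y = (χ a : k) • y}
      add_mem' := fun {x y} hx hy a => by rw [map_add, hx a, hy a, smul_add]
      zero_mem' := fun a => by rw [map_zero, smul_zero]
      smul_mem' := fun d x hx a => by rw [map_smul, hx a, smul_comm] }
  haveI : Nontrivial W := Submodule.nontrivial_iff_ne_bot.2 fun h => hu ((Submodule.eq_bot_iff W).1 h u hχu)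
  have hWR : ∀ (s : R), ∀ y ∈ W, ρ (s : H) y ∈ W := by
    intro s y hy a
    have h1 : ((a : R) : H) * s = s * (a : R) := congrArg Subtype.val (Subgroup.mem_center_iff.1 a.2 s).symm
    rw [← Module.End.mul_apply, ← map_mul, h1, map_mul, Module.End.mul_apply, hy a, map_smul]
  set σR := c x₁ with hσR
  have hWT : ∀ y ∈ W, ρ (x₁ : H) y ∈ W := by
    intro y hy a
    obtain ⟨b, hb⟩ := (centerAut σR).surjective a
    have h1 : ((a : R) : H) * (x₁ : H) = (x₁ : H) * ((b : R) : H) := by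
      rw [← hb]
      show ((σR (b : R) : R) : H) * (x₁ : H) = _
      rw [hσR, hcv, inv_mul_cancel_right]
    have h2 : χ b = χ a := by
      rw [← hb]; exact ((hSt x₁).1 hx₁S b).symm
    rw [← Module.End.mul_apply, ← map_mul, h1, map_mul, Module.End.mul_apply, hy b, map_smul, h2]
  let T : Module.End k W := (ρ (x₁ : H)).restrict hWT
  let L₁ : R →* Module.End k W := CfsgLib.HallHigmanB.restrictRep (ρ.comp R.subtype) W hWR
  have hTv : ∀ (i : ℕ) (y : W), (((T ^ i) y : W) : V) = (ρ (x₁ : H) ^ i) y.1 :=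
    CfsgLib.HallHigmanB.restrict_pow_coe _ _ hWT
  have hT : T ^ p ^ f = 1 := LinearMap.ext fun y => Subtype.ext (by
    rw [hTv, ← map_pow, ← Subgroup.coe_pow, hfp, Subgroup.coe_one, map_one]; rfl)
  have hTL₁ : ∀ s, T * L₁ s = L₁ (σR s) * T := fun s => LinearMap.ext fun y => Subtype.ext (by
    show ρ (x₁ : H) (ρ (s : H) y.1) = ρ ((σR s : R) : H) (ρ (x₁ : H) y.1)
    rw [hσR, hcv, ← Module.End.mul_apply, ← Module.End.mul_apply, ← map_mul, ← map_mul, inv_mul_cancel_right])
  have hTinv : T * T ^ (p ^ f - 1) = 1 := by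
    rw [← pow_succ', Nat.sub_add_cancel (Nat.one_le_pow _ _ hp.out.pos), hT]
  have hTsum : ∑ i ∈ Finset.range (p ^ f), T ^ i = 0 := LinearMap.ext fun y => Subtype.ext (by
    rw [LinearMap.sum_apply, AddSubmonoidClass.coe_finsetSum, LinearMap.zero_apply, ZeroMemClass.coe_zero]
    refine Eq.trans ?_ (hkill y.1 y.2)
    rw [LinearMap.sum_apply]
    exact Finset.sum_congr rfl fun i _ => by rw [hTv, hx₁, Subgroup.coe_pow, map_pow])
  set N := L₁.ker with hN
  have hNσ : N.map σR.toMonoidHom = N := by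
    refine Subgroup.eq_of_le_of_card_ge ?_
      (Subgroup.card_map_of_injective (f := σR.toMonoidHom) σR.injective).ge
    rintro _ ⟨s, hs, rfl⟩
    rw [SetLike.mem_coe, MonoidHom.mem_ker] at hs
    rw [MonoidHom.mem_ker]
    calc L₁ (σR s) = L₁ (σR s) * T * T ^ (p ^ f - 1) := by rw [mul_assoc, hTinv, mul_one]
      _ = 1 := by rw [← hTL₁, hs, mul_one, hTinv]
  let L : R ⧸ N →* Module.End k W := QuotientGroup.lift N L₁ le_rfl
  have hLinj : Function.Injective L := by
    rw [injective_iff_map_eq_one]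
    intro y hy
    induction y using QuotientGroup.induction_on with
    | _ s => exact (QuotientGroup.eq_one_iff s).2 hy
  let σ : MulAut (R ⧸ N) := QuotientGroup.congr N N σR hNσ
  have hσmk : ∀ (i : ℕ) (s : R), (σ ^ i) (s : R ⧸ N) = ((c (x₁ ^ i) s : R) : R ⧸ N) := by
    intro i
    induction i with
    | zero => intro s; rw [pow_zero, pow_zero, map_one]; rfl
    | succ i ih =>
      intro s
      rw [pow_succ', pow_succ', MulAut.mul_apply, ih, map_mul, MulAut.mul_apply]
      rfl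
  have hσf : σ ^ p ^ f = 1 := MulEquiv.ext fun y => by
    induction y using QuotientGroup.induction_on with
    | _ s => rw [hσmk, hfp, map_one]; rfl
  have hTL : ∀ y, T * L y = L (σ y) * T := fun y => by
    induction y using QuotientGroup.induction_on with
    | _ s => exact hTL₁ s
  have hmkc : ∀ a b : R, ⁅(a : R ⧸ N), (b : R ⧸ N)⁆ = ((⁅a, b⁆ : R) : R ⧸ N) := fun a b =>
    (map_commutatorElement (QuotientGroup.mk' N) a b).symm
  have hcommS : ∀ y y' : R ⧸ N, ⁅y, y'⁆ ∈ Subgroup.center (R ⧸ N) := fun y y' => by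
    induction y using QuotientGroup.induction_on with
    | _ a =>
      induction y' using QuotientGroup.induction_on with
      | _ b =>
        refine Subgroup.mem_center_iff.2 fun t => ?_
        induction t using QuotientGroup.induction_on with
        | _ r =>
          rw [hmkc, ← QuotientGroup.mk_mul, ← QuotientGroup.mk_mul, Subgroup.mem_center_iff.1 (hcomm a b) r]
  have hLz : ∀ a : Subgroup.center R, L₁ a = (χ a : k) • 1 := fun a =>
    LinearMap.ext fun y => Subtype.ext (y.2 a)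
  obtain ⟨y₀, hy₀⟩ := exists_ne (0 : W)
  have hrad : ∀ s : R, (s : R ⧸ N) ∈ Subgroup.center (R ⧸ N) ↔ Rad χ s := by
    intro s
    rw [Subgroup.mem_center_iff]
    constructor
    · intro h t w hw
      have h0 : ⁅(s : R ⧸ N), (t : R ⧸ N)⁆ = 1 := commutatorElement_eq_one_iff_mul_comm.2 (h _).symm
      rw [hmkc, ← hw, QuotientGroup.eq_one_iff, MonoidHom.mem_ker, hLz] at h0
      refine Units.ext (smul_left_injective k hy₀ ?_)
      simpa using LinearMap.congr_fun h0 y₀
    · intro h t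
      induction t using QuotientGroup.induction_on with
      | _ t =>
        refine (commutatorElement_eq_one_iff_mul_comm.1 ?_).symm
        rw [hmkc, QuotientGroup.eq_one_iff, MonoidHom.mem_ker,
          show L₁ ⁅s, t⁆ = (χ ⟨⁅s, t⁆, hcomm s t⟩ : k) • 1 from hLz ⟨_, hcomm s t⟩, h t ⟨_, hcomm s t⟩ rfl,
          Units.val_one, one_smul]
  set zM := cM ⟨⟨z, hz.mem⟩, hzS⟩ with hzM
  set τc := c ⟨z, hz.mem⟩ with hτc
  have hτmk : ∀ s : R, (σ ^ p ^ (f - 1)) (s : R ⧸ N) = ((τc s : R) : R ⧸ N) := fun s => by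
    rw [hσmk, hfz]
  have hτS : ∀ y y' : R ⧸ N, (σ ^ p ^ (f - 1)) ⁅y, y'⁆ = ⁅y, y'⁆ := fun y y' => by
    induction y using QuotientGroup.induction_on with
    | _ a =>
      induction y' using QuotientGroup.induction_on with
      | _ b => rw [hmkc, hτmk]; exact congrArg _ (hz.fix_center hinj R hRk c hcv ⟨_, hcomm a b⟩)
  have hscal : ∀ y y' : R ⧸ N, ∃ d : k, L ⁅y, y'⁆ = d • 1 := fun y y' => by
    induction y using QuotientGroup.induction_on with
    | _ a =>
      induction y' using QuotientGroup.induction_on with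
      | _ b => exact ⟨χ ⟨_, hcomm a b⟩, by rw [hmkc]; exact hLz ⟨_, hcomm a b⟩⟩
  -- elements fixed modulo the centre
  let C₀ : Subgroup R := (fixSub zM).comap π
  have hC₀ : ∀ s : R, s ∈ C₀ ↔
      ((σ ^ p ^ (f - 1)) (s : R ⧸ N)) * (s : R ⧸ N)⁻¹ ∈ Subgroup.center (R ⧸ N) := fun s => by
    rw [hτmk, ← QuotientGroup.mk_inv, ← QuotientGroup.mk_mul, hrad, ← hker, map_mul, map_inv, mul_inv_eq_one,
      Subgroup.mem_comap, mem_fixSub, hzM, hcM]
  let C : Subgroup (R ⧸ N) := C₀.map (QuotientGroup.mk' N)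
  have hNC₀ : N ≤ C₀ := fun s hs => by
    rw [hC₀, (QuotientGroup.eq_one_iff s).2 hs, map_one, inv_one, mul_one]
    exact one_mem _
  have hCc : C.comap (QuotientGroup.mk' N) = C₀ := by
    rw [Subgroup.comap_map_eq, QuotientGroup.ker_mk', sup_eq_left.2 hNC₀]
  have hC : ∀ y, y ∈ C ↔ (σ ^ p ^ (f - 1)) y * y⁻¹ ∈ Subgroup.center (R ⧸ N) := fun y => by
    induction y using QuotientGroup.induction_on with
    | _ s => exact (Subgroup.ext_iff.1 hCc s).trans (hC₀ s)
  have hidx : (fixSub zM).index = C.index := by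
    rw [← Subgroup.index_comap_of_surjective (fixSub zM) hπ,
      ← Subgroup.index_comap_of_surjective C (QuotientGroup.mk'_surjective N), hCc]
  have hSdvd : Nat.card (R ⧸ N) ∣ Nat.card R := Subgroup.card_quotient_dvd_card N
  rcases index_fixed_mod_center (q := q) hp2 (hRq.to_quotient N)
      (CfsgLib.FpfAut.natCast_ne_zero_of_dvd hSdvd hRk) L hLinj hcommS hscal σ hσf T hT hTL hTsum hτS C hC with
    h | ⟨hf2, h⟩
  · exact Or.inl (hidx ▸ h)
  · refine Or.inr ⟨cM (⟨x₁, hx₁S⟩ ^ p ^ (f - 2)), ⟨_, rfl⟩, ?_, hidx ▸ h⟩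
    rw [← map_pow, ← pow_mul, ← pow_succ, show f - 2 + 1 = f - 1 by omega]
    exact congrArg cM (Subtype.ext hfz)

/-- The commutator of two pinched elements centralises the coprime groups normalised by `P`. -/
theorem commutator_centralizes [FiniteDimensional k V] [CharP k p] (hp2 : p ≠ 2)
    (ρ : H →* Module.End k V) (hinj : Function.Injective ρ) (P : Subgroup H) (hP : IsPGroup p P)
    {z ζ : H} (hz : Pinched p ρ P z) (hζ : Pinched p ρ P ζ)
    {q : ℕ} [hq : Fact q.Prime] (hqp : q ≠ p) {R₀ : Subgroup H} (hR₀ : IsPGroup q R₀)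
    (hPR₀ : P ≤ Subgroup.normalizer (R₀ : Set H)) :
    ∀ r ∈ R₀, ⁅ζ, z⁆ * r = r * ⁅ζ, z⁆ := by
  classical
  by_contra hmov
  obtain ⟨R, ⟨hRR₀, hPR, hRmov⟩, hRmin⟩ := (wellFounded_lt (α := Subgroup H)).has_min
    {X | X ≤ R₀ ∧ P ≤ Subgroup.normalizer (X : Set H) ∧ ¬ ∀ r ∈ X, ⁅ζ, z⁆ * r = r * ⁅ζ, z⁆}
    ⟨R₀, le_rfl, hPR₀, hmov⟩
  have hRq : IsPGroup q R := hR₀.to_le hRR₀
  have hRp : ¬ p ∣ Nat.card R := by
    obtain ⟨i, hi⟩ := IsPGroup.iff_card.1 hRq
    rw [hi]
    intro h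
    exact hqp ((Nat.prime_dvd_prime_iff_eq hp.out hq.out).1 (hp.out.dvd_of_dvd_pow h)).symm
  have hRk : (Nat.card R : k) ≠ 0 := by rwa [Ne, CharP.cast_eq_zero_iff k p]
  haveI : Nontrivial R := by
    rw [Subgroup.nontrivial_iff_ne_bot]
    rintro rfl
    exact hRmov fun r hr => by rw [Subgroup.mem_bot.1 hr, mul_one, one_mul]
  let c : P →* MulAut R := R.normalizerMonoidHom.comp (Subgroup.inclusion hPR)
  have hcv : ∀ (y : P) (s : R), ((c y s : R) : H) = y * s * (y : H)⁻¹ := fun y s => rfl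
  set w : P := ⁅(⟨ζ, hζ.mem⟩ : P), ⟨z, hz.mem⟩⁆ with hwdef
  have hwv : (w : H) = ⁅ζ, z⁆ := map_commutatorElement P.subtype _ _
  have hwfix : ∀ s : R, c w s = s → ⁅ζ, z⁆ * (s : H) = s * ⁅ζ, z⁆ := fun s hs => by
    have h := congrArg Subtype.val hs
    rw [hcv, hwv] at h
    exact mul_inv_eq_iff_eq_mul.1 h
  -- the centre is centralised
  have hcfix : ∀ s ∈ Subgroup.center R, c w s = s := by
    intro s hs
    have h1 : ∀ {v : H} (hv : Pinched p ρ P v), ∀ a ∈ Subgroup.center R, c ⟨v, hv.mem⟩ a = a :=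
      fun hv a ha => hv.fix_center hinj R hRk c hcv ⟨a, ha⟩
    have h2 : ∀ {v : H} (hv : Pinched p ρ P v), ∀ a ∈ Subgroup.center R, (c ⟨v, hv.mem⟩)⁻¹ a = a :=
      fun hv a ha => by
        conv_lhs => rw [← h1 hv a ha]
        exact (c ⟨_, hv.mem⟩).symm_apply_apply a
    rw [hwdef, map_commutatorElement, commutatorElement_def, MulAut.mul_apply, MulAut.mul_apply,
      MulAut.mul_apply, h2 hz s hs, h2 hζ s hs, h1 hz s hs, h1 hζ s hs]
  -- all conjugates of the commutator centralise the proper subgroups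
  have hnorm : ∀ X : Subgroup R, (∀ y : P, X.map (c y).toMonoidHom ≤ X) →
      P ≤ Subgroup.normalizer ((X.map R.subtype : Subgroup H) : Set H) := by
    intro X hX y hy
    rw [Subgroup.mem_normalizer_iff_map_conj_eq]
    refine Subgroup.eq_of_le_of_card_ge ?_
      (Subgroup.card_map_of_injective (f := (MulAut.conj y).toMonoidHom) (MulAut.conj y).injective).ge
    rintro _ ⟨_, ⟨s, hs, rfl⟩, rfl⟩
    exact ⟨c ⟨y, hy⟩ s, hX ⟨y, hy⟩ ⟨s, hs, rfl⟩, rfl⟩
  have hmin' : ∀ X : Subgroup R, X ≠ ⊤ → (∀ y : P, X.map (c y).toMonoidHom ≤ X) →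
      ∀ (y : P), ∀ s ∈ X, c (y * w * y⁻¹) s = s := by
    intro X hX hXinv y s hs
    have h1 : ∀ t ∈ X, c w t = t := by
      intro t ht
      have h2 : ⁅ζ, z⁆ * (t : H) = t * ⁅ζ, z⁆ := by
        by_contra hne
        refine hRmin (X.map R.subtype) ⟨(Subgroup.map_subtype_le X).trans hRR₀, hnorm X hXinv, fun h =>
          hne (h _ ⟨t, ht, rfl⟩)⟩ (lt_of_le_of_ne (Subgroup.map_subtype_le X) fun h => hX ?_)
        refine Subgroup.map_injective R.subtype_injective (h.trans ?_)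
        rw [← MonoidHom.range_eq_map, Subgroup.range_subtype]
      refine Subtype.ext ?_
      rw [hcv, hwv, h2, mul_inv_cancel_right]
    have h3 : c w (c y⁻¹ s) = c y⁻¹ s := h1 _ (hXinv y⁻¹ ⟨s, hs, rfl⟩)
    rw [map_mul, map_mul, MulAut.mul_apply, MulAut.mul_apply, h3, map_inv]
    exact (c y).apply_symm_apply s
  set gens := Set.range fun yt : P × R => c (yt.1 * w * yt.1⁻¹) yt.2 * yt.2⁻¹ with hgens
  have hgeninv : ∀ y : P, (Subgroup.closure gens).map (c y).toMonoidHom ≤ Subgroup.closure gens := by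
    intro y
    rw [MonoidHom.map_closure, Subgroup.closure_le]
    rintro _ ⟨_, ⟨⟨y', s⟩, rfl⟩, rfl⟩
    refine Subgroup.subset_closure ⟨(y * y', c y s), ?_⟩
    show c (y * y' * w * (y * y')⁻¹) (c y s) * (c y s)⁻¹ = c y (c (y' * w * y'⁻¹) s * s⁻¹)
    rw [map_mul (c y), map_inv (c y), ← MulAut.mul_apply, ← map_mul, ← MulAut.mul_apply, ← map_mul]
    congr 3
    group
  obtain ⟨i, hi⟩ := hP w
  have hwcop : (orderOf (w : H)).Coprime (Nat.card R) :=
    Nat.Coprime.coprime_dvd_left (orderOf_dvd_of_pow_eq_one (congrArg Subtype.val hi))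
      (((Nat.Prime.coprime_iff_not_dvd hp.out).2 hRp).pow_left i)
  have hgen : Subgroup.closure gens = ⊤ := by
    by_contra hne
    refine hRmov fun r hr => ?_
    rw [← hwv]
    have hmem : c w ⟨r, hr⟩ * (⟨r, hr⟩ : R)⁻¹ ∈ Subgroup.closure gens :=
      Subgroup.subset_closure ⟨((1 : P), (⟨r, hr⟩ : R)), by simp⟩
    have h1 := hmin' _ hne hgeninv 1 _ hmem
    rw [one_mul, inv_one, mul_one] at h1
    refine CfsgLib.Coprime.commute_of_commute_commutator_mem (H := R)
      (mul_inv_eq_iff_eq_mul.1 (congrArg Subtype.val h1))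
      (c w ⟨r, hr⟩ * (⟨r, hr⟩ : R)⁻¹).2 hwcop
  -- class two
  have hcomm : ∀ s t : R, ⁅s, t⁆ ∈ Subgroup.center R := by
    have hne : commutator R ≠ ⊤ := fun h => CfsgLib.PGroup.frattini_ne_top (P := R)
      (top_le_iff.1 (h ▸ CfsgLib.PGroup.commutator_le_frattini hRq))
    have hinv : ∀ y : P, (commutator R).map (c y).toMonoidHom ≤ commutator R := fun y =>
      (Subgroup.characteristic_iff_map_eq.1 inferInstance (c y)).le
    intro s t
    have hf : ⁅s, t⁆ ∈ commutator R :=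
      Subgroup.commutator_mem_commutator (Subgroup.mem_top s) (Subgroup.mem_top t)
    refine Subgroup.mem_center_iff.2 fun r => ?_
    suffices h : Subgroup.closure gens ≤ Subgroup.centralizer {⁅s, t⁆} by
      exact Subgroup.mem_centralizer_singleton_iff.1 (h (hgen ▸ Subgroup.mem_top r))
    rw [Subgroup.closure_le]
    rintro _ ⟨⟨y, m⟩, rfl⟩
    rw [SetLike.mem_coe, Subgroup.mem_centralizer_singleton_iff]
    set σ := c (y * w * y⁻¹) with hσ
    set e := ⁅s, t⁆
    have hfix : ∀ g ∈ commutator R, σ g = g := fun g hg => hmin' _ hne hinv y g hg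
    have h1 : σ (m⁻¹ * e * m) = m⁻¹ * e * m :=
      hfix _ (by simpa using (inferInstance : (commutator R).Normal).conj_mem e hf m⁻¹)
    rw [map_mul, map_mul, map_inv, hfix e hf] at h1
    show σ m * m⁻¹ * e = e * (σ m * m⁻¹)
    calc σ m * m⁻¹ * e = σ m * (m⁻¹ * e * m) * m⁻¹ := by group
      _ = σ m * ((σ m)⁻¹ * e * σ m) * m⁻¹ := by rw [h1]
      _ = _ := by group
  -- modulo every radical
  have hkey : ∀ (χ : Subgroup.center R →* kˣ) (u : V), u ≠ 0 →
      (∀ a : Subgroup.center R, ρ ((a : R) : H) u = (χ a : k) • u) → ∀ s, Rad χ (c w s * s⁻¹) := by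
    intro χ u hu hχu
    let β : R → R → kˣ := fun s t => χ ⟨⁅s, t⁆, hcomm s t⟩
    have hrad : ∀ s, Rad χ s ↔ ∀ t, β s t = 1 := fun s =>
      ⟨fun h t => h t _ rfl, fun h t a ha => by rw [← h t]; exact congrArg χ (Subtype.ext ha)⟩
    have hβmul : ∀ s s' t, β (s * s') t = β s t * β s' t := fun s s' t => by
      rw [← map_mul]
      refine congrArg χ (Subtype.ext ?_)
      show ⁅s * s', t⁆ = ⁅s, t⁆ * ⁅s', t⁆
      calc ⁅s * s', t⁆ = s * ⁅s', t⁆ * s⁻¹ * ⁅s, t⁆ := by simp only [commutatorElement_def]; group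
        _ = ⁅s', t⁆ * ⁅s, t⁆ := by rw [Subgroup.mem_center_iff.1 (hcomm s' t) s, mul_inv_cancel_right]
        _ = _ := (Subgroup.mem_center_iff.1 (hcomm s' t) _).symm
    let D : Subgroup R :=
      { carrier := {s | ∀ t, β s t = 1}
        one_mem' := fun t => (congrArg χ (Subtype.ext (commutatorElement_one_left t) :
          (⟨⁅(1 : R), t⁆, hcomm 1 t⟩ : Subgroup.center R) = 1)).trans (map_one χ)
        mul_mem' := fun {s s'} hs hs' t => by rw [hβmul, hs, hs', one_mul]
        inv_mem' := fun {s} hs t => by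
          have h := hβmul s⁻¹ s t
          rw [inv_mul_cancel, hs, mul_one] at h
          rw [← h]
          exact (congrArg χ (Subtype.ext (commutatorElement_one_left t) :
            (⟨⁅(1 : R), t⁆, hcomm 1 t⟩ : Subgroup.center R) = 1)).trans (map_one χ) }
    have hcenD : ∀ a ∈ Subgroup.center R, a ∈ D := fun a ha t =>
      (congrArg χ (Subtype.ext (commutatorElement_eq_one_iff_mul_comm.2 (Subgroup.mem_center_iff.1 ha t).symm) :
        (⟨⁅a, t⁆, hcomm a t⟩ : Subgroup.center R) = 1)).trans (map_one χ)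
    haveI : D.Normal := ⟨fun a ha b => by
      have h := mul_mem (hcenD _ (hcomm b a)) ha
      rwa [commutatorElement_def, inv_mul_cancel_right] at h⟩
    letI : CommGroup (R ⧸ D) := { (inferInstance : Group (R ⧸ D)) with
      mul_comm := fun a b => by
        induction a using QuotientGroup.induction_on with
        | _ a =>
          induction b using QuotientGroup.induction_on with
          | _ b =>
            rw [← QuotientGroup.mk_mul, ← QuotientGroup.mk_mul, QuotientGroup.eq]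
            have h := hcenD _ (hcomm b⁻¹ a⁻¹)
            rw [commutatorElement_def] at h
            simpa [mul_assoc] using h }
    let St : Subgroup P :=
      { carrier := {y | ∀ a, χ (centerAut (c y) a) = χ a}
        one_mem' := fun a => congrArg χ (Subtype.ext (by show c 1 a = a; rw [map_one]; rfl))
        mul_mem' := fun {y y'} hy hy' a => by
          rw [show centerAut (c (y * y')) a = centerAut (c y) (centerAut (c y') a) from
            Subtype.ext (by show c (y * y') a = c y (c y' a); rw [map_mul]; rfl), hy, hy']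
        inv_mem' := fun {y} hy a => by
          rw [← hy (centerAut (c y⁻¹) a)]
          exact congrArg χ (Subtype.ext (by
            show c y (c y⁻¹ a) = a
            rw [← MulAut.mul_apply, ← map_mul, mul_inv_cancel, map_one]; rfl)) }
    have hDinv : ∀ y : St, D.map (c y).toMonoidHom = D := by
      intro y
      refine Subgroup.eq_of_le_of_card_ge ?_
        (Subgroup.card_map_of_injective (f := (c y).toMonoidHom) (c y).injective).ge
      rintro _ ⟨s, hs, rfl⟩ t
      obtain ⟨t', rfl⟩ := (c y).surjective t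
      refine Eq.trans ?_ (((y.2 : ∀ a, χ (centerAut (c y) a) = χ a) ⟨⁅s, t'⁆, hcomm s t'⟩).trans (hs t'))
      exact congrArg χ (Subtype.ext (map_commutatorElement (c y) s t').symm)
    let cM : St →* MulAut (R ⧸ D) := MonoidHom.mk' (fun y => QuotientGroup.congr D D (c y) (hDinv y))
      fun y y' => MulEquiv.ext fun x => by
        induction x using QuotientGroup.induction_on with
        | _ s =>
          show ((c (y * y' : St) s : R) : R ⧸ D) = ((c y (c y' s) : R) : R ⧸ D)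
          rw [Subgroup.coe_mul, map_mul]; rfl
    have hzSt : ∀ {v : H} (hv : Pinched p ρ P v), (⟨v, hv.mem⟩ : P) ∈ St := fun hv a =>
      congrArg χ (Subtype.ext (hv.fix_center hinj R hRk c hcv a))
    have hsmall : ∀ {v : H} (hv : Pinched p ρ P v), Small p cM.range (cM ⟨_, hzSt hv⟩) := fun hv =>
      exists_small (q := q) hp2 ρ hinj P R hRq hRk hcomm c hcv χ hu hχu St (fun _ => Iff.rfl)
        (QuotientGroup.mk' D) (QuotientGroup.mk'_surjective D)
        (fun s => (QuotientGroup.eq_one_iff s).trans (hrad s).symm) cM (fun _ _ => rfl) hv (hzSt hv)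
    have hMp : ¬ p ∣ Nat.card (R ⧸ D) := fun h => hRp (h.trans (Subgroup.card_quotient_dvd_card D))
    have hcm := commute_of_small hp2 _ (R ⧸ D) rfl hMp cM.range
      ((hP.to_subgroup St).of_surjective cM.rangeRestrict cM.rangeRestrict_surjective)
      _ ⟨_, rfl⟩ _ ⟨_, rfl⟩ (hsmall hz) (hsmall hζ)
    intro s
    rw [hrad]
    show c w s * s⁻¹ ∈ D
    rw [← QuotientGroup.eq_one_iff, QuotientGroup.mk_mul, QuotientGroup.mk_inv, mul_inv_eq_one]
    have hwS : w ∈ St := mul_mem (mul_mem (mul_mem (hzSt hζ) (hzSt hz)) (inv_mem (hzSt hζ))) (inv_mem (hzSt hz))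
    have h1 : cM ⟨w, hwS⟩ = 1 := by
      have h2 : (⟨w, hwS⟩ : St) = ⁅(⟨⟨ζ, hζ.mem⟩, hzSt hζ⟩ : St), ⟨⟨z, hz.mem⟩, hzSt hz⟩⁆ :=
        Subtype.ext (map_commutatorElement St.subtype (⟨⟨ζ, hζ.mem⟩, hzSt hζ⟩ : St) ⟨⟨z, hz.mem⟩, hzSt hz⟩).symm
      rw [h2, map_commutatorElement, commutatorElement_eq_one_iff_mul_comm]
      exact hcm.symm
    exact DFunLike.congr_fun h1 (s : R ⧸ D)
  refine hRmov fun r hr => ?_
  set d := c w ⟨r, hr⟩ * (⟨r, hr⟩ : R)⁻¹ with hd
  have hdz : d ∈ Subgroup.center R := by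
    refine Subgroup.mem_center_iff.2 fun t => (commutatorElement_eq_one_iff_mul_comm.1 ?_).symm
    refine Subtype.ext (hinj ?_)
    rw [OneMemClass.coe_one, map_one, ← sub_eq_zero]
    refine CfsgLib.FpfAut.eq_zero_of_eigen
      (CfsgLib.FpfAut.natCast_ne_zero_of_dvd (Subgroup.card_subgroup_dvd_card (Subgroup.center R)) hRk)
      ((ρ.comp R.subtype).comp (Subgroup.center R).subtype) _ fun χ u hu => ?_
    rcases eq_or_ne u 0 with rfl | hu0
    · exact map_zero _
    · rw [LinearMap.sub_apply, Module.End.one_apply, sub_eq_zero,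
        show ρ ((⁅d, t⁆ : R) : H) u = (χ ⟨⁅d, t⁆, hcomm d t⟩ : k) • u from hu ⟨_, hcomm d t⟩,
        hkey χ u hu0 hu _ t ⟨_, hcomm d t⟩ rfl, Units.val_one, one_smul]
  rw [← hwv]
  refine CfsgLib.Coprime.commute_of_commute_commutator_mem (H := R) ?_ d.2 hwcop
  have h := hwfix d (hcfix d hdz)
  rw [← hwv] at h
  exact h

end Setting

end CfsgLib.PLengthExp
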