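import Mathlib
import Cfsg.Agent.PLengthExp.ExceptionalPair

/-!
The `p`-length is at most twice the exponent of the Sylow `p`-subgroups.
-/

set_option autoImplicit false

open scoped commutatorElement

namespace CfsgLib.PLengthExp

universe u

open Cfsg

variable {p : ℕ} [hp : Fact p.Prime]

theorem pCore_le_of_sylow {G : Type u} [Group G] [Finite G] (P : Sylow p G) :
    pCore p G ≤ (P : Subgroup G) := by
  obtain ⟨T, hT⟩ := (CfsgLib.Constrained.isPGroup_pCore (p := p) (G := G)).exists_le_sylow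
  obtain ⟨y, hy⟩ := MulAction.exists_smul_eq G T P
  intro x hx
  rw [← hy, Sylow.coe_subgroup_smul]
  refine Subgroup.mem_pointwise_smul_iff_inv_smul_mem.2 (hT ?_)
  exact (inferInstance : (pCore p G).Normal).conj_mem' x hx y

/-- An element of a `p`-group centralising every coprime group it normalises is trivial modulo `O_{p'}`. -/
theorem mem_pPrimeCore_of_centralizes {H : Type u} [Group H] [Finite H] (hH : IsPSolvable p H)
    (hO : pCore p H = ⊥) {P : Subgroup H} (hP : IsPGroup p P) {a : H}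
    (h : ∀ q : ℕ, q.Prime → q ≠ p → ∀ R : Subgroup H, IsPGroup q R →
      P ≤ Subgroup.normalizer (R : Set H) → ∀ r ∈ R, a * r = r * a) : a ∈ pPrimeCore p H := by
  set Q := pPrimeCore p H with hQ
  have htop : (Subgroup.centralizer ({a} : Set H)).subgroupOf Q = ⊤ := by
    refine CfsgLib.Constrained.eq_top_of_forall_sylow_le _ fun q hq => ?_
    haveI := Fact.mk hq
    obtain ⟨S, hS⟩ := CfsgLib.Coprime44.exists_invariant_sylow hP
      (CfsgLib.Constrained.pPrimeCore_not_dvd (p := p) (G := H))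
      (by rw [Subgroup.normalizer_eq_top]; exact le_top) q
    refine ⟨S, fun s hs => ?_⟩
    rw [Subgroup.mem_subgroupOf, Subgroup.mem_centralizer_singleton_iff]
    rcases eq_or_ne q p with hqp | hqp
    · subst hqp
      have h0 : (S : Subgroup Q) = ⊥ := by
        obtain ⟨i, hi⟩ := IsPGroup.iff_card.1 S.isPGroup'
        rw [← Subgroup.card_eq_one, hi]
        rcases Nat.eq_zero_or_pos i with rfl | hi0
        · rw [pow_zero]
        · exact absurd ((dvd_pow_self q hi0.ne').trans
            (hi ▸ Subgroup.card_subgroup_dvd_card (S : Subgroup Q)))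
            (CfsgLib.Constrained.pPrimeCore_not_dvd (p := q) (G := H))
      rw [h0, Subgroup.mem_bot] at hs
      subst hs
      simp
    · exact (h q hq hqp _ (S.isPGroup'.map Q.subtype) hS _ ⟨s, hs, rfl⟩).symm
  refine CfsgLib.TISolvable.centralizer_pPrimeCore_le hH hO
    (Subgroup.mem_centralizer_iff.2 fun q hq => ?_)
  have h1 := (htop ▸ Subgroup.mem_top (⟨q, hq⟩ : Q) :
    (⟨q, hq⟩ : Q) ∈ (Subgroup.centralizer ({a} : Set H)).subgroupOf Q)
  rw [Subgroup.mem_subgroupOf, Subgroup.mem_centralizer_singleton_iff] at h1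
  exact h1

/-- Theorem B in the form needed: some translate of `x` has a non-commuting power. -/
theorem exists_commutator_ne {H : Type u} [Group H] [Finite H] (hp2 : p ≠ 2) (hH : IsPSolvable p H)
    (hO : pPrimeCore p H = ⊥) {x : H} {n : ℕ} (hxn : x ^ p ^ n ∉ pCore p H)
    (hxN : x ^ p ^ (n + 1) ∈ pCore p H) :
    ∃ v ∈ pCore p H, ⁅(v * x) ^ p ^ n, x ^ p ^ n⁆ ≠ 1 := by
  by_contra hcon
  push Not at hcon
  set N := p ^ n with hN
  have hN0 : 0 < N := pow_pos hp.out.pos n
  let E := Module.End (ZMod p) (Additive (FrattQuot p H))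
  let bc := Module.End.baseChangeHom (ZMod p) (Clo p) (Additive (FrattQuot p H))
  let t : E := autLin p H (conjAut p H x)
  have key : (t ^ N - 1) * ∑ i ∈ Finset.range N, t ^ i = 0 := by
    refine LinearMap.ext fun a => ?_
    obtain ⟨⟨v, hv⟩, hva⟩ := QuotientGroup.mk_surjective (Additive.toMul a)
    obtain ⟨hm, hf⟩ := map_mul_pow (pCore p H) (QuotientGroup.mk' (frattini ↥(pCore p H))) hv x N
    set w : ↥(pCore p H) := ⟨(v * x) ^ N * (x ^ N)⁻¹, hm⟩ with hw
    have h1 : (∑ i ∈ Finset.range N, t ^ i) a = Additive.ofMul (w : FrattQuot p H) := by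
      rw [LinearMap.sum_apply]
      refine Additive.toMul.injective ?_
      rw [toMul_sum]
      refine Eq.trans ?_ hf.symm
      refine Finset.prod_congr rfl fun i _ => ?_
      show Additive.toMul ((autLin p H (conjAut p H x) ^ i) a) = _
      rw [← map_pow, ← map_pow]
      show conjAut p H (x ^ i) (Additive.toMul a) = _
      rw [← hva, conjAut_mk]
      rfl
    have h2 : MulAut.conjNormal (x ^ N) w = w := by
      refine Subtype.ext ?_
      rw [MulAut.conjNormal_apply]
      have h3 := commutatorElement_eq_one_iff_mul_comm.1 (hcon v hv)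
      show x ^ N * ((v * x) ^ N * (x ^ N)⁻¹) * (x ^ N)⁻¹ = (v * x) ^ N * (x ^ N)⁻¹
      rw [← mul_assoc, ← h3]
      group
    rw [Module.End.mul_apply, h1, LinearMap.sub_apply, Module.End.one_apply, LinearMap.zero_apply, sub_eq_zero]
    show (autLin p H (conjAut p H x) ^ N) _ = _
    rw [← map_pow, ← map_pow]
    show Additive.ofMul (conjAut p H (x ^ N) (w : FrattQuot p H)) = _
    rw [conjAut_mk, h2]
  set T := rep p H (x : H ⧸ pCore p H) with hT
  have hbc : bc t = T := rfl
  have hzero : (T - 1) ^ (2 * N - 1) = 0 := by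
    rw [show 2 * N - 1 = N + (N - 1) by omega, pow_add, hN, sub_one_pow_eq_sum (Clo p) (p := p) T n,
      CfsgLib.HallHigmanB.sub_one_pow_char_pow, ← hN]
    have h := congrArg bc key
    rw [map_mul, map_sub, map_one, map_pow, map_sum, map_zero, hbc] at h
    simpa only [map_pow, hbc] using h
  have hbnd : 2 * p ^ n ≤ p ^ (n + 1) - p ^ n := by
    have h3 : 3 ≤ p := by have := hp.out.two_le; omega
    have := Nat.mul_le_mul_left (p ^ n) h3
    rw [pow_succ]
    omega
  rcases CfsgLib.HallHigmanB.theorem_b (rep p H) (rep_injective p H hH hO)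
      (CfsgLib.Constrained.IsPSolvable.quotient hH _) CfsgLib.Constrained.pCore_quotient_pCore
      (x : H ⧸ pCore p H) (n + 1) (by omega) (orderOf_mk_eq _ hxn hxN) _ hzero with
    h | ⟨n₀, q, m, h1, h2, -, -, -, -, h3⟩
  · omega
  · have h4 : p ^ (n + 1 - n₀) * (p ^ n₀ - 1) = p ^ (n + 1) - p ^ (n + 1 - n₀) := by
      rw [Nat.mul_sub, mul_one, ← pow_add, Nat.sub_add_cancel h2]
    have h5 : p ^ (n + 1 - n₀) ≤ p ^ n := Nat.pow_le_pow_right hp.out.pos (by omega)
    omega

/-- Two factors of the lower `p`-series absorb one step of the exponent. -/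
theorem pow_mem_pPrimePCore {K : Type u} [Group K] [Finite K] (hp2 : p ≠ 2) (hK : IsPSolvable p K)
    (hO : pPrimeCore p K = ⊥) {n : ℕ} (hexp : ExpLE p (n + 1) K) {x : K} (hx : ∃ i, x ^ p ^ i = 1) :
    (x : K ⧸ pCore p K) ^ p ^ n ∈ pPrimePCore p (K ⧸ pCore p K) := by
  classical
  by_contra hne
  have hH : IsPSolvable p (K ⧸ pCore p K) := CfsgLib.Constrained.IsPSolvable.quotient hK _
  let mk : K →* K ⧸ pCore p K := QuotientGroup.mk' _
  have hmk : Function.Surjective mk := QuotientGroup.mk'_surjective _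
  have hexp0 : ExpLE p (n + 1) (K ⧸ pCore p K) := hexp.of_surjective mk hmk
  let f : K ⧸ pCore p K →* (K ⧸ pCore p K) ⧸ pPrimeCore p (K ⧸ pCore p K) := QuotientGroup.mk' _
  have hf : Function.Surjective f := QuotientGroup.mk'_surjective _
  have hx0 : ∃ i, (x : K ⧸ pCore p K) ^ p ^ i = 1 := by
    obtain ⟨i, hi⟩ := hx
    exact ⟨i, by rw [← QuotientGroup.mk_pow, hi, QuotientGroup.mk_one]⟩
  set x0 : K ⧸ pCore p K := (x : K ⧸ pCore p K) with hx0def
  obtain ⟨v, hv, hcne⟩ := exists_commutator_ne hp2 (CfsgLib.Constrained.IsPSolvable.quotient hH _)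
    CfsgLib.Constrained.pPrimeCore_quotient_pPrimeCore (x := f x0) (n := n) (fun h => hne (by
      show f (x0 ^ p ^ n) ∈ pCore p _
      rwa [map_pow]))
    (by rw [← map_pow, hexp0 _ hx0, map_one]; exact one_mem _)
  obtain ⟨S, hS⟩ : ∃ S : Sylow p (K ⧸ pCore p K), x0 ∈ (S : Subgroup _) := by
    obtain ⟨i, hi⟩ := hx0
    obtain ⟨j, -, hj⟩ := (Nat.dvd_prime_pow hp.out).1 (orderOf_dvd_of_pow_eq_one hi)
    obtain ⟨S, hS⟩ := (IsPGroup.of_card (p := p) (n := j)
      (show Nat.card (Subgroup.zpowers x0) = p ^ j by rw [Nat.card_zpowers, hj])).exists_le_sylow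
    exact ⟨S, hS (Subgroup.mem_zpowers x0)⟩
  obtain ⟨u, hu, rfl⟩ : v ∈ (S : Subgroup _).map f := by
    rw [← Sylow.coe_mapSurjective hf]
    exact pCore_le_of_sylow _ hv
  have hy : u * x0 ∈ (S : Subgroup _) := mul_mem hu hS
  have hpin : ∀ y ∈ (S : Subgroup (K ⧸ pCore p K)), Pinched p (rep p K) (S : Subgroup _) (y ^ p ^ n) := by
    intro y hyS
    obtain ⟨i, hi⟩ := S.isPGroup' ⟨y, hyS⟩
    have hyp : ∃ i, y ^ p ^ i = 1 := ⟨i, congrArg Subtype.val hi⟩
    obtain ⟨g, hg, rfl⟩ := exists_preimage_pow mk hmk hyp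
    refine ⟨_, hyS, n, rfl, by rw [← pow_mul, ← pow_succ, hexp0 _ hyp], ?_⟩
    by_contra hsum
    obtain ⟨w, hw, hne'⟩ := exists_mul_pow_ne p K (x := g) hsum
    exact hne' (by rw [hexp _ hg, hexp _ (exists_pow_eq_one_mul CfsgLib.Constrained.isPGroup_pCore hw hg)])
  have hc : ⁅(u * x0) ^ p ^ n, x0 ^ p ^ n⁆ ∈ pPrimeCore p (K ⧸ pCore p K) := by
    refine mem_pPrimeCore_of_centralizes hH CfsgLib.Constrained.pCore_quotient_pCore S.isPGroup' ?_
    intro q hq hqp R hR hPR
    haveI := Fact.mk hq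
    exact commutator_centralizes hp2 (rep p K) (rep_injective p K hK hO) _ S.isPGroup'
      (hpin _ hS) (hpin _ hy) hqp hR hPR
  refine hcne ?_
  rw [← map_mul, ← map_pow, ← map_pow, ← map_commutatorElement]
  exact (QuotientGroup.eq_one_iff _).2 hc

/-- The bound `2e`. -/
theorem pLengthLE_two_mul (hp2 : p ≠ 2) :
    ∀ (e : ℕ) (K : Type u) [Group K] [Finite K], IsPSolvable p K → ExpLE p e K → PLengthLE p (2 * e) K := by
  intro e
  induction e with
  | zero =>
    intro K _ _ _ hexp
    rw [mul_zero, CfsgLib.Constrained.pLengthLE_zero_iff]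
    intro hdvd
    obtain ⟨x, hx⟩ := exists_prime_orderOf_dvd_card' p hdvd
    have h := hexp x ⟨1, by rw [pow_one, ← hx, pow_orderOf_eq_one]⟩
    rw [pow_zero, pow_one] at h
    rw [h, orderOf_one] at hx
    exact hp.out.ne_one hx.symm
  | succ e ih =>
    intro K _ _ hK hexp
    have hK1 : IsPSolvable p (K ⧸ pPrimeCore p K) := CfsgLib.Constrained.IsPSolvable.quotient hK _
    have hK2 : IsPSolvable p (K ⧸ pPrimePCore p K) := CfsgLib.Constrained.IsPSolvable.quotient hK _
    rw [show 2 * (e + 1) = 2 * e + 1 + 1 by omega]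
    refine CfsgLib.Constrained.pLengthLE_succ_of_quotient (CfsgLib.Constrained.pLengthLE_succ_of_quotient
      (ih _ (CfsgLib.Constrained.IsPSolvable.quotient hK2 _) ?_))
    intro y hy
    obtain ⟨g, hg, rfl⟩ := exists_preimage_pow
      ((QuotientGroup.mk' (pPrimePCore p (K ⧸ pPrimePCore p K))).comp (QuotientGroup.mk' (pPrimePCore p K)))
      ((QuotientGroup.mk'_surjective _).comp (QuotientGroup.mk'_surjective _)) hy
    let q₁ : K ⧸ pPrimeCore p K →* K ⧸ pPrimePCore p K :=
      QuotientGroup.lift _ (QuotientGroup.mk' _)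
        (by rw [QuotientGroup.ker_mk']; exact CfsgLib.Constrained.pPrimeCore_le_pPrimePCore)
    have hq₁ : ∀ b, q₁ b = 1 ↔ b ∈ pCore p (K ⧸ pPrimeCore p K) := fun b => by
      induction b using QuotientGroup.induction_on with
      | _ a => exact QuotientGroup.eq_one_iff a
    let q₂ : (K ⧸ pPrimeCore p K) ⧸ pCore p (K ⧸ pPrimeCore p K) →* K ⧸ pPrimePCore p K :=
      QuotientGroup.lift _ q₁ fun b hb => (hq₁ b).2 hb
    have hinj : Function.Injective q₂ := by
      rw [injective_iff_map_eq_one]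
      intro b hb
      induction b using QuotientGroup.induction_on with
      | _ a => exact (QuotientGroup.eq_one_iff a).2 ((hq₁ a).1 hb)
    let e₂ : (K ⧸ pPrimeCore p K) ⧸ pCore p (K ⧸ pPrimeCore p K) ≃* K ⧸ pPrimePCore p K :=
      MulEquiv.ofBijective q₂ ⟨hinj, fun b => by
        induction b using QuotientGroup.induction_on with
        | _ a => exact ⟨((a : K ⧸ pPrimeCore p K) : _ ⧸ pCore p (K ⧸ pPrimeCore p K)), rfl⟩⟩
    have h := Subgroup.mem_map_of_mem e₂.toMonoidHom (pow_mem_pPrimePCore hp2 hK1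
      CfsgLib.Constrained.pPrimeCore_quotient_pPrimeCore (hexp.of_surjective _ (QuotientGroup.mk'_surjective _))
      (x := (g : K ⧸ pPrimeCore p K)) (by
        obtain ⟨i, hi⟩ := hg
        exact ⟨i, by rw [← QuotientGroup.mk_pow, hi, QuotientGroup.mk_one]⟩))
    rw [CfsgLib.Constrained.map_pPrimePCore_map, map_pow] at h
    rw [← map_pow, MonoidHom.comp_apply, map_pow, QuotientGroup.mk'_apply, QuotientGroup.eq_one_iff]
    exact h

end CfsgLib.PLengthExp
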